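import Cfsg.Agent.Lib.RK3.Cnt

/-! Point sets with few intersection numbers with lines (S2194).  `q = Nat.card F`. -/

set_option autoImplicit false

namespace Cfsg.Lib.RK3

open Module Submodule
open scoped Classical

variable {F V : Type*} [Field F] [AddCommGroup V] [Module F V] [Finite F] [Finite V]

omit [Finite F] in
theorem sum_two (D : Set (Submodule F V)) {A U : Submodule F V} {f : Submodule F V → ℕ} {a b : ℕ}
    (ha : ∀ l ∈ up A U, l ∈ D → f l = a) (hb : ∀ l ∈ up A U, l ∉ D → f l = b) :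
    ∑ l ∈ up A U, f l = a * cu D A U + b * cu Dᶜ A U := by
  rw [← Finset.sum_filter_add_sum_filter_not _ (· ∈ D),
    Finset.sum_congr rfl fun l hl => ha l (Finset.mem_filter.1 hl).1 (Finset.mem_filter.1 hl).2,
    Finset.sum_congr rfl fun l hl => hb l (Finset.mem_filter.1 hl).1 (Finset.mem_filter.1 hl).2,
    Finset.sum_const, Finset.sum_const, smul_eq_mul, smul_eq_mul, mul_comm a, mul_comm b]
  unfold cu
  congr!

theorem ex_p : ∃ p : ℕ, p.Prime ∧ p ∣ Nat.card F ∧ ∀ d m, d ∣ Nat.card F ^ m → d = 1 ∨ p ∣ d := by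
  have := Fintype.ofFinite F
  obtain ⟨p, hp⟩ := CharP.exists F
  obtain ⟨n, pp, e⟩ := FiniteField.card F p
  rw [Nat.card_eq_fintype_card, e]
  refine ⟨p, pp, dvd_pow_self _ n.ne_zero, fun d m h => ?_⟩
  rw [← pow_mul] at h
  obtain ⟨_ | j, -, rfl⟩ := (Nat.dvd_prime_pow pp).1 h
  exacts [.inl rfl, .inr (dvd_pow_self _ j.succ_ne_zero)]

omit [Finite F] in
theorem cu_pos {D : Set (Submodule F V)} {A U : Submodule F V} : cu D A U ≠ 0 ↔ ∃ B ∈ up A U, B ∈ D := by
  simp [cu]

theorem cn_line (D : Set (Submodule F V)) {l : Submodule F V} (hl : finrank F l = 2) : cn D l + cn Dᶜ l = Nat.card F + 1 := by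
  rw [cu_add_compl, card_up bot_le, hl, finrank_bot, th_two]

theorem cu_plane (D : Set (Submodule F V)) {E z : Submodule F V} (hE : finrank F E = 3) (hz : z ∈ pts E) :
    cu D z E + cu Dᶜ z E = Nat.card F + 1 := by
  rw [cu_add_compl, card_up (mem_pts.1 hz).1, hE, (mem_pts.1 hz).2, th_two]

omit [Finite F] in
theorem up_line {E z l : Submodule F V} (hz : z ∈ pts E) : l ∈ up z E ↔ z ∈ pts l ∧ l ≤ E ∧ finrank F l = 2 := by
  simp [mem_up, mem_pts, (mem_pts.1 hz).2]

omit [Finite F] in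
theorem two_le_cn {D : Set (Submodule F V)} {l y z : Submodule F V} (hy : y ∈ pts l) (hz : z ∈ pts l) (a : y ∈ D)
    (b : z ∈ D) (e : y ≠ z) : 2 ≤ cn D l :=
  Finset.one_lt_card.2 ⟨y, Finset.mem_filter.2 ⟨hy, a⟩, z, Finset.mem_filter.2 ⟨hz, b⟩, e⟩

theorem arc_closed {D : Set (Submodule F V)} (h : ∀ l : Submodule F V, finrank F l = 2 → 2 ≤ cn D l → cn Dᶜ l = 0) :
    ∃ W : Submodule F V, ∀ y : Submodule F V, finrank F y = 1 → (y ∈ D ↔ y ≤ W) :=
  exists_sub_of_closed D fun y z u hy hz hu a b e le => not_not.1 (cu_eq_zero.1 (h _ (finrank_sup_pts hy hz e)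
    (two_le_cn (mem_pts.2 ⟨le_sup_left, hy⟩) (mem_pts.2 ⟨le_sup_right, hz⟩) a b e)) u (mem_pts.2 ⟨le, hu⟩))

theorem fr_comap (A : Submodule F V) (y : Submodule F (V ⧸ A)) :
    finrank F (y.comap A.mkQ) = finrank F A + finrank F y := by
  have le : A ≤ y.comap A.mkQ := le_comap_mkQ A y
  have := (A.mkQ.comp (y.comap A.mkQ).subtype).finrank_range_add_finrank_ker
  rw [LinearMap.range_comp, range_subtype, map_comap_eq_of_surjective A.mkQ_surjective, LinearMap.ker_comp, ker_mkQ,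
    (comapSubtypeEquivOfLe le).finrank_eq] at this
  omega

/-- Maximal arcs in a plane `E`.  `|B ∩ E| = 1 + (q + 1)(c - 1)` (`pencil_mem` at `z`; lines through
`z` have `cn ≠ 0`), and `|B ∩ E| = c (q + 1 - e)` (`pencil_notMem` at `u`), `e` the number of lines
through `u` in `E` missing `B`. -/
theorem arc_plane {B : Set (Submodule F V)} {E z u : Submodule F V} {c : ℕ} (hE : finrank F E = 3)
    (h : ∀ l, l ≤ E → finrank F l = 2 → cn B l = 0 ∨ cn B l = c)
    (hz : z ∈ pts E) (hzB : z ∈ B) (hu : u ∈ pts E) (huB : u ∉ B) :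
    c * cu {l | cn B l = 0} u E = Nat.card F ∧ cn B E + Nat.card F + 1 = 1 + (Nat.card F + 1) * c := by
  have a := pencil_mem hz hzB
  have b := pencil_notMem hu huB
  have d := cu_plane {l | cn B l = 0} hE hu
  rw [hE, th_two, Finset.sum_congr rfl (g := fun _ => c) fun l hl => (h l ((up_line hz).1 hl).2.1 ((up_line hz).1 hl).2.2).resolve_left
    (cu_pos.2 ⟨z, ((up_line hz).1 hl).1, hzB⟩), Finset.sum_const, card_up (mem_pts.1 hz).1, hE, (mem_pts.1 hz).2, th_two,
    smul_eq_mul] at a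
  rw [sum_two {l | cn B l = 0} (a := 0) (b := c) (fun _ _ e => e) fun l hl e =>
    (h l ((up_line hu).1 hl).2.1 ((up_line hu).1 hl).2.2).resolve_left e] at b
  refine ⟨?_, a⟩
  rw [← d] at a
  nlinarith

/-- No maximal arcs with `1 < c < q` in dimension `≥ 4`.  Take `z ∈ B`, `u ∉ B` (a line through `z`
has `c < q + 1` points of `B`), a plane `E ≥ z ⊔ u`: `c e = q` (`arc_plane`), so `e ≥ 1` gives a line
`l` missing `B`.  Take a 4-space `S ≥ E`.  A plane `l ≤ E' ≤ S` has `0` or `k = 1 + (q + 1)(c - 1)`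
points of `B`, so `k ∣ |B ∩ S|` (`pencil`), and `|B ∩ S| = 1 + (q² + q + 1)(c - 1) = k + q² (c - 1)`
(`pencil_mem`).  `k` is prime to `c - 1`, so `k = c (q + 1 - e) ∣ q²`; `q` is a power of a prime `p`,
`p ∣ e` as `c < q`, so `q + 1 - e` is prime to `p`, equal to `1`, `e = q`, `c = 1`. -/
theorem arc_solid {B : Set (Submodule F V)} {c : ℕ} (hV : 4 ≤ finrank F V)
    (h : ∀ l : Submodule F V, finrank F l = 2 → cn B l = 0 ∨ cn B l = c) (h1 : 1 < c)
    (h2 : c < Nat.card F) {z : Submodule F V} (hz : finrank F z = 1) (hzB : z ∈ B) : False := by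
  obtain ⟨l, zl, -, hl⟩ := exists_between (le_top : z ≤ ⊤) (k := 2) (by omega) (by rw [finrank_top]; omega)
  obtain ⟨E, lE, -, hE⟩ := exists_between (le_top : l ≤ ⊤) (k := 3) (by omega) (by rw [finrank_top]; omega)
  obtain ⟨S, ES, -, hS⟩ := exists_between (le_top : E ≤ ⊤) (k := 4) (by omega) (by rwa [finrank_top])
  obtain ⟨u, hu, uB⟩ := (cu_pos (D := Bᶜ) (A := ⊥) (U := l)).1 (by have := cn_line B hl; have := h l hl; unfold cn at *; omega)
  have uE := mem_pts.2 ⟨(mem_pts.1 hu).1.trans lE, (mem_pts.1 hu).2⟩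
  obtain ⟨a, b⟩ := arc_plane hE (fun l _ => h l) (mem_pts.2 ⟨zl.trans lE, hz⟩) hzB uE uB
  have d := cu_plane {l | cn B l = 0} hE uE
  obtain ⟨m, hm, m0⟩ := (cu_pos (D := {l | cn B l = 0}) (A := u) (U := E)).1 (by rintro e; rw [e] at a; omega)
  obtain ⟨um, mE, m2⟩ := (up_line uE).1 hm
  have p1 := pencil B (mE.trans ES)
  rw [show cn B m = 0 from m0, mul_zero, add_zero, zero_add] at p1
  have k1 : cn B E ∣ cn B S := p1 ▸ Finset.dvd_sum fun E' hE' => by
    obtain ⟨x, -, y⟩ := mem_up.1 hE'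
    by_cases e : cn B E' = 0
    · exact e ▸ dvd_zero _
    · obtain ⟨z', hz', zB⟩ := cu_pos.1 e
      have := (arc_plane (y.trans (congrArg (· + 1) m2)) (fun l _ => h l) hz' zB
        (mem_pts.2 ⟨(mem_pts.1 um).1.trans x, (mem_pts.1 um).2⟩) uB).2
      exact dvd_of_eq (by omega)
  have zS := mem_pts.2 ⟨(zl.trans lE).trans ES, hz⟩
  have p2 := pencil_mem zS hzB
  rw [hS, th_three, Finset.sum_congr rfl (g := fun _ => c) fun l hl => (h l ((up_line zS).1 hl).2.2).resolve_left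
    (cu_pos.2 ⟨z, ((up_line zS).1 hl).1, hzB⟩), Finset.sum_const, card_up (mem_pts.1 zS).1, hS, hz, th_three,
    smul_eq_mul] at p2
  obtain ⟨p, pp, pq, hp⟩ := ex_p (F := F)
  generalize cu {l | cn B l = 0} u E = e at *
  generalize cu {l | cn B l = 0}ᶜ u E = e' at *
  generalize Nat.card F = q at *
  obtain ⟨c, rfl⟩ := Nat.exists_eq_add_of_le' h1.le
  have k2 : cn B E = (q + 1) * c + 1 := by nlinarith
  have k3 : cn B S = cn B E + q ^ 2 * c := by nlinarith
  have k4 : cn B E = (c + 1) * e' := by nlinarith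
  rw [k3, Nat.dvd_add_right dvd_rfl] at k1
  have k5 := (show (cn B E).Coprime c by rw [k2]; simp).dvd_of_dvd_mul_right k1
  have pe := (hp e 1 (by rw [pow_one]; exact Dvd.intro_left _ a)).resolve_left (by rintro rfl; omega)
  rcases hp e' 2 ((Dvd.intro_left _ k4.symm).trans k5) with rfl | k
  · nlinarith
  · exact pp.one_lt.ne' (Nat.dvd_one.1 ((Nat.dvd_add_right pq).1 (d ▸ dvd_add pe k)))

theorem arc_dvd {D : Set (Submodule F V)} {a : ℕ}
    (h : ∀ l : Submodule F V, finrank F l = 2 → cn D l = 0 ∨ cn D l = a ∨ cn Dᶜ l = 0) {z l : Submodule F V}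
    (hz : finrank F z = 1) (hD : z ∈ D) (hl : finrank F l = 2) (h0 : cn D l = 0) : a ∣ Nat.card F := by
  have n := cu_eq_zero.1 h0
  have e := (finrank_sup_pt hz fun k => n z (mem_pts.2 ⟨k, hz⟩) hD).trans (congrArg (· + 1) hl)
  obtain ⟨u, -, ul, hu⟩ := exists_between (bot_le : ⊥ ≤ l) (k := 1) (by simp) (by omega)
  refine Dvd.intro _ (arc_plane e (fun m hm m2 => ?_) (mem_pts.2 ⟨le_sup_right, hz⟩) hD
    (mem_pts.2 ⟨ul.trans le_sup_left, hu⟩) (n u (mem_pts.2 ⟨ul, hu⟩))).1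
  obtain ⟨y, y1, y2, hy⟩ := exists_pt_inf hm le_sup_left (by omega)
  exact (h m m2).imp_right fun k => k.resolve_right fun k =>
    cu_eq_zero.1 k y (mem_pts.2 ⟨y1, hy⟩) (n y (mem_pts.2 ⟨y2, hy⟩))

/-- Every line has `0`, `a` or `q + 1` points of `D`: then `D` or its complement is a subspace.
`a ≤ 1`: `D` is closed under lines (`exists_sub_of_closed`).  `a ≥ q`: so is `Dᶜ` (`cu_add_compl`).
Let `1 < a < q`; if `D` or `Dᶜ` has no point take `W = ⊥`.  If no line lies inside `D` use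
`arc_solid` for `D`; if no line misses `D` use it for `Dᶜ` and `q + 1 - a`.  If `l₁` misses `D` and
`z ∈ D`, then in the plane `z ⊔ l₁` no line lies inside `D` (it meets `l₁`), so `a ∣ q` by
`arc_plane`; symmetrically `q + 1 - a ∣ q`; both are `> 1`, so the characteristic divides `q + 1`. -/
theorem arc3 {D : Set (Submodule F V)} {a : ℕ} (hV : 4 ≤ finrank F V)
    (h : ∀ l : Submodule F V, finrank F l = 2 →
      cn D l = 0 ∨ cn D l = a ∨ cn D l = Nat.card F + 1) :
    ∃ W : Submodule F V, (∀ y : Submodule F V, finrank F y = 1 → (y ∈ D ↔ y ≤ W)) ∨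
      (∀ y : Submodule F V, finrank F y = 1 → (y ∉ D ↔ y ≤ W)) := by
  by_cases a1 : a ≤ 1
  · exact (arc_closed fun l hl k => by have := cn_line D hl; have := h l hl; omega).imp fun _ => .inl
  by_cases a2 : Nat.card F ≤ a
  · exact (arc_closed (D := Dᶜ) fun l hl k => by
      have := cn_line D hl; have := h l hl; rw [compl_compl]; omega).imp fun _ => .inr
  have n : ∀ y : Submodule F V, finrank F y = 1 → ¬y ≤ ⊥ := fun y hy e => by rw [le_bot_iff.1 e, finrank_bot] at hy; omega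
  by_cases b1 : ∀ y : Submodule F V, finrank F y = 1 → y ∉ D
  · exact ⟨⊥, .inl fun y hy => iff_of_false (b1 y hy) (n y hy)⟩
  by_cases b2 : ∀ y : Submodule F V, finrank F y = 1 → y ∈ D
  · exact ⟨⊥, .inr fun y hy => iff_of_false (not_not.2 (b2 y hy)) (n y hy)⟩
  exfalso
  push Not at b1 b2
  obtain ⟨z, hz, zD⟩ := b1
  obtain ⟨u, hu, uD⟩ := b2
  obtain ⟨b, hb⟩ := Nat.exists_eq_add_of_le (show a ≤ Nat.card F + 1 by omega)
  by_cases c1 : ∀ l : Submodule F V, finrank F l = 2 → cn Dᶜ l ≠ 0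
  · exact arc_solid (c := a) hV (fun l hl => by have := cn_line D hl; have := h l hl; have := c1 l hl; omega)
      (by omega) (by omega) hz zD
  by_cases c2 : ∀ l : Submodule F V, finrank F l = 2 → cn D l ≠ 0
  · exact arc_solid (B := Dᶜ) (c := b) hV (fun l hl => by have := cn_line D hl; have := h l hl; have := c2 l hl; omega)
      (by omega) (by omega) hu uD
  push Not at c1 c2
  obtain ⟨l, hl, l0⟩ := c1
  obtain ⟨m, hm, m0⟩ := c2
  have d1 := arc_dvd (a := a) (fun l hl => by have := cn_line D hl; have := h l hl; omega) hz zD hm m0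
  have d2 := arc_dvd (D := Dᶜ) (a := b) (fun l hl => by
    have := cn_line D hl; have := h l hl; rw [compl_compl]; omega) hu uD hl l0
  obtain ⟨p, pp, pq, hp⟩ := ex_p (F := F)
  have e1 := (hp a 1 (by rwa [pow_one])).resolve_left (by omega)
  have e2 := (hp b 1 (by rwa [pow_one])).resolve_left (by omega)
  exact pp.one_lt.ne' (Nat.dvd_one.1 ((Nat.dvd_add_right pq).1 (hb ▸ dvd_add e1 e2)))

/-- `arc3` in the quotient `V ⧸ A`, for `D' = {y | y.comap A.mkQ ∈ D}`
(`finrank (comap mkQ y) = finrank A + finrank y`). -/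
theorem arc3_rel {D : Set (Submodule F V)} {a : ℕ} (A : Submodule F V)
    (hV : finrank F A + 4 ≤ finrank F V)
    (h : ∀ C : Submodule F V, A ≤ C → finrank F C = finrank F A + 2 →
      cu D A C = 0 ∨ cu D A C = a ∨ cu D A C = Nat.card F + 1) :
    ∃ W : Submodule F V, A ≤ W ∧ ((∀ B ∈ up A ⊤, B ∈ D ↔ B ≤ W) ∨ (∀ B ∈ up A ⊤, B ∉ D ↔ B ≤ W)) := by
  have : Finite (V ⧸ A) := .of_surjective _ A.mkQ_surjective
  have cm : ∀ {B}, A ≤ B → (B.map A.mkQ).comap A.mkQ = B := fun {B} e => by rw [comap_map_mkQ, sup_eq_right.2 e]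
  have fr : ∀ {B U}, B ∈ up A U → finrank F (B.map A.mkQ) = 1 := fun {B U} hB => by
    have := fr_comap A (B.map A.mkQ)
    rw [cm (mem_up.1 hB).1, (mem_up.1 hB).2.2] at this
    omega
  obtain ⟨W, hW⟩ := arc3 (D := {y : Submodule F (V ⧸ A) | y.comap A.mkQ ∈ D}) (a := a)
    (by have := A.finrank_quotient_add_finrank; omega) fun l hl => by
      have e : cn {y : Submodule F (V ⧸ A) | y.comap A.mkQ ∈ D} l = cu D A (l.comap A.mkQ) :=
        Finset.card_bij (fun y _ => y.comap A.mkQ) (fun y hy => by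
          obtain ⟨a, b⟩ := Finset.mem_filter.1 hy
          exact Finset.mem_filter.2 ⟨mem_up.2 ⟨le_comap_mkQ A y, comap_mono (mem_pts.1 a).1, by
            rw [fr_comap, (mem_pts.1 a).2]⟩, b⟩)
          (fun _ _ _ _ e => comap_injective_of_surjective A.mkQ_surjective e) fun B hB => by
            obtain ⟨a, b⟩ := Finset.mem_filter.1 hB
            exact ⟨B.map A.mkQ, Finset.mem_filter.2 ⟨mem_pts.2 ⟨map_le_iff_le_comap.2 (mem_up.1 a).2.1, fr a⟩,
              show _ ∈ D by rwa [cm (mem_up.1 a).1]⟩, cm (mem_up.1 a).1⟩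
      rw [e]
      exact h _ (le_comap_mkQ A l) (by rw [fr_comap, hl])
  refine ⟨W.comap A.mkQ, le_comap_mkQ A W, hW.imp (fun k B hB => ?_) fun k B hB => ?_⟩ <;>
    rw [← map_le_iff_le_comap, ← k _ (fr hB), Set.mem_setOf_eq, cm (mem_up.1 hB).1]

/-- Two intersection numbers `a + b = q + 1` in a plane.  With `k = |A ∩ E|`, `i` (resp. `j`) the
number of lines with `a` points through a point in (resp. not in) `A`:
`k = 1 + i (a - 1) + (q + 1 - i)(b - 1) = j a + (q + 1 - j) b`.  `a = b` is impossible; wlog `b < a`,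
`d = a - b`, `(i - j) d = q`.  `d ≡ q + 1 mod 2` and `d ∣ q` (a prime power) force `q` even, `d = 1`,
`i = j + q` for ALL such points.  If `i = q`, `j = 0`: a line with `a` points through a point of `A`
has `b ≥ 1` points outside `A`, which have `j ≥ 1`.  If `i = q + 1`, `j = 1`: a line with `b ≥ 1` points
of `A` through a point outside `A` contains a point of `A` with `i ≤ q`. -/
theorem two_int {A : Set (Submodule F V)} {E z u : Submodule F V} {a b : ℕ} (hE : finrank F E = 3)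
    (hab : a + b = Nat.card F + 1) (ha : 1 ≤ a) (hb : 1 ≤ b)
    (h : ∀ l, l ≤ E → finrank F l = 2 → cn A l = a ∨ cn A l = b)
    (hz : z ∈ pts E) (hzA : z ∈ A) (hu : u ∈ pts E) (huA : u ∉ A) : False := by
  wlog ba : b ≤ a generalizing a b
  · exact this (add_comm a b ▸ hab) hb ha (fun l x y => (h l x y).symm) (by omega)
  have s : ∀ x ∈ pts E, ∑ l ∈ up x E, cn A l = a * cu {l | cn A l = a} x E + b * cu {l | cn A l = a}ᶜ x E := fun x hx =>
    sum_two _ (fun _ _ e => e) fun l hl e => (h l ((up_line hx).1 hl).2.1 ((up_line hx).1 hl).2.2).resolve_left e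
  obtain ⟨d, rfl⟩ := Nat.exists_eq_add_of_le ba
  have k : ∀ x ∈ pts E, x ∈ A → ∀ y ∈ pts E, y ∉ A →
      d * cu {l | cn A l = b + d} x E = d * cu {l | cn A l = b + d} y E + Nat.card F := fun x hx xA y hy yA => by
    have e1 := pencil_mem hx xA
    have e2 := pencil_notMem hy yA
    have e3 := cu_plane {l | cn A l = b + d} hE hx
    have e4 := cu_plane {l | cn A l = b + d} hE hy
    rw [s x hx, hE, th_two] at e1
    rw [s y hy] at e2
    nlinarith [congrArg (b * ·) (e3.trans e4.symm)]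
  have q := two_le_q (F := F)
  obtain ⟨p, pp, pq, hp⟩ := ex_p (F := F)
  have dq : d ∣ Nat.card F := (Nat.dvd_add_right (dvd_mul_right _ _)).1 (k z hz hzA u hu huA ▸ dvd_mul_right _ _)
  obtain rfl : d = 1 := (hp d 1 (by rwa [pow_one])).resolve_right fun pd => by
    by_cases e : 2 ∣ Nat.card F
    · obtain rfl := (Nat.prime_dvd_prime_iff_eq pp Nat.prime_two).1 ((hp 2 1 (by rwa [pow_one])).resolve_left (by omega))
      omega
    · exact e ((by omega : 2 ∣ d).trans dq)
  simp only [one_mul] at k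
  have e := k z hz hzA u hu huA
  have e3 := cu_plane {l | cn A l = b + 1} hE hz
  have e4 := cu_plane {l | cn A l = b + 1} hE hu
  by_cases j : cu {l | cn A l = b + 1} u E = 0
  · obtain ⟨l, hl, la⟩ := (cu_pos (D := {l | cn A l = b + 1}) (A := z) (U := E)).1 (by omega)
    obtain ⟨-, lE, l2⟩ := (up_line hz).1 hl
    obtain ⟨y, hy, yA⟩ := (cu_pos (D := Aᶜ) (A := ⊥) (U := l)).1 (by
      have := cn_line A l2; have : cn A l = b + 1 := la; unfold cn at *; omega)
    have yE := mem_pts.2 ⟨(mem_pts.1 hy).1.trans lE, (mem_pts.1 hy).2⟩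
    have := k z hz hzA y yE yA
    exact cu_pos.2 ⟨l, (up_line yE).2 ⟨hy, lE, l2⟩, la⟩ (by omega)
  · obtain ⟨l, hl, la⟩ := (cu_pos (D := {l | cn A l = b + 1}ᶜ) (A := u) (U := E)).1 (by omega)
    obtain ⟨-, lE, l2⟩ := (up_line hu).1 hl
    obtain ⟨y, hy, yA⟩ := (cu_pos (D := A) (A := ⊥) (U := l)).1 (by
      have := (h l lE l2).resolve_left la; unfold cn at *; omega)
    have yE := mem_pts.2 ⟨(mem_pts.1 hy).1.trans lE, (mem_pts.1 hy).2⟩
    have := k y yE yA u hu huA
    have := cu_plane {l | cn A l = b + 1} hE yE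
    exact cu_pos.2 ⟨l, (up_line yE).2 ⟨hy, lE, l2⟩, la⟩ (by omega)

/-- A maximal arc `B` of degree `c` in a plane; `T y l` picks `c` points on each line missing `B`,
and `t` such lines through each point off `B`.  Let `N` be the lines of `E` missing `B`, `A` the
points off `B`, `c e = q` (`arc_plane`, `e` is the same for all points of `A`).  Double counting:
`|A| e = |N| (q + 1)`, `|A| t = |N| c`, so `t (q + 1) = c e = q`. -/
theorem arc_flags {B : Set (Submodule F V)} {E z u : Submodule F V} {c t : ℕ}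
    (hE : finrank F E = 3) (h : ∀ l, l ≤ E → finrank F l = 2 → cn B l = 0 ∨ cn B l = c)
    (hz : z ∈ pts E) (hzB : z ∈ B) (hu : u ∈ pts E) (huB : u ∉ B)
    (T : Submodule F V → Submodule F V → Prop)
    (hc : ∀ l, l ≤ E → finrank F l = 2 → cn B l = 0 → cn {y | T y l} l = c)
    (ht : ∀ y ∈ pts E, y ∉ B → cu {l | cn B l = 0 ∧ T y l} y E = t) : False := by
  have a := (arc_plane hE h hz hzB hu huB).1
  have q := two_le_q (F := F)
  let A := (pts E).filter (· ∉ B)
  let N := (Set.toFinite {l | l ≤ E ∧ finrank F l = 2 ∧ cn B l = 0}).toFinset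
  have key : ∀ (R : Submodule F V → Submodule F V → Prop) (m n : ℕ), (∀ y ∈ pts E, y ∉ B → cu {l | cn B l = 0 ∧ R y l} y E = m) →
      (∀ l, l ≤ E → finrank F l = 2 → cn B l = 0 → cn {y | R y l} l = n) → A.card * m = N.card * n := fun R m n h1 h2 => by
    refine Finset.card_mul_eq_card_mul (fun y l => y ≤ l ∧ R y l) (fun y hy => ?_) fun l hl => ?_
    · obtain ⟨yE, yB⟩ := Finset.mem_filter.1 hy
      rw [← h1 y yE yB, cu]
      congr 1
      ext l
      simp only [N, Finset.mem_bipartiteAbove, Set.Finite.mem_toFinset, Set.mem_setOf_eq, Finset.mem_filter, up_line yE,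
        mem_pts, (mem_pts.1 yE).2]
      tauto
    · obtain ⟨lE, l2, l0⟩ : l ≤ E ∧ finrank F l = 2 ∧ cn B l = 0 := by simpa [N] using hl
      rw [← h2 l lE l2 l0, cn, cu]
      congr 1
      ext y
      simp only [A, Finset.mem_bipartiteBelow, Set.mem_setOf_eq, Finset.mem_filter]
      exact ⟨fun k => ⟨mem_pts.2 ⟨k.2.1, (mem_pts.1 k.1.1).2⟩, k.2.2⟩, fun k => ⟨⟨mem_pts.2 ⟨(mem_pts.1 k.1).1.trans lE,
        (mem_pts.1 k.1).2⟩, cu_eq_zero.1 l0 y k.1⟩, (mem_pts.1 k.1).1, k.2⟩⟩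
  have k1 := key (fun _ _ => True) (cu {l | cn B l = 0} u E) (Nat.card F + 1) (fun y hy yB => by
    simp only [and_true]
    exact Nat.eq_of_mul_eq_mul_left (Nat.pos_of_ne_zero (by rintro rfl; omega))
      ((arc_plane hE h hz hzB hy yB).1.trans a.symm)) fun l _ l2 _ => by
    rw [cn, (cu_eq_card (D := {y | True})).2 fun _ _ => trivial, card_up bot_le, l2, finrank_bot, th_two]
  have k2 := key T t c ht hc
  have p : 0 < A.card := Finset.card_pos.2 ⟨u, Finset.mem_filter.2 ⟨hu, huB⟩⟩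
  have e : t * (Nat.card F + 1) = Nat.card F := Nat.eq_of_mul_eq_mul_left p (by
    rw [← mul_assoc, k2, mul_right_comm, ← k1, mul_assoc, mul_comm _ c, a])
  have := Nat.le_of_dvd (by omega) (Dvd.intro_left _ e)
  omega

end Cfsg.Lib.RK3
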