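import Cfsg.Agent.Lib.RK3.Mu
import Cfsg.Agent.Lib.RK3.Orb

/-! S2194: flag-transitive groups on a plane (here `V` has dimension 3). -/

set_option autoImplicit false

namespace Cfsg.Lib.RK3

open Module Submodule
open scoped Pointwise

/-- No polarity without absolute points.  The adjacency matrix `A` over `ZMod p` has `A * A = J`,
`A * J = J`, so `A ^ p = J` (`p ≥ 2`) has trace `card P = 1`, but
`trace (A ^ p) = trace A ^ p = 0` (`ZMod.trace_pow_card`). -/
theorem friend {P : Type*} [Finite P] (R : P → P → Prop) (hs : ∀ x y, R x y → R y x)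
    (hi : ∀ x, ¬R x x) {p q : ℕ} (hp : p.Prime) (hq : p ∣ q) (hP : Nat.card P = q ^ 2 + q + 1)
    (hd : ∀ x, {y | R x y}.ncard = q + 1) (hc : ∀ x y, x ≠ y → {z | R x z ∧ R y z}.ncard = 1) :
    False := by
  classical
  have := Fintype.ofFinite P
  have := Fact.mk hp
  let A : Matrix P P (ZMod p) := Matrix.of fun x y => if R x y then 1 else 0
  let J : Matrix P P (ZMod p) := Matrix.of fun _ _ => 1
  have q0 : (q : ZMod p) = 0 := (ZMod.natCast_eq_zero_iff _ _).2 hq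
  have cnt : ∀ (s : P → Prop) [DecidablePred s], ∑ z, (if s z then (1 : ZMod p) else 0) = ({z | s z}.ncard : ZMod p) :=
    fun s _ => by rw [Finset.sum_boole, ← Set.ncard_coe_finset]; simp
  have AA : A * A = J := by
    ext x y
    have : ∀ z, A x z * A z y = if R x z ∧ R y z then 1 else 0 := fun z => by
      by_cases a : R x z <;> by_cases b : R y z <;> simp [A, a, b, show R z y ↔ R y z from ⟨hs _ _, hs _ _⟩]
    rw [Matrix.mul_apply, Finset.sum_congr rfl fun z _ => this z, cnt]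
    by_cases e : x = y
    · subst e
      simp only [and_self, hd]
      simp [J, q0]
    · rw [hc x y e]; simp [J]
  have AJ : A * J = J := by
    ext x y
    simp only [Matrix.mul_apply, A, J, Matrix.of_apply, mul_one, cnt, hd]
    simp [q0]
  have pw : ∀ n, A ^ (n + 2) = J := fun n => by
    induction n with
    | zero => rw [zero_add, pow_two, AA]
    | succ n ih => rw [add_right_comm, pow_succ', ih, AJ]
  have t := ZMod.trace_pow_card A
  obtain ⟨n, hn⟩ := Nat.exists_eq_add_of_le' hp.two_le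
  rw [show A ^ p = J by rw [← pw n, ← hn], show A.trace = 0 by simp [Matrix.trace, A, hi], zero_pow hp.ne_zero] at t
  simp [Matrix.trace, J, ← Nat.card_eq_fintype_card, hP, q0] at t

variable (F V Γ : Type*) [Field F] [AddCommGroup V] [Module F V] [Group Γ] [DistribMulAction Γ V]
  [SMulCommClass Γ F V]

/-- Some element induces a non-trivial transvection up to a scalar. -/
def El : Prop := ∃ (g : Γ) (s : F) (φ : V →ₗ[F] F) (c : V), φ ≠ 0 ∧ c ≠ 0 ∧ φ c = 0 ∧
  ∀ v : V, g • v = s • (v + φ v • c)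

/-- Some element induces a reflection with centre `c` up to a scalar. -/
def Rf (c : V) (φ : V →ₗ[F] F) : Prop :=
  φ c = 1 ∧ ∃ (g : Γ) (s : F), ∀ v : V, g • v = s • (v - (2 * φ v) • c)

variable {F V Γ} [Finite F] [Finite V] [Finite Γ]

omit [Finite F] in
theorem kap_ker (hV : finrank F V = 3) {ψ : V →ₗ[F] F} (h : ψ ≠ 0) : finrank F (LinearMap.ker ψ) = 2 := by
  have := Module.Dual.finrank_ker_add_one_of_ne_zero h
  omega

omit [Finite F] [Finite V] [Finite Γ] in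
theorem kap_ne {g : Γ} {s : F} {c w : V} (c0 : c ≠ 0) (e : g • c = s • w) : s ≠ 0 := by
  rintro rfl
  exact c0 ((smul_eq_zero_iff_eq g).1 (by rw [e, zero_smul]))

variable (F Γ) in
/-- The transvections with centre `c` induced by `Γ`. -/
def kapT (c : V) (c0 : c ≠ 0) : AddSubgroup (V →ₗ[F] F) where
  carrier := {ψ | ψ c = 0 ∧ ∃ (g : Γ) (s : F), ∀ v : V, g • v = s • (v + ψ v • c)}
  zero_mem' := ⟨rfl, 1, 1, fun v => by simp⟩
  add_mem' := by
    rintro ψ ψ' ⟨a, g, s, e⟩ ⟨a', g', s', e'⟩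
    refine ⟨by simp [a, a'], g * g', s * s', fun v => ?_⟩
    rw [mul_smul, e', smul_comm g, e, map_add, map_smul, a, LinearMap.add_apply]
    module
  neg_mem' := by
    rintro ψ ⟨a, g, s, e⟩
    have s0 := kap_ne c0 (e c)
    refine ⟨by simp [a], g⁻¹, s⁻¹, fun v => ?_⟩
    rw [inv_smul_eq_iff, smul_comm g, e, smul_smul, inv_mul_cancel₀ s0, map_add, map_smul, a]
    simp

theorem kap_le (h : o2 F V Γ 1 2 ≤ 1) {c : V} (c0 : c ≠ 0) {l l' : Submodule F V} (hl : l ∈ up (span F {c}) ⊤)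
    (hl' : l' ∈ up (span F {c}) ⊤) : {ψ | ψ ∈ kapT F Γ c c0 ∧ l ≤ LinearMap.ker ψ}.ncard ≤
      {ψ | ψ ∈ kapT F Γ c c0 ∧ l' ≤ LinearMap.ker ψ}.ncard := by
  have : Finite (V →ₗ[F] F) := .of_injective _ DFunLike.coe_injective
  have f1 := finrank_span_singleton (K := F) c0
  rw [mem_up, f1] at hl hl'
  obtain ⟨k, e⟩ := cj_of_one h (x := (span F {c}, l)) (y := (span F {c}, l')) ⟨hl.1, f1, hl.2.2⟩ ⟨hl'.1, f1, hl'.2.2⟩
  obtain ⟨e1, rfl⟩ := Prod.mk.inj e
  obtain ⟨a, ha⟩ := mem_span_singleton.1 (e1.le ((mem_smul k).2 (mem_span_singleton_self c)))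
  have a0 := kap_ne c0 ha.symm
  refine Set.ncard_le_ncard_of_injOn (fun ψ => a • ψ ∘ₗ DistribSMul.toLinearMap F V k⁻¹) ?_ fun ψ _ ψ' _ e => ?_
  · rintro ψ ⟨⟨b, g, s, e⟩, le⟩
    refine ⟨⟨?_, k * g * k⁻¹, s, fun v => ?_⟩, fun v hv => ?_⟩
    · change a * ψ (k⁻¹ • c) = 0
      rw [← smul_eq_mul, ← map_smul, ← smul_comm, ha, inv_smul_smul, b]
    · change _ = s • (v + (a * ψ (k⁻¹ • v)) • c)
      rw [mul_smul, mul_smul, e, smul_comm k, smul_add, smul_inv_smul, smul_comm k, ← ha, smul_smul, mul_comm]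
    · change a * ψ (k⁻¹ • v) = 0
      rw [le ((mem_smul' k).1 hv), mul_zero]
  · ext v
    have : a * ψ (k⁻¹ • k • v) = a * ψ' (k⁻¹ • k • v) := LinearMap.congr_fun e (k • v)
    rwa [inv_smul_smul, mul_right_inj' a0] at this

/-- `T = {ψ | ψ c = 0 ∧ ∃ g s, ∀ v, g • v = s • (v + ψ v • c)}` is an additive subgroup of the dual.
For a line `l ∋ c` let `T l` be the subgroup of the `ψ ∈ T` vanishing on `l`, of order `≤ q`.  If `h`
maps `(span {c}, l)` to `(span {c}, l')`, `h • c = λ • c`, then `ψ ↦ λ ψ (h⁻¹ • ·)` injects `T l` in `T l'`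
(conjugate by `h`), so `|T l| = k` is constant, `k ≥ 2`, and `|T| = 1 + (q + 1)(k - 1)` (`l = ker ψ`).
`|T|`, `k = p ^ j`, `q = p ^ f` are powers of the characteristic; if `j < f` then
`|T| = p ^ j (q + 1 - p ^ (f - j))` with second factor `> 1` and `≡ 1 mod p`.  So `k = q`, `|T| = q ^ 2`,
`T` is the annihilator of `c`.  For `z = span {v}`, `z' = span {a v + b c}` take `ψ v = b / a`. -/
theorem l2_of_el (hV : finrank F V = 3) (h : o2 F V Γ 1 2 ≤ 1) (e : El F V Γ) : L2 F V Γ := by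
  classical
  obtain ⟨g₀, s₀, φ, c, φ0, c0, φc, e₀⟩ := e
  have : Finite (V →ₗ[F] F) := .of_injective _ DFunLike.coe_injective
  have f1 := finrank_span_singleton (K := F) c0
  have mk : ∀ ψ ∈ kapT F Γ c c0, ψ ≠ 0 → LinearMap.ker ψ ∈ up (span F {c}) ⊤ := fun ψ hψ n =>
    mem_up.2 ⟨(span_singleton_le_iff_mem _ _).2 hψ.1, le_top, by rw [kap_ker hV n, f1]⟩
  have φT : φ ∈ kapT F Γ c c0 := ⟨φc, g₀, s₀, e₀⟩
  have ct := fun l (hl : l ∈ up (span F {c}) ⊤) => le_antisymm (kap_le h c0 hl (mk φ φT φ0)) (kap_le h c0 (mk φ φT φ0) hl)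
  have k2 : 1 < {ψ | ψ ∈ kapT F Γ c c0 ∧ LinearMap.ker φ ≤ LinearMap.ker ψ}.ncard :=
    (Set.one_lt_ncard_iff (Set.toFinite _)).2 ⟨φ, 0, ⟨φT, le_rfl⟩, ⟨zero_mem _, by simp⟩, φ0⟩
  generalize {ψ | ψ ∈ kapT F Γ c c0 ∧ LinearMap.ker φ ≤ LinearMap.ker ψ}.ncard = k at ct k2
  have cT : Nat.card (kapT F Γ c c0) + Nat.card F = (Nat.card F + 1) * k := by
    have a := Set.ncard_sdiff_singleton_add_one (s := (kapT F Γ c c0 : Set (V →ₗ[F] F))) (zero_mem _)
    have u := card_up (le_top (a := span F {c}))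
    rw [finrank_top, hV, f1, th_two] at u
    rw [Set.ncard_eq_toFinset_card, Finset.card_eq_sum_card_fiberwise (f := LinearMap.ker) (t := up (span F {c}) ⊤)
      (fun ψ hψ => by
        have : ψ ∈ kapT F Γ c c0 ∧ ψ ≠ 0 := by simpa using hψ
        exact mk ψ this.1 this.2), Finset.sum_congr rfl (g := fun _ => k - 1) fun l hl => by
        have b := Set.ncard_sdiff_singleton_add_one (s := {ψ | ψ ∈ kapT F Γ c c0 ∧ l ≤ LinearMap.ker ψ}) (a := 0)
          ⟨zero_mem _, by simp⟩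
        rw [← ct l hl, ← b, Nat.add_sub_cancel, ← Set.ncard_coe_finset]
        refine congrArg _ (Set.ext fun ψ => ?_)
        simp only [Finset.coe_filter, Set.Finite.mem_toFinset, Set.mem_sdiff, SetLike.mem_coe, Set.mem_singleton_iff,
          Set.mem_ofPred_eq]
        exact ⟨fun e => ⟨⟨e.1.1, e.2.ge⟩, e.1.2⟩, fun e => ⟨⟨e.1.1, e.2⟩, (eq_of_le_of_finrank_eq e.1.2 (by
          rw [kap_ker hV e.2, (mem_up.1 hl).2.2, f1])).symm⟩⟩, Finset.sum_const, u, smul_eq_mul] at a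
    rw [← SetLike.coe_sort_coe, Nat.card_coe_set_eq, ← a]
    obtain ⟨k, rfl⟩ := Nat.exists_eq_add_of_lt k2
    rw [Nat.add_sub_cancel]; ring
  have su : ∀ v, v ∉ span F {c} → ∀ t : F, ∃ ψ ∈ kapT F Γ c c0, ψ v = t := fun v hv t => by
    let ev : kapT F Γ c c0 →+ F := ⟨⟨fun ψ => ψ.1 v, rfl⟩, fun _ _ => rfl⟩
    have v0 : v ≠ 0 := by rintro rfl; exact hv (zero_mem _)
    have c1 : Nat.card ev.ker = k := by
      rw [← ct (span F {c} ⊔ span F {v}) (mem_up.2 ⟨le_sup_left, le_top, finrank_sup_pt (finrank_span_singleton v0)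
        (mt (span_singleton_le_iff_mem _ _).1 hv)⟩), ← SetLike.coe_sort_coe, Nat.card_coe_set_eq,
        ← Set.ncard_image_of_injective _ Subtype.val_injective]
      refine congrArg _ (Set.ext fun ψ => ⟨?_, fun e => ⟨⟨ψ, e.1⟩, e.2 (mem_sup_right (mem_span_singleton_self v)), rfl⟩⟩)
      rintro ⟨ψ, e, rfl⟩
      exact ⟨ψ.2, sup_le ((span_singleton_le_iff_mem _ _).2 ψ.2.1) ((span_singleton_le_iff_mem _ _).2 e)⟩
    have c2 := ev.ker.card_mul_index
    obtain ⟨j, hj⟩ := ev.range.card_addSubgroup_dvd_card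
    rw [AddSubgroup.index_ker, c1] at c2
    have j1 : j = 1 := by
      have q2 := two_le_q (F := F)
      rw [← c2, hj] at cT
      rw [hj] at q2
      generalize Nat.card ev.range = i at *
      rcases j with _ | _ | j
      · omega
      · rfl
      · obtain ⟨k, rfl⟩ := Nat.exists_eq_add_of_lt k2
        nlinarith [Nat.zero_le (i * j * k), Nat.zero_le (i * j), Nat.zero_le (i * k)]
    obtain ⟨ψ, e⟩ : t ∈ ev.range := by
      rw [AddSubgroup.eq_top_of_card_eq ev.range (by rw [hj, j1, mul_one])]; trivial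
    exact ⟨ψ, ψ.2, e⟩
  have m := mem_up.1 (mk φ φT φ0)
  refine ⟨_, _, m.1, f1, kap_ker hV φ0, fun z z' a a' b b' n n' => ?_⟩
  obtain ⟨v, v0, rfl⟩ := mu_pt b
  obtain ⟨v', v0', rfl⟩ := mu_pt b'
  have em : span F {c} ⊔ span F {v} = LinearMap.ker φ := eq_of_le_of_finrank_eq (sup_le m.1 a) (by
    rw [finrank_sup_pts f1 b n.symm, kap_ker hV φ0])
  obtain ⟨_, hx, _, hy, e⟩ := mem_sup.1 (em.ge (a' (mem_span_singleton_self v')))
  obtain ⟨r, rfl⟩ := mem_span_singleton.1 hy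
  have r0 : r ≠ 0 := by
    rintro rfl
    rw [zero_smul, add_zero] at e
    exact n' (mu_span f1 (e ▸ hx) v0')
  obtain ⟨t, rfl⟩ := mem_span_singleton.1 hx
  obtain ⟨ψ, ⟨ψc, g, s, eg⟩, e'⟩ := su v (fun k => n (mu_span f1 k v0)) (t / r)
  have s0 := kap_ne c0 (eg c)
  refine ⟨g, ?_, ?_⟩
  · rw [smul_span_one, eg, ψc, zero_smul, add_zero, span_singleton_smul_eq s0.isUnit]
  · rw [smul_span_one, eg, e', span_singleton_smul_eq s0.isUnit, ← span_singleton_smul_eq r0.isUnit, smul_add, smul_smul,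
      mul_div_cancel₀ _ r0, add_comm, e]

omit [Finite V] in
theorem kap_two (hq : Odd (Nat.card F)) : (2 : F) ≠ 0 := by
  have := Fintype.ofFinite F
  refine Ring.two_ne_zero fun e => ?_
  have := FiniteField.even_card_of_char_two e
  rw [Nat.card_eq_fintype_card, Nat.odd_iff] at hq
  omega

theorem kap_refl (h2 : (2 : F) ≠ 0) {τ : V →ₗ[F] V} (hτ : ∀ v, τ (τ v) = v) (h1 : finrank F (LinearMap.range (1 - τ)) = 1) :
    ∃ (c : V) (φ : V →ₗ[F] F), φ c = 1 ∧ ∀ v, τ v = v - (2 * φ v) • c := by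
  obtain ⟨c, c0, e⟩ := mu_pt h1
  obtain ⟨f, hf⟩ := Module.Projective.exists_dual_eq_one F c0
  obtain ⟨w, hw⟩ := e.le (mem_span_singleton_self c)
  have τc : (1 - τ) c = (2 : F) • c := by
    rw [← hw]
    simp only [LinearMap.sub_apply, Module.End.one_apply, map_sub, hτ]
    module
  refine ⟨c, (2 : F)⁻¹ • f ∘ₗ (1 - τ), ?_, fun v => ?_⟩
  · change 2⁻¹ * f ((1 - τ) c) = 1
    rw [τc, map_smul, hf, smul_eq_mul, mul_one, inv_mul_cancel₀ h2]
  · obtain ⟨a, ha⟩ := mem_span_singleton.1 (e.ge ⟨v, rfl⟩)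
    change _ = v - (2 * (2⁻¹ * f ((1 - τ) v))) • c
    rw [mul_inv_cancel_left₀ h2, ← ha, map_smul, hf, smul_eq_mul, mul_one, ha]
    simp

/-- The image of `Γ` in `Perm (G2 1 2)` is transitive on `(q ^ 2 + q + 1)(q + 1)` flags (even), so has
an involution, induced by `g`.  An element fixing all flags fixes all points, so is a scalar on `V`:
`g ^ 2 = s`, `g` is not a scalar.  `(det g) ^ 2 = s ^ 3`, `r = det g / s` has `r ^ 2 = s`, `t = r⁻¹ g` has
`t ^ 2 = 1`, `t ≠ ± 1`; `V = ker (t - 1) ⊕ ker (t + 1)` (`2 ≠ 0`), one of them has dimension 1, spanned by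
`c`; replace `r` by `-r` so that it is the `-1`-space, `φ v • c = (v - t v) / 2`. -/
theorem exists_rf (hV : finrank F V = 3) (h : o2 F V Γ 1 2 ≤ 1) (hq : Odd (Nat.card F)) :
    ∃ c φ, Rf F V Γ c φ := by
  have h2 := kap_two hq
  obtain ⟨l, -, -, hl⟩ := exists_between (bot_le (a := (⊤ : Submodule F V))) (k := 2) (by simp) (by simp [hV])
  obtain ⟨y, le, hy⟩ := sig_pt hl
  have hx : (y, l) ∈ G2 F V 1 2 := ⟨le, hy, hl⟩
  let N := (MulAction.toPermHom Γ (Submodule F V)).ker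
  have mN : ∀ g, g ∈ N ↔ ∀ U : Submodule F V, g • U = U := fun g => MonoidHom.mem_ker.trans Equiv.ext_iff
  have d : 2 ∣ Nat.card (Γ ⧸ N) := by
    refine .trans ?_ (Subgroup.index_dvd_of_le (K := MulAction.stabilizer Γ (y, l)) fun g hg =>
      Prod.ext ((mN g).1 hg _) ((mN g).1 hg _))
    have u := card_up (le_top (a := y))
    rw [finrank_top, hV, hy, th_two] at u
    rw [MulAction.index_stabilizer, show MulAction.orbit Γ (y, l) = G2 F V 1 2 from Set.ext fun x =>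
      ⟨fun e => ((iv2 1 2).cj e).1 hx, fun e => cj_of_one h hx e⟩, orb_cnt (iv2 (Γ := Γ) 1 2) le_rfl Prod.fst (fun _ _ => rfl)
      (fun a ha b hb => let ⟨g, e⟩ := cj_of_one h ha hb; ⟨g, congrArg Prod.fst e⟩) hx]
    refine Dvd.dvd.mul_left (.trans hq.add_one.two_dvd (dvd_of_eq ?_)) _
    rw [← u, ← Set.ncard_coe_finset, ← Set.ncard_image_of_injective (up y ⊤ : Set (Submodule F V)) (f := fun b => (y, b))
      fun a b e => congrArg Prod.snd e]
    refine congrArg _ (Set.ext fun x => ⟨?_, fun e => ⟨x.2, mem_up.2 ⟨e.2.ge.trans e.1.1, le_top, by rw [e.1.2.2, hy]⟩,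
      Prod.ext e.2.symm rfl⟩⟩)
    rintro ⟨b, hb, rfl⟩
    exact ⟨⟨(mem_up.1 hb).1, hy, by rw [(mem_up.1 hb).2.2, hy]⟩, rfl⟩
  obtain ⟨x, hx⟩ := exists_prime_orderOf_dvd_card' 2 d
  obtain ⟨g, rfl⟩ := QuotientGroup.mk_surjective x
  have g1 : g ∉ N := fun e => by simp [(QuotientGroup.eq_one_iff g).2 e] at hx
  have g2 : g * g ∈ N := (QuotientGroup.eq_one_iff _).1 (by rw [QuotientGroup.mk_mul, ← pow_two, ← hx, pow_orderOf_eq_one])
  let t := DistribSMul.toLinearMap F V g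
  obtain ⟨s, hs⟩ := (t * t).exists_eq_smul_id_of_forall_notLinearIndependent fun v e => by
    obtain ⟨a, ha⟩ := mem_span_singleton.1 (((mN _).1 g2 _).le ((mem_smul (g * g)).2 (mem_span_singleton_self v)))
    exact one_ne_zero (LinearIndependent.pair_iff.1 e (-a) 1 (by
      change -a • v + (1 : F) • g • g • v = 0
      rw [← mul_smul, ← ha]; simp)).2
  have d0 : LinearMap.det t ≠ 0 := (DistribMulAction.toLinearEquiv F V g).isUnit_det'.ne_zero
  have d1 := congrArg LinearMap.det hs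
  rw [map_mul, LinearMap.det_smul, map_one, hV, mul_one] at d1
  have s0 : s ≠ 0 := by rintro rfl; simp [d0] at d1
  obtain ⟨r, hr⟩ : ∃ r, r * r = s := ⟨LinearMap.det t / s, by field_simp; linear_combination d1⟩
  have k : ∀ r : F, r * r = s → (∀ v, (r⁻¹ • t) ((r⁻¹ • t) v) = v) ∧ finrank F (LinearMap.range (1 - r⁻¹ • t)) ≠ 0 ∧
      (finrank F (LinearMap.range (1 - r⁻¹ • t)) = 1 → ∃ c φ, Rf F V Γ c φ) := fun r hr => by
    have r0 : r ≠ 0 := by rintro rfl; exact s0 (by rw [← hr, zero_mul])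
    have a : ∀ v, (r⁻¹ • t) ((r⁻¹ • t) v) = v := fun v => by
      rw [LinearMap.smul_apply, LinearMap.smul_apply, map_smul, show t (t v) = s • v from LinearMap.congr_fun hs v, ← hr,
        smul_smul, smul_smul]
      field_simp
      exact one_smul _ _
    have b : ∀ v, g • v = r • (r⁻¹ • t) v := fun v => by rw [LinearMap.smul_apply, smul_inv_smul₀ r0]; rfl
    refine ⟨a, fun e => g1 ((mN g).2 fun U => ?_), fun e => ?_⟩
    · rw [finrank_eq_zero, LinearMap.range_eq_bot, sub_eq_zero] at e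
      rw [← e] at b
      refine eq_of_le_of_finrank_eq ?_ (finrank_smul g U)
      rintro _ ⟨v, hv, rfl⟩
      exact (congrArg (· ∈ U) (b v)).mpr (U.smul_mem r hv)
    · obtain ⟨c, φ, e1, e2⟩ := kap_refl h2 a e
      exact ⟨c, φ, e1, g, r, fun v => by rw [b, e2]⟩
  obtain ⟨a1, a2, a3⟩ := k r hr
  obtain ⟨-, b2, b3⟩ := k (-r) (by rw [neg_mul_neg, hr])
  have c1 := (1 - r⁻¹ • t).finrank_range_add_finrank_ker
  have c2 := finrank_mono (show LinearMap.range (1 - (-r)⁻¹ • t) ≤ LinearMap.ker (1 - r⁻¹ • t) by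
    rintro _ ⟨v, rfl⟩
    rw [LinearMap.mem_ker, inv_neg, neg_smul, sub_neg_eq_add]
    simp only [LinearMap.sub_apply, LinearMap.add_apply, Module.End.one_apply, map_add, a1]
    abel)
  by_cases c : finrank F (LinearMap.range (1 - r⁻¹ • t)) = 1
  · exact a3 c
  · exact b3 (by omega)

omit [Finite F] [Finite V] [Finite Γ] in
theorem Rf.cj {c : V} {φ : V →ₗ[F] F} (h : Rf F V Γ c φ) (k : Γ) {a : F} {d : V} (e : k • c = a • d) :
    Rf F V Γ d (a • φ ∘ₗ DistribSMul.toLinearMap F V k⁻¹) := by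
  obtain ⟨h1, g, s, h2⟩ := h
  refine ⟨?_, k * g * k⁻¹, s, fun v => ?_⟩
  · change a * φ (k⁻¹ • d) = 1
    rw [← smul_eq_mul, ← map_smul, ← smul_comm, ← e, inv_smul_smul, h1]
  · change _ = s • (v - (2 * (a * φ (k⁻¹ • v))) • d)
    rw [mul_smul, mul_smul, h2, smul_comm k, smul_sub, smul_inv_smul, smul_comm k, e, smul_smul, mul_assoc, mul_comm a]

omit [Finite F] [Finite V] [Finite Γ] in
theorem Rf.ne {c : V} {φ : V →ₗ[F] F} (h : Rf F V Γ c φ) : c ≠ 0 := by
  rintro rfl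
  simpa using h.1

omit [Finite F] [Finite V] [Finite Γ] in
theorem Rf.eq {c : V} {φ φ' : V →ₗ[F] F} (h2 : (2 : F) ≠ 0) (n : ¬El F V Γ) (h : Rf F V Γ c φ) (h' : Rf F V Γ c φ') :
    φ = φ' := by
  by_contra c'
  have c0 := h.ne
  obtain ⟨h1, g, s, e⟩ := h
  obtain ⟨h1', g', s', e'⟩ := h'
  refine n ⟨g * g', s * s', (2 : F) • (φ' - φ), c, smul_ne_zero h2 (sub_ne_zero.2 (Ne.symm c')), c0, by simp [h1, h1'],
    fun v => ?_⟩
  rw [mul_smul, e', smul_comm g, e, map_sub, map_smul, h1, LinearMap.smul_apply, LinearMap.sub_apply]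
  simp only [smul_eq_mul]
  module

/-- By transitivity on points every `c ≠ 0` is a centre (`Rf (g • c) (φ (g⁻¹ • ·))`,
`Rf (a • c) (a⁻¹ • φ)`).  If `Rf c φ`, `Rf c φ'`, `φ ≠ φ'`, the product induces `v ↦ v + 2 (φ' - φ) v • c`
up to a scalar.  Otherwise let `φ_c` be the unique form; `R y z` for points `y = span {c}`, `z`:
`z ≤ ker φ_c`.  If `φ_c d = 0`, the reflection `h` at `c` fixes `d` up to a scalar, conjugation gives
`φ_d (v - 2 φ_c v • c) = φ_d v`, so `φ_d c = 0`: `R` is symmetric.  If `ker φ_c = ker φ_c'` for distinct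
points, take a point `z ≤ ker φ_c` on the line through them: its axis contains both, so is this line
and contains `z`, against `φ_z z = 1`.  So two points have exactly one common neighbour: `friend`. -/
theorem el_of_odd (hV : finrank F V = 3) (h : o2 F V Γ 1 2 ≤ 1) (hq : Odd (Nat.card F)) :
    El F V Γ := by
  by_contra n
  have h2 := kap_two hq
  obtain ⟨c₀, φ₀, r0⟩ := exists_rf hV h hq
  have ln : ∀ {y : Submodule F V}, finrank F y = 1 → ∃ l, (y, l) ∈ G2 F V 1 2 := fun {y} hy => by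
    obtain ⟨l, a, -, b⟩ := exists_between (le_top (a := y)) (k := 2) (by omega) (by simp [hV])
    exact ⟨l, a, hy, b⟩
  have ex : ∀ y : pts (⊤ : Submodule F V), ∃ c φ, span F {c} = y ∧ Rf F V Γ c φ := fun y => by
    obtain ⟨l, hl⟩ := ln (finrank_span_singleton (K := F) r0.ne)
    obtain ⟨l', hl'⟩ := ln (mem_pts.1 y.2).2
    obtain ⟨g, e⟩ := cj_of_one h hl hl'
    exact ⟨g • c₀, _, (smul_span_one g c₀).symm.trans (congrArg Prod.fst e), r0.cj g (one_smul F _).symm⟩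
  choose c φ e rf using ex
  have φ0 : ∀ y, φ y ≠ 0 := fun y k => by simpa [k] using (rf y).1
  have iff : ∀ y z : pts (⊤ : Submodule F V), z.1 ≤ LinearMap.ker (φ y) ↔ φ y (c z) = 0 := fun y z => by
    rw [← e, span_singleton_le_iff_mem, LinearMap.mem_ker]
  have irr : ∀ y : pts (⊤ : Submodule F V), ¬y.1 ≤ LinearMap.ker (φ y) := fun y k =>
    one_ne_zero ((rf y).1.symm.trans ((iff y y).1 k))
  have sym : ∀ y z : pts (⊤ : Submodule F V), z.1 ≤ LinearMap.ker (φ y) → y.1 ≤ LinearMap.ker (φ z) := fun y z k => by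
    rw [iff] at k ⊢
    obtain ⟨h1, g, s, eg⟩ := rf y
    have a := eg (c z)
    rw [k, mul_zero, zero_smul, sub_zero] at a
    have b : φ z (g • c y) = s * φ z (g⁻¹ • g • c y) := LinearMap.congr_fun ((rf z).eq h2 n ((rf z).cj g a)) _
    rw [inv_smul_smul, eg, h1, map_smul, map_sub, map_smul, smul_eq_mul, mul_right_inj' (kap_ne (rf z).ne a), smul_eq_mul,
      sub_eq_self, mul_one] at b
    exact (mul_eq_zero.1 b).resolve_left h2
  have pt : ∀ {U : Submodule F V}, {z : pts (⊤ : Submodule F V) | z.1 ≤ U}.ncard = th (Nat.card F) (finrank F U) := fun {U} => by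
    rw [← card_pts, ← Set.ncard_coe_finset, ← Set.ncard_image_of_injective _ Subtype.val_injective]
    refine congrArg _ (Set.ext fun z => ⟨?_, fun k => ⟨⟨z, mem_pts.2 ⟨le_top, (mem_pts.1 k).2⟩⟩, (mem_pts.1 k).1, rfl⟩⟩)
    rintro ⟨z, k, rfl⟩
    exact mem_pts.2 ⟨k, (mem_pts.1 z.2).2⟩
  refine friend (fun y z : pts (⊤ : Submodule F V) => z.1 ≤ LinearMap.ker (φ y)) sym irr
    (Nat.minFac_prime (Nat.ne_of_gt (two_le_q (F := F)))) (Nat.minFac_dvd _) (by
      rw [Nat.card_eq_fintype_card, Fintype.card_coe, card_pts, finrank_top, hV, th_three])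
    (fun y => by rw [pt, kap_ker hV (φ0 y), th_two]) fun y y' ne => ?_
  have a := kap_ker hV (φ0 y)
  have a' := kap_ker hV (φ0 y')
  have ne' : LinearMap.ker (φ y) ≠ LinearMap.ker (φ y') := fun k => by
    obtain ⟨z, z1, z2, z3⟩ := exists_pt_inf (le_top (a := y.1 ⊔ y'.1)) (le_top (a := LinearMap.ker (φ y))) (by
      rw [finrank_top, hV, a, finrank_sup_pts (mem_pts.1 y.2).2 (mem_pts.1 y'.2).2 fun e => ne (Subtype.ext e)]; omega)
    let z' : pts (⊤ : Submodule F V) := ⟨z, mem_pts.2 ⟨le_top, z3⟩⟩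
    exact irr z' (z1.trans (sup_le (sym y z' z2) (sym y' z' (k ▸ z2))))
  have b := finrank_sup_add_finrank_inf_eq (LinearMap.ker (φ y)) (LinearMap.ker (φ y'))
  have b1 := finrank_le (LinearMap.ker (φ y) ⊔ LinearMap.ker (φ y'))
  have b2 := finrank_lt_finrank_of_lt (lt_of_le_of_ne inf_le_left fun k =>
    ne' (eq_of_le_of_finrank_eq (inf_eq_left.1 k) (a.trans a'.symm)))
  simp only [← le_inf_iff]
  rw [pt, show finrank F ↥(LinearMap.ker (φ y) ⊓ LinearMap.ker (φ y')) = 1 by omega]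
  simp [th]

end Cfsg.Lib.RK3
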