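import Cfsg.Agent.Lib.RK3.Kap

/-! S2194: all plane stabilisers are flag-transitive. -/

set_option autoImplicit false

namespace Cfsg.Lib.RK3

open Module Submodule MulAction
open scoped Pointwise

variable {F V Γ : Type*} [Field F] [AddCommGroup V] [Module F V] [Group Γ] [DistribMulAction Γ V]
  [SMulCommClass Γ F V]

/-- The stabiliser of a subspace acts on it. -/
instance resAct (E : Submodule F V) : DistribMulAction (stabilizer Γ E) E where
  smul g v := ⟨(g : Γ) • (v : V), by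
    have := (mem_smul (g : Γ)).2 v.2
    rwa [g.2] at this⟩
  one_smul v := Subtype.ext (one_smul Γ (v : V))
  mul_smul g h v := Subtype.ext (mul_smul (g : Γ) (h : Γ) (v : V))
  smul_zero g := Subtype.ext (smul_zero (g : Γ))
  smul_add g v w := Subtype.ext (smul_add (g : Γ) (v : V) (w : V))

theorem res_coe (E : Submodule F V) (g : stabilizer Γ E) (v : E) :
    ((g • v : E) : V) = (g : Γ) • (v : V) := rfl

instance resComm (E : Submodule F V) : SMulCommClass (stabilizer Γ E) F E :=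
  ⟨fun g c v => Subtype.ext (smul_comm (g : Γ) c (v : V))⟩

theorem res_map (E : Submodule F V) (g : stabilizer Γ E) (U : Submodule F E) :
    (g • U).map E.subtype = (g : Γ) • U.map E.subtype := by
  ext v
  rw [mem_smul' (g : Γ)]
  constructor
  · rintro ⟨w, hw, rfl⟩
    exact ⟨_, (mem_smul' g).1 hw, rfl⟩
  · rintro ⟨w, hw, e⟩
    exact ⟨g • w, (mem_smul g).2 hw, by rw [subtype_apply, res_coe, show (w : V) = _ from e, smul_inv_smul]⟩

variable [Finite F] [Finite V] [Finite Γ]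

/-- `fib1` for `(y, l, E) ↦ E` from `G3 1 2 3` onto `G1 3`; `res_map`, `map_injective_of_injective`. -/
theorem res_flag (h : o3 F V Γ 1 2 3 ≤ o1 F V Γ 3) {E : Submodule F V} (hE : finrank F E = 3) :
    o2 F E (stabilizer Γ E) 1 2 ≤ 1 := by
  refine (Set.ncard_le_one_iff (Set.toFinite _)).2 ?_
  rintro _ _ ⟨⟨y, l⟩, hx, rfl⟩ ⟨⟨y', l'⟩, hx', rfl⟩
  have m : ∀ {y l : Submodule F E}, (y, l) ∈ G2 F E 1 2 → (y.map E.subtype, l.map E.subtype, E) ∈ G3 F V 1 2 3 := fun h =>
    ⟨map_mono h.1, map_subtype_le _ _, (finrank_map_subtype_eq _ _).trans h.2.1, (finrank_map_subtype_eq _ _).trans h.2.2, hE⟩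
  obtain ⟨g, e⟩ := fib1 (fun x : Submodule F V × Submodule F V × Submodule F V => x.2.2) (fun _ _ => rfl)
    (Set.Subset.antisymm (by rintro _ ⟨x, hx, rfl⟩; exact hx.2.2.2.2) fun U (hU : _ = 3) => by
      obtain ⟨l, -, l1, l2⟩ := exists_between (bot_le : ⊥ ≤ U) (k := 2) (by simp) (by omega)
      obtain ⟨y, -, y1, y2⟩ := exists_between (bot_le : ⊥ ≤ l) (k := 1) (by simp) (by omega)
      exact ⟨(y, l, U), ⟨y1, l1, y2, l2, hU⟩, rfl⟩) h (m hx) (m hx') (.refl _)
  simp only [Prod.smul_mk, Prod.mk.injEq] at e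
  exact cj_iff.1 ⟨⟨g, e.2.2⟩, Prod.ext (map_injective_of_injective E.injective_subtype ((res_map E _ y).trans e.1))
    (map_injective_of_injective E.injective_subtype ((res_map E _ l).trans e.2.1))⟩

/-- Map by `E.subtype`; a subspace of `m.map E.subtype` is the image of its `comap`. -/
theorem res_l2 {E : Submodule F V} (h : L2 F E (stabilizer Γ E)) : L2 F V Γ := by
  obtain ⟨y, m, ym, hy, hm, H⟩ := h
  have pre : ∀ z ≤ m.map E.subtype, ∃ w ≤ m, w.map E.subtype = z := fun z hz =>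
    ⟨z.comap E.subtype, (map_le_map_iff_of_injective E.injective_subtype _ _).1 ((map_comap_le _ _).trans hz),
      map_comap_eq_self (hz.trans LinearMap.map_le_range)⟩
  refine ⟨y.map E.subtype, m.map E.subtype, map_mono ym, (finrank_map_subtype_eq _ _).trans hy,
    (finrank_map_subtype_eq _ _).trans hm, fun z z' hz hz' d d' n n' => ?_⟩
  obtain ⟨w, hw, rfl⟩ := pre z hz
  obtain ⟨w', hw', rfl⟩ := pre z' hz'
  obtain ⟨g, e, e'⟩ := H w w' hw hw' ((finrank_map_subtype_eq _ _).symm.trans d) ((finrank_map_subtype_eq _ _).symm.trans d')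
    (fun c => n (c ▸ rfl)) fun c => n' (c ▸ rfl)
  exact ⟨g, by rw [← res_map, e], by rw [← res_map, e']⟩

/-- Characteristic 2, `N v = t • v - v` has `N ∘ N = 0`, `N v₀ = c ≠ 0`.  `range N ≤ ker N` gives
`dim ker N ≥ n / 2 ≥ 2`; take `w ∈ ker N` outside `span {c}`, `E = span {v₀, c, w}`, and `φ` the
`v₀`-coordinate on `E`. -/
theorem el_of_inv (hV : 4 ≤ finrank F V) (hq : Even (Nat.card F)) (t : Γ) (ht : t * t = 1)
    (v₀ : V) (hv : t • v₀ ≠ v₀) :
    ∃ E : Submodule F V, finrank F E = 3 ∧ El F E (stabilizer Γ E) := by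
  have := Fintype.ofFinite F
  have two : (2 : F) = 0 := by
    have h2 : ringChar F = 2 := FiniteField.even_card_iff_char_two.2 (by rwa [← Nat.card_eq_fintype_card, ← Nat.even_iff])
    exact_mod_cast (ringChar.spec F 2).2 (h2 ▸ dvd_rfl)
  have vv : ∀ v : V, v + v = 0 := fun v => by rw [← two_smul F, two, zero_smul]
  let N : V →ₗ[F] V := DistribSMul.toLinearMap F V t - LinearMap.id
  have hN : ∀ v, N v = t • v - v := fun _ => rfl
  have NN : LinearMap.range N ≤ LinearMap.ker N := by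
    rintro _ ⟨v, rfl⟩
    rw [LinearMap.mem_ker, hN, hN, smul_sub, smul_smul, ht, one_smul, show v - t • v - (t • v - v) = v + v - (t • v + t • v) by abel,
      vv, vv, sub_self]
  have c0 : N v₀ ≠ 0 := sub_ne_zero.2 hv
  have r1 := N.finrank_range_add_finrank_ker
  have r2 := finrank_mono NN
  obtain ⟨K, cK, KN, dK⟩ := exists_between ((span_singleton_le_iff_mem _ _).2 (NN ⟨v₀, rfl⟩)) (k := 2)
    (by rw [finrank_span_singleton c0]; omega) (by omega)
  rw [span_singleton_le_iff_mem] at cK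
  have vK : v₀ ∉ K := fun c => c0 (KN c)
  obtain ⟨f, f1, f2⟩ := K.exists_le_ker_of_notMem vK
  have act : ∀ v ∈ K ⊔ span F {v₀}, t • v = v + f v • (f v₀)⁻¹ • N v₀ := fun v hv => by
    obtain ⟨k, hk, _, hw, rfl⟩ := mem_sup.1 hv
    obtain ⟨a, rfl⟩ := mem_span_singleton.1 hw
    rw [smul_add, show t • k = k from sub_eq_zero.1 (KN hk), map_add, f2 hk, zero_add, map_smul, smul_eq_mul, smul_smul, mul_inv_cancel_right₀ f1,
      smul_comm t, hN, smul_sub]
    abel
  have le : ∀ v ∈ K ⊔ span F {v₀}, t • v ∈ K ⊔ span F {v₀} := fun v hv => by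
    rw [act v hv]; exact add_mem hv (smul_mem _ _ (smul_mem _ _ (mem_sup_left cK)))
  have st : t ∈ stabilizer Γ (K ⊔ span F {v₀}) := by
    ext v
    rw [mem_smul', inv_eq_of_mul_eq_one_right ht]
    exact ⟨fun h => by simpa [smul_smul, ht] using le _ h, le v⟩
  have v0 : v₀ ≠ 0 := fun c => vK (by rw [c]; exact zero_mem _)
  refine ⟨K ⊔ span F {v₀}, (finrank_sup_pt (finrank_span_singleton v0) (by rwa [span_singleton_le_iff_mem])).trans (by rw [dK]),
    ⟨t, st⟩, 1, f.domRestrict _, ⟨(f v₀)⁻¹ • N v₀, smul_mem _ _ (mem_sup_left cK)⟩, fun c => f1 ?_, fun c => c0 ?_, ?_, fun v => ?_⟩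
  · exact LinearMap.congr_fun c ⟨v₀, mem_sup_right (mem_span_singleton_self _)⟩
  · exact (smul_eq_zero.1 (congrArg Subtype.val c)).resolve_left (inv_ne_zero f1)
  · exact f2 (smul_mem _ _ cK)
  · exact Subtype.ext (by rw [one_smul]; exact act v v.2)

theorem case_k (hV : 4 ≤ finrank F V) (h : o3 F V Γ 1 2 3 ≤ o1 F V Γ 3)
    (ht : Odd (Nat.card F) ∨ ∃ t : Γ, t * t = 1 ∧ ∃ v : V, t • v ≠ v) : L2 F V Γ := by
  rcases Nat.even_or_odd (Nat.card F) with hq | hq
  · obtain ⟨t, t1, v, t2⟩ := ht.resolve_left (Nat.not_odd_iff_even.2 hq)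
    obtain ⟨E, hE, e⟩ := el_of_inv hV hq t t1 v t2
    exact res_l2 (l2_of_el hE (res_flag h hE) e)
  · obtain ⟨E, -, -, hE⟩ := exists_between (bot_le : (⊥ : Submodule F V) ≤ ⊤) (k := 3) (by simp)
      (by rw [finrank_top]; omega)
    exact res_l2 (l2_of_el hE (res_flag h hE) (el_of_odd hE (res_flag h hE) hq))

end Cfsg.Lib.RK3
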