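import Cfsg.Agent.Lib.RK3.Sig
import Cfsg.Agent.Lib.RK3.Orb

/-! S2194, the case `(n-3,2,1)`. -/

set_option autoImplicit false

namespace Cfsg.Lib.RK3

open Module Submodule
open scoped Pointwise

variable {F V Γ : Type*} [Field F] [AddCommGroup V] [Module F V] [Finite F] [Finite V]
  [Group Γ] [Finite Γ] [DistribMulAction Γ V] [SMulCommClass Γ F V]

/-- `K` stabilises the line `m` and has the two orbits `B`, `Bᶜ` on its points. -/
structure MuH (K : Subgroup Γ) (m : Submodule F V) (B : Set (Submodule F V)) : Prop where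
  two : finrank F m = 2
  fix : ∀ k ∈ K, k • m = m
  iv : ∀ k ∈ K, ∀ y ∈ pts m, k • y ∈ B ↔ y ∈ B
  tr : ∀ y ∈ pts m, ∀ z ∈ pts m, (y ∈ B ↔ z ∈ B) → ∃ k ∈ K, k • y = z

theorem mu_cn (D : Set (Submodule F V)) (U : Submodule F V) : cn D U = {y | y ∈ pts U ∧ y ∈ D}.ncard := by
  classical
  rw [cn, cu, ← Set.ncard_coe_finset]
  exact congrArg _ (Set.ext fun y => by simp [pts])

theorem mu_span {y : Submodule F V} (hy : finrank F y = 1) {v : V} (hv : v ∈ y) (v0 : v ≠ 0) : span F {v} = y :=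
  eq_of_le_of_finrank_eq ((span_singleton_le_iff_mem _ _).2 hv) (by rw [hy, finrank_span_singleton v0])

theorem mu_pt {y : Submodule F V} (hy : finrank F y = 1) : ∃ v, v ≠ 0 ∧ span F {v} = y := by
  obtain ⟨v, hv, v0⟩ := y.ne_bot_iff.1 (by rintro rfl; simp at hy)
  exact ⟨v, v0, mu_span hy hv v0⟩

omit [Finite Γ] in
theorem mu_pts {m y : Submodule F V} {g : Γ} (hg : g • m = m) (hy : y ∈ pts m) : g • y ∈ pts m :=
  mem_pts.2 ⟨hg ▸ (smul_le g).2 (mem_pts.1 hy).1, (finrank_smul _ _).trans (mem_pts.1 hy).2⟩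

omit [Finite Γ] in
/-- Affine coordinates on the points of `m` other than `y`. -/
theorem mu_aff {m y : Submodule F V} (hm : finrank F m = 2) (hy : y ∈ pts m) : ∃ P : F → Submodule F V,
    Function.Injective P ∧ (∀ z, (z ∈ pts m ∧ z ≠ y) ↔ ∃ t, P t = z) ∧
      ∀ g : Γ, g • y = y → g • m = m → ∃ α β : F, ∀ t, g • P t = P (α * t + β) := by
  obtain ⟨le, h1⟩ := mem_pts.1 hy
  obtain ⟨e, e0, rfl⟩ := mu_pt h1
  obtain ⟨f, hf, n⟩ := SetLike.not_le_iff_exists.1 (show ¬m ≤ span F {e} from fun k => by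
    have := finrank_mono k; omega)
  have he := le (mem_span_singleton_self e)
  have nt : ∀ t : F, f + t • e ∉ span F {e} := fun t k =>
    n ((add_mem_cancel_right (smul_mem _ t (mem_span_singleton_self e))).1 k)
  have n0 : ∀ t : F, f + t • e ≠ 0 := fun t k => nt t (k ▸ zero_mem _)
  have f0 : f ≠ 0 := by simpa using n0 0
  have em : span F {e} ⊔ span F {f} = m := eq_of_le_of_finrank_eq (sup_le le ((span_singleton_le_iff_mem _ _).2 hf)) (by
    rw [hm, finrank_sup_pt (finrank_span_singleton f0) (mt (span_singleton_le_iff_mem _ _).1 n), h1])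
  have dec : ∀ v ∈ m, v ∉ span F {e} → ∃ a b : F, a ≠ 0 ∧ v = a • (f + b • e) := fun v hv k => by
    rw [← em] at hv
    obtain ⟨_, ha, _, hb, rfl⟩ := mem_sup.1 hv
    obtain ⟨b, rfl⟩ := mem_span_singleton.1 hb
    have b0 : b ≠ 0 := by rintro rfl; exact k (by simpa using ha)
    obtain ⟨a, rfl⟩ := mem_span_singleton.1 ha
    exact ⟨b, a / b, b0, by rw [smul_add, smul_smul, mul_div_cancel₀ _ b0, add_comm]⟩
  refine ⟨fun t => span F {f + t • e}, fun s t k => ?_, fun z => ⟨fun ⟨hz, k⟩ => ?_, ?_⟩, fun g h1' h2 => ?_⟩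
  · obtain ⟨a, ha⟩ := mem_span_singleton.1 (k.le (mem_span_singleton_self _))
    obtain rfl : a = 1 := by
      by_contra c
      refine n ((smul_mem_iff _ (sub_ne_zero.2 c)).1 (mem_span_singleton.2 ⟨s - a * t, ?_⟩))
      linear_combination (norm := module) -ha
    rw [one_smul, add_right_inj] at ha
    exact (smul_left_injective F e0 ha).symm
  · obtain ⟨v, v0, rfl⟩ := mu_pt (mem_pts.1 hz).2
    obtain ⟨a, b, a0, rfl⟩ := dec v ((mem_pts.1 hz).1 (mem_span_singleton_self v)) fun c => k (mu_span h1 c v0)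
    exact ⟨b, (span_singleton_smul_eq a0.isUnit _).symm⟩
  · rintro ⟨t, rfl⟩
    exact ⟨mem_pts.2 ⟨(span_singleton_le_iff_mem _ _).2 (add_mem hf (smul_mem _ _ he)), finrank_span_singleton (n0 t)⟩,
      fun k => nt t (k.le (mem_span_singleton_self _))⟩
  · obtain ⟨l, hl⟩ := mem_span_singleton.1 (h1'.le ((mem_smul g).2 (mem_span_singleton_self e)))
    obtain ⟨a, b, a0, k⟩ := dec (g • f) (h2.le ((mem_smul g).2 hf)) fun c => n ((mem_smul g).1 (h1'.ge c))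
    refine ⟨l / a, b, fun t => ?_⟩
    beta_reduce
    rw [smul_span_one, smul_add, smul_comm g t, ← hl, k, ← span_singleton_smul_eq a0.isUnit (f + (l / a * t + b) • e)]
    congr 2
    match_scalars <;> field_simp
    ring

omit [Finite Γ] in
theorem MuH.compl {K : Subgroup Γ} {m : Submodule F V} {B : Set (Submodule F V)} (h : MuH K m B) : MuH K m Bᶜ :=
  ⟨h.two, h.fix, fun k hk y hy => (h.iv k hk y hy).not, fun y hy z hz e => h.tr y hy z hz (not_iff_not.1 e)⟩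

omit [Finite Γ] in
theorem MuH.idx {K : Subgroup Γ} {m y : Submodule F V} {B : Set (Submodule F V)} (h : MuH K m B) (hy : y ∈ pts m)
    (hB : y ∈ B) : (MulAction.stabilizer K y).index = cn B m := by
  rw [MulAction.index_stabilizer, mu_cn]
  refine congrArg _ (Set.ext fun z => ⟨?_, fun hz => ?_⟩)
  · rintro ⟨k, rfl⟩
    exact ⟨mu_pts (h.fix k k.2) hy, (h.iv k k.2 y hy).2 hB⟩
  · obtain ⟨k, hk, e⟩ := h.tr y hy z hz.1 (iff_of_true hB hz.2)
    exact ⟨⟨k, hk⟩, e⟩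

omit [Finite Γ] in
theorem MuH.add {K : Subgroup Γ} {m : Submodule F V} {B : Set (Submodule F V)} (h : MuH K m B) :
    cn B m + cn Bᶜ m = Nat.card F + 1 := (cu_add_compl _ _ _).trans (sig_line h.two)

theorem mu_cast {c : ℕ} (hd : c ∣ Nat.card F) (h1 : 1 < c) : (c : F) = 0 := by
  have := Fintype.ofFinite F
  obtain ⟨p, _, n, hp, e⟩ := FiniteField.card' F
  rw [Nat.card_eq_fintype_card, e] at hd
  obtain ⟨k, -, rfl⟩ := (Nat.dvd_prime_pow hp).1 hd
  rw [Nat.cast_pow, CharP.cast_eq_zero F p, zero_pow]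
  rintro rfl
  simp at h1

/-- `c = cn B m > 1` divides `q`, so the characteristic `p` divides `c`.  Take `y = span {e} ∈ B`,
`m = span {e, f}`; `k ∈ K_y` has `k e = λ e`, `k f = μ f + ν e`; `k ↦ μ / λ` is a homomorphism
`K_y → Fˣ`.  An element `k` of its kernel permutes the `q + 1 - c` points `span {f + t e} ∉ B` by
`t ↦ t + ν / λ`; if `ν ≠ 0` all cycles have length `p`, but `p ∤ q + 1 - c`.  So the kernel `Z` fixes
all points of `m`, `|K| = c |K_y| = c d |Z|` with `d ∣ q - 1`, and `|K| = (q + 1 - c) |K_u|`, `Z ≤ K_u`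
(`u ∉ B`): `q + 1 - c ∣ c d`; it is prime to `c` (a power of `p`), so `q + 1 - c ∣ q - 1`.  Quotient `1`
gives `c = 2`; quotient `≥ 2` gives `2 c > q`, impossible for a proper divisor. -/
theorem MuH.two_of {K : Subgroup Γ} {m : Submodule F V} {B : Set (Submodule F V)} (h : MuH K m B)
    (hd : cn B m ∣ Nat.card F) (h1 : 1 < cn B m) (h2 : cn B m < Nat.card F) : cn B m = 2 := by
  classical
  have := Fintype.ofFinite F
  have s := h.add
  obtain ⟨y, hy, yB⟩ : ∃ y ∈ pts m, y ∈ B := by_contra fun c => by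
    have := cu_eq_zero.2 fun y hy e => c ⟨y, hy, e⟩
    unfold cn at h1; omega
  obtain ⟨u, hu, uB⟩ : ∃ y ∈ pts m, y ∈ Bᶜ := by_contra fun c => by
    have := cu_eq_zero.2 fun y hy e => c ⟨y, hy, e⟩
    unfold cn at s h2; omega
  obtain ⟨P, inj, sur, aff⟩ := mu_aff (Γ := Γ) h.two hy
  choose α β e using fun k : MulAction.stabilizer K y => aff k.1.1 k.2 (h.fix _ k.1.2)
  have mul : ∀ k k' t, α (k * k') * t + β (k * k') = α k * (α k' * t + β k') + β k := fun k k' t =>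
    inj (by rw [← e, ← e, ← e, ← mul_smul]; rfl)
  have one : ∀ t, α 1 * t + β 1 = t := fun t => inj (by rw [← e]; exact one_smul _ _)
  let χ : MulAction.stabilizer K y →* F :=
    { toFun := α
      map_one' := by linear_combination one 1 - one 0
      map_mul' k k' := by linear_combination mul k k' 1 - mul k k' 0 }
  have Pm : ∀ t, P t ∈ pts m := fun t => ((sur _).2 ⟨t, rfl⟩).1
  have cS : (Finset.univ.filter fun t => P t ∉ B).card = cn Bᶜ m := by
    rw [mu_cn, ← Set.ncard_coe_finset, ← Set.ncard_image_of_injective _ inj]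
    refine congrArg _ (Set.ext fun z => ⟨?_, fun hz => ?_⟩)
    · rintro ⟨t, ht, rfl⟩
      exact ⟨Pm t, by simpa using ht⟩
    · obtain ⟨t, rfl⟩ := (sur z).1 ⟨hz.1, by rintro rfl; exact hz.2 yB⟩
      exact ⟨t, by simpa using hz.2, rfl⟩
  have c1 : (cn Bᶜ m : F) = 1 := by
    have := congrArg (Nat.cast (R := F)) s
    rwa [Nat.cast_add, mu_cast hd h1, zero_add, Nat.cast_add, mu_cast dvd_rfl two_le_q, zero_add, Nat.cast_one] at this
  have le : χ.toHomUnits.ker.map (MulAction.stabilizer K y).subtype ≤ MulAction.stabilizer K u := by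
    rintro _ ⟨k, hk, rfl⟩
    have a1 : α k = 1 := congrArg Units.val (MonoidHom.mem_ker.1 hk)
    have ek := e k
    simp only [a1, one_mul] at ek
    have := Finset.sum_equiv (s := Finset.univ.filter fun t => P t ∉ B) (t := Finset.univ.filter fun t => P t ∉ B)
      (f := fun t => t + β k) (g := id) (Equiv.addRight (β k)) (fun t => by
        simp only [Finset.mem_filter, Finset.mem_univ, true_and, Equiv.coe_addRight, ← ek]
        exact (h.iv _ k.1.2 _ (Pm t)).not.symm) fun _ _ => rfl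
    rw [Finset.sum_add_distrib, Finset.sum_const, cS, nsmul_eq_mul, c1, one_mul] at this
    obtain ⟨t, rfl⟩ := (sur u).1 ⟨hu, by rintro rfl; exact uB yB⟩
    exact (ek t).trans (by rw [add_eq_left.1 this, add_zero])
  obtain ⟨j, hj⟩ := Subgroup.card_dvd_of_le le
  rw [Subgroup.card_map_of_injective Subtype.val_injective] at hj
  have k1 := (MulAction.stabilizer K y).card_mul_index
  have k2 := (MulAction.stabilizer K u).card_mul_index
  have k3 := χ.toHomUnits.ker.card_mul_index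
  have k4 := χ.toHomUnits.range.card_subgroup_dvd_card
  rw [Subgroup.index_ker] at k3
  rw [h.idx hy yB, ← k3] at k1
  rw [h.compl.idx hu uB, hj, ← k1, mul_assoc, mul_assoc] at k2
  have k5 := Nat.eq_of_mul_eq_mul_left Nat.card_pos k2
  rw [Nat.card_units] at k4
  have cp : (cn Bᶜ m).Coprime (cn B m) := by
    rw [← Nat.coprime_add_self_left, add_comm, s]
    exact (Nat.Coprime.coprime_dvd_right hd (by simp))
  obtain ⟨i, hi⟩ := (cp.dvd_of_dvd_mul_right (Dvd.intro_left _ k5)).trans k4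
  obtain ⟨r, hr⟩ := hd
  generalize cn B m = c at *
  generalize cn Bᶜ m = d at *
  have : 2 * c ≤ Nat.card F := by
    rcases r with _ | _ | r
    · omega
    · omega
    · rw [hr]; nlinarith
  rcases i with _ | _ | i
  · omega
  · omega
  · have : d * 2 ≤ d * (i + 1 + 1) := Nat.mul_le_mul_left _ (by omega)
    omega

omit [Finite Γ] in
theorem MuH.l2_one {K : Subgroup Γ} {m : Submodule F V} {B : Set (Submodule F V)} (h : MuH K m B) (h1 : cn B m = 1) :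
    L2 F V Γ := by
  rw [mu_cn] at h1
  obtain ⟨y, hy⟩ := Set.ncard_eq_one.1 h1
  have m1 : y ∈ pts m ∧ y ∈ B := hy.ge rfl
  refine ⟨y, m, (mem_pts.1 m1.1).1, (mem_pts.1 m1.1).2, h.two, fun z z' a a' b b' c c' => ?_⟩
  have p := mem_pts.2 ⟨a, b⟩
  have p' := mem_pts.2 ⟨a', b'⟩
  obtain ⟨k, hk, e⟩ := h.tr z p z' p' (iff_of_false (fun e => c (hy.le ⟨p, e⟩)) fun e => c' (hy.le ⟨p', e⟩))
  exact ⟨k, hy.le ⟨mu_pts (h.fix k hk) m1.1, (h.iv k hk y m1.1).2 m1.2⟩, e⟩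

omit [Finite Γ] in
theorem mu_fib {X : Type*} (s t : Set X) {x : X × X} (hx : x ∈ s ×ˢ t) :
    {y ∈ s ×ˢ t | y.1 = x.1}.ncard = t.ncard ∧ {y ∈ s ×ˢ t | y.2 = x.2}.ncard = s.ncard := by
  constructor
  · rw [← Set.ncard_image_of_injective t (f := fun b => (x.1, b)) fun a b e => congrArg Prod.snd e]
    exact congrArg _ (Set.ext fun y => ⟨fun hy => ⟨y.2, hy.1.2, Prod.ext hy.2.symm rfl⟩, by
      rintro ⟨b, hb, rfl⟩; exact ⟨⟨hx.1, hb⟩, rfl⟩⟩)
  · rw [← Set.ncard_image_of_injective s (f := fun b => (b, x.2)) fun a b e => congrArg Prod.fst e]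
    exact congrArg _ (Set.ext fun y => ⟨fun hy => ⟨y.1, hy.1.1, Prod.ext rfl hy.2.symm⟩, by
      rintro ⟨b, hb, rfl⟩; exact ⟨⟨hb, hx.2⟩, rfl⟩⟩)

omit [Finite Γ] in
theorem MuH.pair {K : Subgroup Γ} {m y z z' : Submodule F V} {B : Set (Submodule F V)} (h : MuH K m B)
    (hd : cn B m ∣ Nat.card F) (hy : y ∈ pts m ∧ y ∈ B) (hz : z ∈ pts m ∧ z ∉ B) (hz' : z' ∈ pts m ∧ z' ∉ B) :
    ∃ k ∈ K, k • y = y ∧ k • z = z' := by
  have k : ∀ {B : Set (Submodule F V)}, MuH K m B → ∀ {Y}, Y ⊆ {y | y ∈ pts m ∧ y ∈ B} → nOrb K Y ≤ 1 := fun h Y le =>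
    (Set.ncard_le_one_iff (Set.toFinite _)).2 (by
      rintro _ _ ⟨a, ha, rfl⟩ ⟨b, hb, rfl⟩
      obtain ⟨k, hk, e⟩ := h.tr a (le ha).1 b (le hb).1 (iff_of_true (le ha).2 (le hb).2)
      exact cj_iff.1 ⟨⟨k, hk⟩, e⟩)
  have := bip (Γ := K) (Y := {y | y ∈ pts m ∧ y ∈ B} ×ˢ {y | y ∈ pts m ∧ y ∈ Bᶜ}) (fun k x hx =>
    ⟨⟨mu_pts (h.fix _ k.2) hx.1.1, (h.iv _ k.2 _ hx.1.1).2 hx.1.2⟩, mu_pts (h.fix _ k.2) hx.2.1,
      (h.compl.iv _ k.2 _ hx.2.1).2 hx.2.2⟩) Prod.fst Prod.snd (fun _ _ => rfl) (fun _ _ => rfl)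
    (k h (Set.fst_image_prod_subset _ _)) (k h.compl (Set.snd_image_prod_subset _ _)) (fun x hx => (mu_fib _ _ hx).1)
    (fun x hx => (mu_fib _ _ hx).2) (by
      rw [← mu_cn, ← mu_cn, ← Nat.coprime_add_self_left, add_comm, h.add]
      exact (Nat.Coprime.coprime_dvd_right hd (by simp)))
  obtain ⟨g, e⟩ := cj_of_one this (x := (y, z)) (y := (y, z')) ⟨hy, hz⟩ ⟨hy, hz'⟩
  exact ⟨g, g.2, Prod.mk.inj e⟩

/-- `c = 1`: `B ∩ m = {y}` is fixed by `K`.  `c = q`: the same with `Bᶜ`.  Otherwise `c = 2 < q`,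
`q` even, `B ∩ m = {y, y'}`; `K_y` has index `≤ 2` in `K` and is still transitive on the `q - 1` (odd)
points of `m` off `B`.  If some `g` fixing `y`, `m` moves `y'` we get `L2` at `(y, m)`.  Otherwise
(conjugate by `htr`) for every point `x` of `m` the stabiliser of `x` and `m` fixes exactly one other
point `x'` of `m` (`q - 1 ≥ 2`), `x'' = x` (the two stabilisers have the same order, one contains the
other), and `x ↦ x'` is a fixed-point-free involution of a set of odd size `q + 1`. -/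
theorem MuH.l2 {K : Subgroup Γ} {m : Submodule F V} {B : Set (Submodule F V)} (h : MuH K m B)
    (hd : cn B m ∣ Nat.card F) (htr : ∀ y ∈ pts m, ∀ z ∈ pts m, ∃ g : Γ, g • m = m ∧ g • y = z) :
    L2 F V Γ := by
  have s := h.add
  have q2 := two_le_q (F := F)
  have c0 := Nat.pos_of_dvd_of_pos hd (by omega)
  have c1 := Nat.le_of_dvd (by omega) hd
  by_cases a1 : cn B m = 1
  · exact h.l2_one a1
  by_cases a2 : cn B m = Nat.card F
  · exact h.compl.l2_one (by omega)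
  have c2 := h.two_of hd (by omega) (by omega)
  obtain ⟨y, y', ne, hy⟩ := Set.ncard_eq_two.1 ((mu_cn _ _).symm.trans c2)
  have m1 : y ∈ pts m ∧ y ∈ B := hy.ge (.inl rfl)
  have m2 : y' ∈ pts m ∧ y' ∈ B := hy.ge (.inr rfl)
  have out : ∀ w ∈ pts m, w ≠ y → w ≠ y' → w ∉ B := fun w hw a b e => (hy.le ⟨hw, e⟩).elim a b
  by_cases c : ∃ g : Γ, g • m = m ∧ g • y = y ∧ g • y' ≠ y'
  · obtain ⟨g, g1, g2, g3⟩ := c
    have p := mu_pts g1 m2.1
    have o := out _ p (fun e => ne (MulAction.injective g (g2.trans e.symm))) g3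
    have k : ∀ z ∈ pts m, z ≠ y → ∃ t : Γ, t • y = y ∧ t • z = g • y' := fun z hz n => by
      by_cases e : z = y'
      · exact ⟨g, g2, by rw [e]⟩
      · obtain ⟨t, -, e⟩ := h.pair hd m1 ⟨hz, out z hz n e⟩ ⟨p, o⟩
        exact ⟨t, e⟩
    refine ⟨y, m, (mem_pts.1 m1.1).1, (mem_pts.1 m1.1).2, h.two, fun z z' a a' b b' c c' => ?_⟩
    obtain ⟨t, t1, t2⟩ := k z (mem_pts.2 ⟨a, b⟩) c
    obtain ⟨r, r1, r2⟩ := k z' (mem_pts.2 ⟨a', b'⟩) c'
    exact ⟨r⁻¹ * t, by rw [mul_smul, t1, inv_smul_eq_iff, r1], by rw [mul_smul, t2, inv_smul_eq_iff, r2]⟩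
  push Not at c
  exfalso
  let R : Submodule F V → Submodule F V → Prop := fun x x' =>
    x' ∈ pts m ∧ x' ≠ x ∧ ∀ g : Γ, g • m = m → g • x = x → g • x' = x'
  have eqv : ∀ g : Γ, g • m = m → ∀ x x', R x x' → R (g • x) (g • x') := fun g hg x x' r =>
    ⟨mu_pts hg r.1, fun e => r.2.1 (MulAction.injective g e), fun t t1 t2 => by
      have := r.2.2 (g⁻¹ * t * g) (by rw [mul_smul, mul_smul, hg, t1, inv_smul_eq_iff, hg])
        (by rw [mul_smul, mul_smul, t2, inv_smul_smul])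
      rwa [mul_smul, mul_smul, inv_smul_eq_iff] at this⟩
  have r0 : R y y' := ⟨m2.1, ne.symm, c⟩
  have u0 : ∀ w, R y w → w = y' := fun w r => by_contra fun n => by
    obtain ⟨w', hw', n'⟩ := Set.exists_ne_of_one_lt_ncard (s := {y | y ∈ pts m ∧ y ∈ Bᶜ}) (by rw [← mu_cn]; omega) w
    obtain ⟨k, hk, e1, e2⟩ := h.pair hd m1 ⟨r.1, out w r.1 r.2.1 n⟩ hw'
    exact n' (e2.symm.trans (r.2.2 k (h.fix k hk) e1))
  have r1 : R y' y := by
    obtain ⟨k, hk, e⟩ := h.tr y m1.1 y' m2.1 (iff_of_true m1.2 m2.2)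
    have := eqv k (h.fix k hk) _ _ r0
    rwa [e, (hy.le ⟨this.1, (h.iv k hk _ m2.1).2 m2.2⟩).resolve_right (e ▸ this.2.1)] at this
  have all : ∀ x ∈ pts m, ∃ x', R x x' ∧ R x' x ∧ ∀ w, R x w → w = x' := fun x hx => by
    obtain ⟨g, g1, rfl⟩ := htr y m1.1 x hx
    refine ⟨_, eqv g g1 _ _ r0, eqv g g1 _ _ r1, fun w r => ?_⟩
    have := eqv g⁻¹ (inv_smul_eq_iff.2 g1.symm) _ _ r
    rw [inv_smul_smul] at this
    exact inv_smul_eq_iff.1 (u0 _ this)
  choose τ t1 t2 t3 using all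
  have := Finset.sum_involution (s := pts m) (f := fun _ => (1 : ZMod 2)) τ (fun _ _ => rfl) (fun a ha _ => (t1 a ha).2.1)
    (fun a ha => (t1 a ha).1) fun a ha => (t3 _ _ _ (t2 a ha)).symm
  rw [Finset.sum_const, pts, sig_line h.two, nsmul_eq_mul, mul_one, ZMod.natCast_eq_zero_iff] at this
  rw [c2] at hd
  omega

/-- Fix a plane `E` with non-conjugate `(z, E)`, `(u, E)`, `A = {y | Cj Γ (z, E) (y, E)}`, `m = z ⊔ u`,
and a line `l₀ ≤ E` with `(l₀, E)` not conjugate to `(m, E)` (`h4`, `h2`).  `fib2` for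
`(y, l, E) ↦ (l, E)` at `(z, m, E)`, `(u, m, E)`: lines of `E` meeting both `A` and `Aᶜ` are conjugate to
`m` under the stabiliser of `E`, and each `(y, m, E)` is conjugate to `(z, m, E)` or `(u, m, E)`.  Let
`B ∈ {A, Aᶜ}` miss `l₀`; every `(l, E)` is conjugate to `(l₀, E)` or `(m, E)` (`cj_of_two`), so
`cn B l ∈ {0, cn B m}`, `arc_plane` gives `cn B m ∣ q`.  `MuH (stabilizer Γ (m, E)) m B`. -/
theorem case_m (h1 : o2 F V Γ 1 2 ≤ 1) (h2 : o1 F V Γ 3 ≤ 1) (h3 : o2 F V Γ 1 3 = 2)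
    (h4 : o2 F V Γ 2 3 = 2) (h5 : o3 F V Γ 1 2 3 ≤ 3) : L2 F V Γ := by
  obtain ⟨E, hE⟩ : ∃ E : Submodule F V, finrank F E = 3 := by
    obtain ⟨x, hx, -⟩ := exists_not_cj h3.ge
    exact ⟨_, hx.2.2⟩
  obtain ⟨z, u, hz, hu, nz⟩ := sig_two h2 h3 hE
  have hm := finrank_sup_pts hz.2.1 hu.2.1 (by rintro rfl; exact nz (.refl _))
  have mE : z ⊔ u ≤ E := sup_le hz.1 hu.1
  have zm := mem_pts.2 ⟨(le_sup_left : z ≤ z ⊔ u), hz.2.1⟩
  have um := mem_pts.2 ⟨(le_sup_right : u ≤ z ⊔ u), hu.2.1⟩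
  generalize z ⊔ u = m at hm mE zm um
  obtain ⟨l₀, h0, n0⟩ : ∃ l, (l, E) ∈ G2 F V 2 3 ∧ ¬Cj Γ (l, E) (m, E) := by
    obtain ⟨a, b, ha, hb, n⟩ := sig_two h2 h4 hE
    by_cases c : Cj Γ (a, E) (m, E)
    exacts [⟨b, hb, fun e => n (c.trans e.symm)⟩, ⟨a, ha, c⟩]
  let A : Set (Submodule F V) := {y | Cj Γ (z, E) (y, E)}
  have pr : ∀ {y y' l l' : Submodule F V}, Cj Γ (y, l, E) (y', l', E) → Cj Γ (y, E) (y', E) := fun ⟨g, e⟩ =>
    ⟨g, Prod.ext (Prod.mk.inj e).1 (Prod.mk.inj (Prod.mk.inj e).2).2⟩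
  have fl : ∀ {y l : Submodule F V}, y ∈ pts l → l ≤ E → finrank F l = 2 → (y, l, E) ∈ G3 F V 1 2 3 := fun hy le hl =>
    ⟨(mem_pts.1 hy).1, le, (mem_pts.1 hy).2, hl, hE⟩
  have fb := fun {y y' l : Submodule F V} (hy : y ∈ pts l) (hy' : y' ∈ pts l) le hl =>
    fib2 (Y := G3 F V 1 2 3) Prod.snd (fun _ _ => rfl) sig_im (h5.trans (by rw [show nOrb Γ _ = 2 from h4]))
      (fl zm mE hm) (fl um mE hm) (fl hy le hl) (fl hy' le hl) (.refl _) (fun e => nz (pr e)) (.refl _)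
  have cl : ∀ y ∈ pts m, Cj Γ (z, m, E) (y, m, E) ∨ Cj Γ (u, m, E) (y, m, E) := fun y hy => by
    by_contra! c
    rcases fb zm hy mE hm c.1 with e | e
    exacts [c.2 e.2, c.1 e.1]
  have iv : ∀ g : Γ, g • E = E → ∀ y, g • y ∈ A ↔ y ∈ A := fun g hg y => sig_iv hg
  have mu : MuH (MulAction.stabilizer Γ (m, E)) m A := ⟨hm, fun k hk => congrArg Prod.fst hk,
    fun k hk y _ => iv k (congrArg Prod.snd hk) y, fun y hy y' hy' e => by
      obtain ⟨g, e⟩ : Cj Γ (y, m, E) (y', m, E) := by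
        rcases cl y hy with a | a <;> rcases cl y' hy' with b | b
        exacts [a.symm.trans b, (nz ((e.1 (pr a)).trans (pr b).symm)).elim, (nz ((e.2 (pr b)).trans (pr a).symm)).elim,
          a.symm.trans b]
      exact ⟨g, congrArg Prod.snd e, congrArg Prod.fst e⟩⟩
  have htr : ∀ y ∈ pts m, ∀ z ∈ pts m, ∃ g : Γ, g • m = m ∧ g • y = z := fun y hy y' hy' => by
    obtain ⟨g, e⟩ := cj_of_one h1 (x := (y, m)) (y := (y', m)) ⟨(mem_pts.1 hy).1, (mem_pts.1 hy).2, hm⟩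
      ⟨(mem_pts.1 hy').1, (mem_pts.1 hy').2, hm⟩
    exact ⟨g, congrArg Prod.snd e, congrArg Prod.fst e⟩
  have k : ∀ {B : Set (Submodule F V)} {a b}, (∀ g : Γ, g • E = E → ∀ y, g • y ∈ B ↔ y ∈ B) → (∀ y ∈ pts l₀, y ∉ B) →
      (a, E) ∈ G2 F V 1 3 → a ∈ B → (b, E) ∈ G2 F V 1 3 → b ∉ B → cn B m ∣ Nat.card F := fun {B a b} iv o ha aB hb bB =>
    Dvd.intro _ (arc_plane hE (fun l le hl => by
      rcases cj_of_two h4.le h0 ⟨mE, hm, hE⟩ (z := (l, E)) ⟨le, hl, hE⟩ n0 with ⟨g, e⟩ | ⟨g, e⟩ <;>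
        obtain ⟨rfl, e2⟩ := Prod.mk.inj e
      · exact .inl ((sig_cn g fun y _ => iv g e2 y).trans (cu_eq_zero.2 o))
      · exact .inr (sig_cn g fun y _ => iv g e2 y)) (mem_pts.2 ⟨ha.1, ha.2.1⟩) aB (mem_pts.2 ⟨hb.1, hb.2.1⟩) bB).1
  by_cases c : ∀ y ∈ pts l₀, y ∉ A
  · exact mu.l2 (k iv c hz (.refl _) hu nz) htr
  push Not at c
  obtain ⟨y, hy, yA⟩ := c
  refine mu.compl.l2 (k (fun g hg y => (iv g hg y).not) (fun y' hy' c => n0 ?_) hu nz hz fun e => e (.refl _)) htr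
  rcases fb hy hy' h0.1 h0.2.1 fun e => c (yA.trans (pr e)) with ⟨⟨g, e⟩, -⟩ | ⟨⟨g, e⟩, -⟩ <;>
    exact Cj.symm ⟨g, congrArg Prod.snd e⟩

end Cfsg.Lib.RK3
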