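import Cfsg.Agent.Lib.RK3.Arc
import Cfsg.Agent.Lib.RK3.Orb

/-! S2194, the cases `(n-1,1)`, `(n-2,1,1)`, `(n-3,1,1,1)` and the passage to 2-transitivity. -/

set_option autoImplicit false

namespace Cfsg.Lib.RK3

open Module Submodule
open scoped Pointwise

variable {F V Γ : Type*} [Field F] [AddCommGroup V] [Module F V] [Finite F] [Finite V]
  [Group Γ] [DistribMulAction Γ V] [SMulCommClass Γ F V]

theorem sig_red {D : Set (Submodule F V)} (hD : Iv Γ D) {W y₀ y₁ : Submodule F V}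
    (h : ∀ y : Submodule F V, finrank F y = 1 → (y ∈ D ↔ y ≤ W)) (h0 : finrank F y₀ = 1) (h1 : finrank F y₁ = 1)
    (m0 : y₀ ∈ D) (m1 : y₁ ∉ D) : Red F V Γ := by
  have k : ∀ g : Γ, g • W ≤ W := fun g => le_of_pts fun y hy le => (h y hy).1 ((hD.iff g⁻¹).1
    ((h _ ((finrank_smul _ _).trans hy)).2 (by rwa [← smul_le g, smul_inv_smul])))
  refine ⟨W, fun e => ?_, fun e => m1 ((h _ h1).2 (e ▸ le_top)), fun g => le_antisymm (k g) ?_⟩
  · have := (h _ h0).1 m0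
    rw [e, le_bot_iff] at this
    rw [this, finrank_bot] at h0
    exact zero_ne_one h0
  · rw [← smul_le g⁻¹, inv_smul_smul]; exact k _

theorem sig_pt {l : Submodule F V} {k : ℕ} (h : finrank F l = k + 1) : ∃ y, y ≤ l ∧ finrank F y = 1 := by
  obtain ⟨y, -, h1, h2⟩ := exists_between (bot_le (a := l)) (k := 1) (by simp) (by omega)
  exact ⟨y, h1, h2⟩

theorem sig_cn (g : Γ) {D D' : Set (Submodule F V)} {U : Submodule F V} (h : ∀ B ∈ pts U, g • B ∈ D' ↔ B ∈ D) :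
    cn D' (g • U) = cn D U := by
  have := cu_smul g (A := ⊥) h
  rwa [smul_bot] at this

theorem sig_line {l : Submodule F V} (h : finrank F l = 2) : (up ⊥ l).card = Nat.card F + 1 :=
  (card_pts l).trans (by rw [h, th_two])

theorem sig_im {k : ℕ} : Prod.snd '' G3 F V 1 2 k = G2 F V 2 k := by
  refine Set.Subset.antisymm ?_ fun w hw => ?_
  · rintro _ ⟨x, hx, rfl⟩
    exact ⟨hx.2.1, hx.2.2.2⟩
  · obtain ⟨y, h1, h2⟩ := sig_pt hw.2.1
    exact ⟨(y, w), ⟨h1, hw.1, h2, hw.2⟩, rfl⟩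

/-- A plane with two non-conjugate subspaces. -/
theorem sig_two {a : ℕ} (h3 : o1 F V Γ 3 ≤ 1) (h4 : o2 F V Γ a 3 = 2) {E : Submodule F V} (hE : finrank F E = 3) :
    ∃ z u, (z, E) ∈ G2 F V a 3 ∧ (u, E) ∈ G2 F V a 3 ∧ ¬Cj Γ (z, E) (u, E) := by
  obtain ⟨x, hx, y, hy, n⟩ := exists_not_cj h4.ge
  obtain ⟨g, rfl⟩ := cj_of_one h3 hx.2.2 hE
  obtain ⟨g', e⟩ := cj_of_one h3 hy.2.2 hE
  refine ⟨g • x.1, g' • y.1, iv2 _ _ g _ hx, e ▸ iv2 _ _ g' _ hy, fun c => n ((cj_smul g x).trans (c.trans ?_))⟩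
  rw [← e]
  exact (cj_smul g' y).symm

omit [Finite F] [Finite V] in
theorem sig_iv {z E y : Submodule F V} {g : Γ} (hg : g • E = E) : Cj Γ (z, E) (g • y, E) ↔ Cj Γ (z, E) (y, E) := by
  have : Cj Γ (y, E) (g • y, E) := ⟨g, Prod.ext rfl hg⟩
  exact ⟨fun h => h.trans this.symm, fun h => h.trans this⟩

/-- `D` = the orbit of a point `y₀`, `y₁` a point outside `D` (`exists_not_cj`).  By `fib2` for
`Prod.snd : G2 1 2 → G1 2` all lines containing points of `D` and of `Dᶜ` are conjugate, so have the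
same `cn D` (`cu_smul`).  `arc3` gives `W`; it is neither `⊥` nor `⊤`, invariant by `le_of_pts`. -/
theorem case_s (hV : 4 ≤ finrank F V) (h1 : 2 ≤ o1 F V Γ 1) (h2 : o2 F V Γ 1 2 ≤ o1 F V Γ 2 + 1) :
    Red F V Γ := by
  obtain ⟨y₀, h0, y₁, h1', n⟩ := exists_not_cj h1
  have hD := iv_cj (Γ := Γ) y₀
  have f1 : ∀ {a b : Submodule F V × Submodule F V}, Cj Γ a b → Cj Γ a.1 b.1 := fun ⟨g, e⟩ => ⟨g, congrArg Prod.fst e⟩
  have hm := finrank_sup_pts h0 h1' (by rintro rfl; exact n (.refl _))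
  obtain ⟨W, hW⟩ := arc3 (D := {y | Cj Γ y₀ y}) (a := cn {y | Cj Γ y₀ y} (y₀ ⊔ y₁)) hV fun l hl => by
    by_cases c1 : ∀ y ∈ pts l, y ∉ {y | Cj Γ y₀ y}
    · exact .inl (cu_eq_zero.2 c1)
    by_cases c2 : ∀ y ∈ pts l, y ∈ {y | Cj Γ y₀ y}
    · exact .inr (.inr ((cu_eq_card.2 c2).trans (sig_line hl)))
    push Not at c1 c2
    obtain ⟨z, hz, zD⟩ := c1
    obtain ⟨u, hu, uD⟩ := c2
    rw [mem_pts] at hz hu
    have := fib2 (Y := G2 F V 1 2) (Y' := G1 F V 2) Prod.snd (fun _ _ => rfl) (Set.Subset.antisymm (by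
        rintro _ ⟨x, hx, rfl⟩; exact hx.2.2) fun w hw => by
        obtain ⟨y, h1, h2⟩ := sig_pt hw
        exact ⟨(y, w), ⟨h1, h2, hw⟩, rfl⟩) h2 (x := (y₀, y₀ ⊔ y₁)) (y := (y₁, y₀ ⊔ y₁)) (z := (z, l)) (u := (u, l))
      ⟨le_sup_left, h0, hm⟩ ⟨le_sup_right, h1', hm⟩ ⟨hz.1, hz.2, hl⟩ ⟨hu.1, hu.2, hl⟩ (.refl _) (fun e => n (f1 e)) (.refl _)
      fun e => uD (zD.trans (f1 e))
    obtain ⟨g, e⟩ : Cj Γ (y₀ ⊔ y₁) l := by rcases this with ⟨⟨g, e⟩, -⟩ | ⟨⟨g, e⟩, -⟩ <;> exact ⟨g, congrArg Prod.snd e⟩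
    exact .inr (.inl (e ▸ sig_cn g fun B _ => hD.iff g))
  rcases hW with hW | hW
  · exact sig_red hD hW h0 h1' (.refl _) n
  · exact sig_red (D := {y | Cj Γ y₀ y}ᶜ) (fun g y hy e => hy ((hD.iff g).1 e)) hW h1' h0 n fun e => e (.refl _)

/-- `bip` for `Y = G3 1 2 4`, `f (y, l, S) = (l, S)` (fibres `pts l`, size `q + 1`),
`f' (y, l, S) = (y, S)` (fibres `up y S`, size `q ^ 2 + q + 1 = q (q + 1) + 1`). -/
theorem case_n (h1 : o2 F V Γ 1 4 ≤ 1) (h2 : o2 F V Γ 2 4 ≤ 1) : o3 F V Γ 1 2 4 ≤ 1 := by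
  refine bip (iv3 1 2 4) Prod.snd (fun x => (x.1, x.2.2)) (fun _ _ => rfl) (fun _ _ => rfl) (by rw [sig_im]; exact h2)
    ((Set.ncard_le_ncard (Set.image_mono ?_) (Set.toFinite _)).trans h1) (α := Nat.card F + 1) (β := (Nat.card F + 1) * Nat.card F + 1)
    (fun x hx => ?_) (fun x hx => ?_) (by simp)
  · rintro _ ⟨x, hx, rfl⟩
    exact ⟨hx.1.trans hx.2.1, hx.2.2.1, hx.2.2.2.2⟩
  · rw [← sig_line hx.2.2.2.1, ← Set.ncard_coe_finset, 
      ← Set.ncard_image_of_injective (up ⊥ x.2.1 : Set (Submodule F V)) (f := fun y => (y, x.2)) fun a b e => congrArg Prod.fst e]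
    refine congrArg Set.ncard (Set.ext fun y => ⟨?_, ?_⟩)
    · rintro ⟨hy, e⟩
      exact ⟨y.1, mem_pts.2 ⟨e ▸ hy.1, hy.2.2.1⟩, Prod.ext rfl e.symm⟩
    · rintro ⟨y, hy, rfl⟩
      exact ⟨⟨(mem_pts.1 hy).1, hx.2.1, (mem_pts.1 hy).2, hx.2.2.2⟩, rfl⟩
  · have c := card_up (hx.1.trans hx.2.1)
    rw [hx.2.2.1, hx.2.2.2.2, th_three] at c
    rw [show (Nat.card F + 1) * Nat.card F + 1 = Nat.card F ^ 2 + Nat.card F + 1 by ring, ← c, ← Set.ncard_coe_finset,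
      ← Set.ncard_image_of_injective (up x.1 x.2.2 : Set (Submodule F V)) (f := fun l => (x.1, l, x.2.2)) fun a b e => congrArg (·.2.1) e]
    refine congrArg Set.ncard (Set.ext fun y => ⟨?_, ?_⟩)
    · rintro ⟨hy, e⟩
      obtain ⟨e1, e2⟩ := Prod.mk.inj e
      exact ⟨y.2.1, mem_up.2 ⟨e1 ▸ hy.1, e2 ▸ hy.2.1, by rw [hy.2.2.2.1, hx.2.2.1]⟩, by rw [← e1, ← e2]⟩
    · rintro ⟨y, hy, rfl⟩
      obtain ⟨a, b, c⟩ := mem_up.1 hy
      exact ⟨⟨a, b, hx.2.2.1, by rw [c, hx.2.2.1], hx.2.2.2.2⟩, rfl⟩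

/-- Move the flag `(span {v}, span {v, w})` to `(y, m)` and also `(span {v'}, span {v', w'})`. -/
theorem t2_of (h1 : o2 F V Γ 1 2 ≤ 1) (h2 : L2 F V Γ) : T2 F V Γ := by
  obtain ⟨y, m, le, hy, hm, tr⟩ := h2
  have k : ∀ v w : V, LinearIndependent F ![v, w] → ∃ g : Γ, g • span F {v} = y ∧ g • span F {w} ≤ m ∧
      finrank F ↥(g • span F {w}) = 1 ∧ g • span F {w} ≠ y := fun v w h => by
    have f1 := finrank_span_singleton (K := F) (h.ne_zero 0)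
    have f2 := finrank_span_singleton (K := F) (h.ne_zero 1)
    have n : span F {v} ≠ span F {w} := fun e => by
      obtain ⟨a, ha⟩ := mem_span_singleton.1 (e.le (mem_span_singleton_self v))
      exact one_ne_zero (LinearIndependent.pair_iff.1 h 1 (-a) (by rw [← ha]; simp)).1
    obtain ⟨g, e⟩ := cj_of_one h1 (x := (span F {v}, span F {v} ⊔ span F {w})) (y := (y, m))
      ⟨le_sup_left, f1, finrank_sup_pts f1 f2 n⟩ ⟨le, hy, hm⟩
    obtain ⟨e1, e2⟩ := Prod.mk.inj e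
    exact ⟨g, e1, e2 ▸ (smul_le g).2 le_sup_right, (finrank_smul _ _).trans f2, fun e => n (MulAction.injective g (e1.trans e.symm))⟩
  intro v w v' w' h h'
  obtain ⟨g, a1, a2, a3, a4⟩ := k v w h
  obtain ⟨g', b1, b2, b3, b4⟩ := k v' w' h'
  obtain ⟨t, t1, t2⟩ := tr _ _ a2 b2 a3 b3 a4 b4
  have e1 : (g'⁻¹ * t * g) • span F {v} = span F {v'} := by rw [mul_smul, mul_smul, a1, t1, ← b1, inv_smul_smul]
  have e2 : (g'⁻¹ * t * g) • span F {w} = span F {w'} := by rw [mul_smul, mul_smul, t2, inv_smul_smul]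
  rw [smul_span_one] at e1 e2
  obtain ⟨a, ha⟩ := mem_span_singleton.1 (e1.le (mem_span_singleton_self _))
  obtain ⟨b, hb⟩ := mem_span_singleton.1 (e2.le (mem_span_singleton_self _))
  exact ⟨_, a, b, ha.symm, hb.symm⟩

theorem sig_arc {B : Set (Submodule F V)} {E z u l₁ m : Submodule F V} (hE : finrank F E = 3)
    (iv : ∀ g : Γ, g • E = E → ∀ y, g • y ∈ B ↔ y ∈ B) (hz : z ∈ pts E) (zB : z ∈ B) (hu : u ∈ pts E) (uB : u ∉ B)
    (tr : ∀ y ∈ pts E, y ∉ B → Cj Γ (u, E) (y, E)) (h0 : cn B l₁ = 0)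
    (two : ∀ l, l ≤ E → finrank F l = 2 → Cj Γ (l₁, E) (l, E) ∨ Cj Γ (m, E) (l, E))
    (T : Submodule F V → Submodule F V → Prop) (ivT : ∀ (g : Γ) y l, T (g • y) (g • l) ↔ T y l)
    (hT : ∀ l : Submodule F V, finrank F l = 2 → cn {y | T y l} l = cn B m) : False := by
  have c : ∀ g : Γ, g • E = E → ∀ l, cn B (g • l) = cn B l := fun g hg l => sig_cn g fun y _ => iv g hg y
  refine arc_flags hE (c := cn B m) (t := cu {l | cn B l = 0 ∧ T u l} u E) (fun l le hl => ?_) hz zB hu uB T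
    (fun l _ hl _ => hT l hl) fun y hy yB => ?_
  · rcases two l le hl with ⟨g, e⟩ | ⟨g, e⟩ <;> obtain ⟨rfl, e2⟩ := Prod.mk.inj e
    · exact .inl ((c g e2 _).trans h0)
    · exact .inr (c g e2 _)
  · obtain ⟨g, e⟩ := tr y hy yB
    obtain ⟨rfl, e2⟩ := Prod.mk.inj e
    have := cu_smul g (D := {l | cn B l = 0 ∧ T u l}) (D' := {l | cn B l = 0 ∧ T (g • u) l}) (A := u) (U := E) fun l _ => by
      simp only [Set.mem_ofPred_eq, c g e2, ivT]
    rwa [show g • E = E from e2] at this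

/-- Fix a flag `(y₀, l₀)`, `T y l := Cj Γ (y₀, l₀) (y, l)`; `a = cn {y | T y l} l` is the same for all
lines `l` (`h1`, `cu_smul`), `1 ≤ a ≤ q` (`h2`), `b = q + 1 - a`.  Fix a plane `E` with non-conjugate
`(z, E)`, `(u, E)` (`exists_not_cj`, `h3`), `A = {y | Cj Γ (z, E) (y, E)}`.  `fib3` for
`(y, l, E) ↦ (l, E)`: points `y, y'` of a line `l ≤ E` with `T y l ↔ T y' l` have
`Cj Γ (y, l, E) (y', l, E)`, so `y ∈ A ↔ y' ∈ A`, and `cn A l ∈ {0, a, b, q + 1}`.  If all values are in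
`{a, b}` use `two_int`.  Otherwise `cn A l₁ ∈ {0, q + 1}`; `m = z ⊔ u` has `cn A m ∈ {a, b}`; every
`(l, E)` is conjugate to `(l₁, E)` or `(m, E)` (`cj_of_two`).  Use `arc_flags` for `B ∈ {A, Aᶜ}` missing
`l₁`, `c = cn B m`, and `T` or `¬T` (the one with `c` points on each line); the points of `E` off `B`
are conjugate under the stabiliser of `E` (`cj_of_two`), which gives the constant `t`. -/
theorem case_u (h1 : o1 F V Γ 2 ≤ 1) (h2 : o2 F V Γ 1 2 = 2) (h3 : o1 F V Γ 3 ≤ 1)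
    (h4 : o2 F V Γ 1 3 = 2) (h5 : o2 F V Γ 2 3 = 2) (h6 : o3 F V Γ 1 2 3 ≤ 4) : False := by
  obtain ⟨⟨y₀, l₀⟩, f0, ⟨y₁, l₁⟩, f1, n⟩ := exists_not_cj h2.ge
  let T : Submodule F V → Submodule F V → Prop := fun y l => Cj Γ (y₀, l₀) (y, l)
  have ivT : ∀ (g : Γ) y l, T (g • y) (g • l) ↔ T y l := fun g y l => (iv_cj (y₀, l₀)).iff g (y := (y, l))
  have ha : ∀ l : Submodule F V, finrank F l = 2 → cn {y | T y l} l = cn {y | T y l₀} l₀ := fun l hl => by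
    obtain ⟨g, rfl⟩ := cj_of_one h1 f0.2.2 hl
    exact sig_cn g fun y _ => ivT g y l₀
  have hb : ∀ l : Submodule F V, finrank F l = 2 → cn {y | ¬T y l} l = cn {y | ¬T y l₁} l₁ := fun l hl => by
    obtain ⟨g, rfl⟩ := cj_of_one h1 f1.2.2 hl
    exact sig_cn g fun y _ => (ivT g y l₁).not
  have a1 : cn {y | T y l₀} l₀ ≠ 0 := fun e => cu_eq_zero.1 e y₀ (mem_pts.2 ⟨f0.1, f0.2.1⟩) (.refl _)
  have b1 : cn {y | ¬T y l₁} l₁ ≠ 0 := fun e => cu_eq_zero.1 e y₁ (mem_pts.2 ⟨f1.1, f1.2.1⟩) n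
  have ab : cn {y | T y l₀} l₀ + cn {y | ¬T y l₁} l₁ = Nat.card F + 1 := by
    rw [← hb l₀ f0.2.2, ← sig_line f0.2.2]; exact cu_add_compl _ _ _
  generalize cn {y | T y l₀} l₀ = a at *
  generalize cn {y | ¬T y l₁} l₁ = b at *
  have ex : ∀ l : Submodule F V, finrank F l = 2 → (∃ y ∈ pts l, T y l) ∧ ∃ y ∈ pts l, ¬T y l := fun l hl =>
    ⟨by_contra fun c => a1 ((ha l hl).symm.trans (cu_eq_zero.2 fun y hy e => c ⟨y, hy, e⟩)),
      by_contra fun c => b1 ((hb l hl).symm.trans (cu_eq_zero.2 fun y hy e => c ⟨y, hy, e⟩))⟩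
  have cT : ∀ {y y' l E : Submodule F V}, Cj Γ (y, l, E) (y', l, E) → (T y l ↔ T y' l) := fun {y y' l E} ⟨g, e⟩ => by
    obtain ⟨rfl, e'⟩ := Prod.mk.inj e
    rw [← ivT g y l, show g • l = l from congrArg Prod.fst e']
  obtain ⟨E, hE⟩ : ∃ E : Submodule F V, finrank F E = 3 := by
    obtain ⟨x, hx, -⟩ := exists_not_cj h4.ge
    exact ⟨_, hx.2.2⟩
  obtain ⟨z, u, hz, hu, nz⟩ := sig_two h3 h4 hE
  let A : Set (Submodule F V) := {y | Cj Γ (z, E) (y, E)}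
  have K : ∀ l, l ≤ E → finrank F l = 2 → ∀ y ∈ pts l, ∀ y' ∈ pts l, (T y l ↔ T y' l) → (y ∈ A ↔ y' ∈ A) :=
    fun l le hl y hy y' hy' e => by
    obtain ⟨w, hw, nw⟩ : ∃ w ∈ pts l, ¬(T y l ↔ T w l) := by
      obtain ⟨⟨w, hw, t⟩, w', hw', t'⟩ := ex l hl
      by_cases c : T y l
      exacts [⟨w', hw', fun e => t' (e.1 c)⟩, ⟨w, hw, fun e => c (e.2 t)⟩]
    rw [mem_pts] at hy hy' hw
    rcases fib3 (Y := G3 F V 1 2 3) Prod.snd (fun _ _ => rfl) sig_im (h6.trans (by rw [show nOrb Γ _ = 2 from h5])) (fun w hw => by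
        obtain ⟨⟨x, hx, t⟩, x', hx', t'⟩ := ex w.1 hw.2.1
        rw [mem_pts] at hx hx'
        exact ⟨(x, w), ⟨hx.1, hw.1, hx.2, hw.2⟩, (x', w), ⟨hx'.1, hw.1, hx'.2, hw.2⟩, rfl, rfl, fun e => t' ((cT e).1 t)⟩)
      (x := (y, l, E)) (y := (w, l, E)) (z := (y', l, E)) ⟨hy.1, le, hy.2, hl, hE⟩ ⟨hw.1, le, hw.2, hl, hE⟩
      ⟨hy'.1, le, hy'.2, hl, hE⟩ (.refl _) (.refl _) fun e => nw (cT e) with ⟨g, e'⟩ | e'
    · obtain ⟨rfl, e2⟩ := Prod.mk.inj e'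
      exact (sig_iv (congrArg Prod.snd e2)).symm
    · exact absurd (e.trans (cT e').symm) nw
  have four : ∀ l, l ≤ E → finrank F l = 2 → (∀ y ∈ pts l, y ∈ A) ∨ (∀ y ∈ pts l, y ∉ A) ∨ cn A l = a ∨ cn A l = b :=
    fun l le hl => by
    obtain ⟨⟨w, hw, t⟩, w', hw', t'⟩ := ex l hl
    have k1 := fun y hy (c : T y l) => K l le hl y hy w hw (iff_of_true c t)
    have k2 := fun y hy (c : ¬T y l) => K l le hl y hy w' hw' (iff_of_false c t')
    by_cases c : w ∈ A <;> by_cases c' : w' ∈ A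
    · exact .inl fun y hy => by by_cases d : T y l; exacts [(k1 y hy d).2 c, (k2 y hy d).2 c']
    · exact .inr (.inr (.inl ((cu_congr fun y hy => ⟨fun e => by_contra fun d => c' ((k2 y hy d).1 e),
        fun d => (k1 y hy d).2 c⟩).trans (ha l hl))))
    · exact .inr (.inr (.inr ((cu_congr fun y hy => ⟨fun e d => c ((k1 y hy d).1 e), fun d => (k2 y hy d).2 c'⟩).trans (hb l hl))))
    · exact .inr (.inl fun y hy e => by by_cases d : T y l; exacts [c ((k1 y hy d).1 e), c' ((k2 y hy d).1 e)])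
  have pz := mem_pts.2 ⟨hz.1, hz.2.1⟩
  have pu := mem_pts.2 ⟨hu.1, hu.2.1⟩
  have zA : z ∈ A := .refl _
  by_cases c : ∀ l, l ≤ E → finrank F l = 2 → cn A l = a ∨ cn A l = b
  · exact two_int hE ab (Nat.pos_of_ne_zero a1) (Nat.pos_of_ne_zero b1) c pz zA pu nz
  push Not at c
  obtain ⟨l, le, hl, c1, c2⟩ := c
  have hm := finrank_sup_pts hz.2.1 hu.2.1 (by rintro rfl; exact nz (.refl _))
  have mE : z ⊔ u ≤ E := sup_le hz.1 hu.1
  have cm : cn A (z ⊔ u) = a ∨ cn A (z ⊔ u) = b := ((four _ mE hm).resolve_left fun e =>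
    nz (e u (mem_pts.2 ⟨le_sup_right, hu.2.1⟩))).resolve_left fun e => e z (mem_pts.2 ⟨le_sup_left, hz.2.1⟩) zA
  have iv : ∀ g : Γ, g • E = E → ∀ y, g • y ∈ A ↔ y ∈ A := fun g hg y => sig_iv hg
  have two : ∀ l', l' ≤ E → finrank F l' = 2 → Cj Γ (l, E) (l', E) ∨ Cj Γ (z ⊔ u, E) (l', E) := fun l' le' hl' =>
    cj_of_two h5.le ⟨le, hl, hE⟩ ⟨mE, hm, hE⟩ ⟨le', hl', hE⟩ fun ⟨g, e⟩ => by
      obtain ⟨e1, e2⟩ := Prod.mk.inj e
      rw [← e1, sig_cn g fun y _ => iv g e2 y] at cm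
      exact cm.elim c1 c2
  rcases four l le hl with e | e | e | e
  · have s := cu_add_compl A ⊥ (z ⊔ u)
    rw [sig_line hm] at s
    have k := sig_arc (B := Aᶜ) hE (fun g hg y => (iv g hg y).not) pu nz pz (fun e => e zA) (fun y _ e => not_not.1 e)
      (cu_eq_zero.2 fun y hy d => d (e y hy)) two
    rcases cm with d | d
    · exact k (fun y l => ¬T y l) (fun g y l => (ivT g y l).not) fun l hl => (hb l hl).trans (by unfold cn at *; omega)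
    · exact k T ivT fun l hl => (ha l hl).trans (by unfold cn at *; omega)
  · have k := sig_arc hE iv pz zA pu nz (fun y hy e => (cj_of_two h4.le hz hu
      ⟨(mem_pts.1 hy).1, (mem_pts.1 hy).2, hE⟩ nz).resolve_left e) (cu_eq_zero.2 e) two
    rcases cm with d | d
    · exact k T ivT fun l hl => (ha l hl).trans d.symm
    · exact k (fun y l => ¬T y l) (fun g y l => (ivT g y l).not) fun l hl => (hb l hl).trans d.symm
  exacts [c1 e, c2 e]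

end Cfsg.Lib.RK3
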