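import Cfsg.Agent.Lib.RK3.Tau

/-! S2194, the case `(n-2,2)`: line spreads and null polarities. -/

set_option autoImplicit false

namespace Cfsg.Lib.RK3

open Module Submodule
open scoped Pointwise

variable {F V : Type*} [Field F] [AddCommGroup V] [Module F V] [Finite F] [Finite V]
  {Γ : Type*} [Group Γ] [DistribMulAction Γ V] [SMulCommClass Γ F V]
  {M : Set (Submodule F V)} {W : Submodule F V → Submodule F V}

/-- `w = 2`: `W y` is the unique `M`-line through `y` (a spread; "`M`-line" = member of `M ∩ G1 2`).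
The `M`-lines partition the points, `q + 1 ∣ th q n`; false for `n = 5`.  Let `n ≥ 6`, `l₁ ≠ l₂` two
`M`-lines (disjoint), `S₁ = l₁ ⊔ l₂`.  Take a plane `E ≥ l₁`.  A 4-space `S ≥ E` containing an `M`-line
`l ≠ l₁` is `E ⊔ W u` for a point `u ≤ l ⊓ E`, `u ≰ l₁` (`exists_pt_inf`): at most `q ^ 2` of the
`th q (n - 3) ≥ q ^ 2 + q + 1` members of `up E ⊤`.  So some `S₂ ≥ l₁` contains no other `M`-line.  The
flags `(l₁, S₁)`, `(a₁ ⊔ a₂, S₁)` (`aᵢ ∈ pts lᵢ`), `(l₁, S₂)`, `(a₁ ⊔ b, S₂)` (`b ≤ S₂`, `b ≰ l₁`),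
`(l', S₂)` (`l'` a complement of `l₁` in `S₂`) are separated by the invariants `l ∈ M`,
"`S` contains two distinct `M`-lines", "`l ⊓ k ≠ ⊥` for an `M`-line `k ≤ S`" (`exists_cj_of_lt`). -/
theorem Ws.tau2 (h : Ws Γ M W 2) (hV : 5 ≤ finrank F V) (h1 : 6 ≤ finrank F V → o2 F V Γ 2 4 ≤ 4) :
    False := by
  classical
  have eW : ∀ {y l : Submodule F V}, finrank F y = 1 → finrank F l = 2 → y ≤ l → l ∈ M → l = W y := fun hy hl e m =>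
    tx_eq ((h.mem' hy hl e).1 m) (by rw [h.dim _ hy, hl])
  have mW : ∀ {y : Submodule F V}, finrank F y = 1 → W y ∈ M := fun hy => (h.mem' hy (h.dim _ hy) (h.le _ hy)).2 le_rfl
  have eW' : ∀ {y z : Submodule F V}, finrank F y = 1 → finrank F z = 1 → y ≤ W z → W z = W y := fun hy hz e =>
    eW hy (h.dim _ hz) e (mW hz)
  have q2 := two_le_q (F := F)
  rcases hV.eq_or_lt with n5 | n6
  · have d : Nat.card F + 1 ∣ (pts (⊤ : Submodule F V)).card := by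
      rw [Finset.card_eq_sum_card_fiberwise (f := W) (t := (pts ⊤).image W) fun y hy => Finset.mem_image_of_mem W hy]
      refine Finset.dvd_sum fun l hl => ?_
      obtain ⟨z, hz, rfl⟩ := Finset.mem_image.1 hl
      have z1 := (mem_pts.1 hz).2
      rw [show (pts ⊤).filter (W · = W z) = pts (W z) from Finset.ext fun y => by
        rw [Finset.mem_filter, mem_pts, mem_pts]
        exact ⟨fun ⟨a, b⟩ => ⟨b ▸ h.le y a.2, a.2⟩, fun ⟨a, b⟩ => ⟨⟨le_top, b⟩, (eW' b z1 a).symm⟩⟩, card_pts, h.dim z z1, th_two]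
    rw [card_pts, finrank_top, ← n5, th_succ, th_succ, th_three,
      show ∀ q : ℕ, q * (q * (q ^ 2 + q + 1) + 1) + 1 = (q + 1) * (q ^ 3 + q) + 1 from fun q => by ring,
      Nat.dvd_add_right (dvd_mul_right _ _)] at d
    have := Nat.le_of_dvd one_pos d
    omega
  obtain ⟨a, -, ha⟩ := tx_pt (A := (⊤ : Submodule F V)) (by rw [finrank_top]; omega)
  have da := h.dim a ha
  obtain ⟨b, -, hb, nb⟩ := tx_out (A := W a) (U := ⊤) (by rw [finrank_top]; omega)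
  have db := h.dim b hb
  have ab : a ≠ b := fun c => nb (c ▸ h.le a ha)
  have nW : W a ≠ W b := fun c => nb (c ▸ h.le b hb)
  have dl := finrank_sup_pts ha hb ab
  have dE := finrank_sup_pt hb nb
  have dS : finrank F ↥(W a ⊔ W b) = 4 := by
    have := finrank_sup_add_finrank_inf_eq (W a) (W b)
    have : finrank F ↥(W a ⊓ W b) < 1 := not_le.1 fun c => by
      obtain ⟨y, y1, y2⟩ := tx_pt c
      exact nW ((eW' y2 ha (y1.trans inf_le_left)).trans (eW' y2 hb (y1.trans inf_le_right)).symm)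
    omega
  obtain ⟨S, hS, nS⟩ := Finset.exists_mem_notMem_of_card_lt_card (s := (pts (W a ⊔ b) \ pts (W a)).image (W a ⊔ b ⊔ W ·))
    (t := up (W a ⊔ b) ⊤) (Finset.card_image_le.trans_lt (by
      rw [Finset.card_sdiff_of_subset fun y hy => mem_pts.2 ⟨(mem_pts.1 hy).1.trans le_sup_left, (mem_pts.1 hy).2⟩, card_pts,
        card_pts, card_up le_top, finrank_top, dE, da, th_two]
      have := th_mono (q := Nat.card F) (show 3 ≤ finrank F V - (2 + 1) by omega)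
      rw [th_three] at this ⊢
      omega))
  obtain ⟨ES, -, dS'⟩ := mem_up.1 hS
  have only : ∀ y : Submodule F V, finrank F y = 1 → W y ≤ S → W y = W a := fun y hy e => by_contra fun n => by
    have dy := h.dim y hy
    obtain ⟨u, u1, u2, u3⟩ := exists_pt_inf e ES (by omega)
    refine nS (Finset.mem_image.2 ⟨u, Finset.mem_sdiff.2 ⟨mem_pts.2 ⟨u2, u3⟩, fun c => n ((eW' u3 hy u1).trans
      (eW' u3 ha (mem_pts.1 c).1).symm)⟩, eW' u3 hy u1 ▸ tx_sup ES e dS'.le fun c => ?_⟩)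
    obtain ⟨x, x1, x2, x3⟩ := exists_pt_inf c (le_sup_left : W a ≤ _) (by omega)
    exact n ((eW' x3 hy x1).trans (eW' x3 ha x2).symm)
  obtain ⟨c, cS, hc, nc⟩ := tx_out (A := W a ⊔ b) (U := S) (by omega)
  have dl' := finrank_sup_pts hb hc fun k => nc (k ▸ le_sup_right)
  let P2 : Submodule F V → Prop := fun S => ∃ y z : Submodule F V, finrank F y = 1 ∧ finrank F z = 1 ∧ W y ≤ S ∧ W z ≤ S ∧ W y ≠ W z
  let P3 : Submodule F V × Submodule F V → Prop := fun x => ∃ y : Submodule F V, finrank F y = 1 ∧ y ≤ x.1 ∧ W y ≤ x.2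
  have i2 : ∀ (g : Γ) S, P2 S → P2 (g • S) := fun g S ⟨y, z, hy, hz, e1, e2, n⟩ =>
    ⟨g • y, g • z, (finrank_smul g y).trans hy, (finrank_smul g z).trans hz, h.smul g hy ▸ (smul_le g).2 e1,
      h.smul g hz ▸ (smul_le g).2 e2, fun k => n (MulAction.injective g (by rwa [h.smul g hy, h.smul g hz] at k))⟩
  have i3 : ∀ (g : Γ) x, P3 x → P3 (g • x) := fun g x ⟨y, hy, e1, e2⟩ =>
    ⟨g • y, (finrank_smul g y).trans hy, (smul_le g).2 e1, h.smul g hy ▸ (smul_le g).2 e2⟩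
  have p2 : P2 (W a ⊔ W b) := ⟨a, b, ha, hb, le_sup_left, le_sup_right, nW⟩
  have n2 : ¬P2 S := fun ⟨y, z, hy, hz, e1, e2, n⟩ => n ((only y hy e1).trans (only z hz e2).symm)
  have nM : a ⊔ b ∉ M := fun k => nb ((h.line ha hb ab).1 k)
  have bcS : b ⊔ c ≤ S := sup_le (le_sup_right.trans ES) cS
  have n3 : ¬P3 (b ⊔ c, S) := fun ⟨y, hy, e1, e2⟩ => by
    have e3 := finrank_mono (le_inf (only y hy e2 ▸ h.le y hy) e1)
    have := finrank_sup_add_finrank_inf_eq (W a) (b ⊔ c)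
    rw [← sup_assoc, finrank_sup_pt hc nc] at this
    dsimp only at e3
    omega
  refine tx_many (Nat.lt_succ_of_le (h1 n6)) (fun x => if x.1 ∈ M then if P2 x.2 then 0 else 1 else if P2 x.2 then 2 else
    if P3 x then 3 else 4) (fun g x _ => by simp only [Prod.smul_fst, Prod.smul_snd, h.iv.iff, tx_iff i2, tx_iff i3]) fun i hi => ?_
  interval_cases i
  · exact ⟨(W a, W a ⊔ W b), ⟨le_sup_left, da, dS⟩, by rw [if_pos (mW ha), if_pos p2]⟩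
  · exact ⟨(W a, S), ⟨le_sup_left.trans ES, da, by dsimp only; omega⟩, by rw [if_pos (mW ha), if_neg n2]⟩
  · exact ⟨(a ⊔ b, W a ⊔ W b), ⟨sup_le_sup (h.le a ha) (h.le b hb), dl, dS⟩, by rw [if_neg nM, if_pos p2]⟩
  · exact ⟨(a ⊔ b, S), ⟨(sup_le_sup_right (h.le a ha) b).trans ES, dl, by dsimp only; omega⟩, by
      rw [if_neg nM, if_neg n2, if_pos ⟨a, ha, le_sup_left, le_sup_left.trans ES⟩]⟩
  · exact ⟨(b ⊔ c, S), ⟨bcS, dl', by dsimp only; omega⟩, by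
      rw [if_neg fun k => n3 ⟨b, hb, le_sup_left, eW hb dl' le_sup_left k ▸ bcS⟩, if_neg n2, if_neg n3]⟩

theorem Ws.step {w : ℕ} (h : Ws Γ M W w) (hw : w + 1 = finrank F V) {P a : Submodule F V} (ha : finrank F a = 1) (aP : a ≤ P)
    (n : ¬P ≤ W a) : ∃ b Q : Submodule F V, finrank F b = 1 ∧ ¬b ≤ W a ∧ a ⊔ b ⊔ Q = P ∧ finrank F P = finrank F Q + 2 ∧
      (∀ X ≤ Q, finrank F ↥(a ⊔ b ⊔ X) = finrank F X + 2) ∧ ∀ u ≤ Q, finrank F u = 1 → a ⊔ b ≤ W u := by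
  obtain ⟨b, hb, nb⟩ := exists_pt_not_le n
  obtain ⟨bP, hb⟩ := mem_pts.1 hb
  have dl := finrank_sup_pts ha hb fun c => nb (c ▸ h.le a ha)
  have d1 : ∀ (X : Submodule F V) {y : Submodule F V}, finrank F y = 1 → finrank F X ≤ finrank F ↥(X ⊓ W y) + 1 := fun X y hy => by
    have := finrank_sup_add_finrank_inf_eq X (W y)
    have := finrank_le (X ⊔ W y)
    have := h.dim y hy
    omega
  have d2 : ∀ X ≤ P ⊓ W a ⊓ W b, finrank F ↥(a ⊔ b ⊔ X) = finrank F X + 2 := fun X hX => by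
    have := finrank_sup_add_finrank_inf_eq (a ⊔ b) X
    have : finrank F ↥((a ⊔ b) ⊓ X) < 1 := not_le.1 fun c => by
      obtain ⟨y, y1, y2⟩ := tx_pt c
      have y3 := (y1.trans inf_le_right).trans hX
      by_cases e : b = y
      · exact nb (e ▸ y3.trans (inf_le_left.trans inf_le_right))
      · refine nb ((h.sym ha hb).2 (le_sup_left.trans ((tx_eq (sup_le le_sup_right (y1.trans inf_le_left))
          (by rw [dl, finrank_sup_pts hb y2 e])).ge.trans (sup_le (h.le b hb) (y3.trans inf_le_right)))))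
    omega
  have e : a ⊔ b ⊔ P ⊓ W a ⊓ W b = P := tx_eq (sup_le (sup_le aP bP) (inf_le_left.trans inf_le_left)) (by
    have := d2 _ le_rfl
    have := d1 P ha
    have := d1 (P ⊓ W a) hb
    omega)
  exact ⟨b, _, hb, nb, e, by rw [← d2 _ le_rfl, e], d2, fun u hu u1 => sup_le
    ((h.sym u1 ha).2 (hu.trans (inf_le_left.trans inf_le_right))) ((h.sym u1 hb).2 (hu.trans inf_le_right))⟩

/-- All `W y` are hyperplanes.  Construct a hyperbolic basis (points):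
`a₁`, `b₁ ≰ W a₁`, `P₁ = W a₁ ⊓ W b₁` (dimension `≥ n - 2`); a point `c ≤ a₁ ⊔ b₁` has `P₁ ≤ W c`
(`u ≤ P₁ → a₁ ⊔ b₁ ≤ W u → u ≤ W c` by `sym`), and `(a₁ ⊔ b₁) ⊓ P₁ = ⊥` (a point `c` in it: `c ≠ b₁`
gives `a₁ ≤ b₁ ⊔ c ≤ W b₁`; `c = b₁ ≤ W a₁`), so `(a₁ ⊔ b₁) ⊔ P₁ = ⊤`.  For a point `a₂ ≤ P₁`:
`a₁ ⊔ b₁ ≤ W a₂ ≠ ⊤`, so there is `b₂ ≤ P₁`, `b₂ ≰ W a₂`.  `P₂ = P₁ ⊓ W a₂ ⊓ W b₂` has dimension
`≥ n - 4 ≥ 1`, `(a₂ ⊔ b₂) ⊔ P₂ = P₁` directly; `a₃ ≤ P₂`, again `b₃ ≤ P₂`, `b₃ ≰ W a₃`, and counting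
dimensions `n ≥ 6`.  `S₁ = a₁ ⊔ b₁ ⊔ a₂ ⊔ b₂` has no point `y` with `S₁ ≤ W y` (it would lie in
`S₁ ⊓ P₂ = ⊥`); `S₂ = a₁ ⊔ b₁ ⊔ a₂ ⊔ a₃ ≤ W a₂`.  The flags `(a₁ ⊔ b₁, S₁)`, `(a₁ ⊔ a₂, S₁)`,
`(a₂ ⊔ a₃, S₂)`, `(a₁ ⊔ a₂, S₂)`, `(a₁ ⊔ b₁, S₂)` are separated by the invariants `l ∈ M`,
"`S ≤ W y` for some point `y ≤ S`", "`S ≤ W y` for all points `y ≤ l`" (`Ws.smul`, `exists_cj_of_lt`). -/
theorem Ws.tau3 {w : ℕ} (h : Ws Γ M W w) (hw : w + 1 = finrank F V) (hV : 5 ≤ finrank F V)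
    (h1 : 6 ≤ finrank F V → o2 F V Γ 2 4 ≤ 4) : False := by
  classical
  have nt : ∀ y : Submodule F V, finrank F y = 1 → ¬⊤ ≤ W y := fun y hy c => by
    have := finrank_mono c
    rw [finrank_top, h.dim y hy] at this
    omega
  obtain ⟨a₁, -, ha₁⟩ := tx_pt (A := (⊤ : Submodule F V)) (by rw [finrank_top]; omega)
  obtain ⟨b₁, P₁, hb₁, n₁, e₁, d₁, f₁, k₁⟩ := h.step hw ha₁ le_top (nt a₁ ha₁)
  rw [finrank_top] at d₁
  obtain ⟨a₂, m₂, ha₂⟩ := tx_pt (A := P₁) (by omega)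
  obtain ⟨b₂, P₂, hb₂, n₂, e₂, d₂, -, k₂⟩ := h.step hw ha₂ m₂ fun c => nt a₂ ha₂ (e₁ ▸ sup_le (k₁ a₂ m₂ ha₂) c)
  obtain ⟨a₃, m₃, ha₃⟩ := tx_pt (A := P₂) (by omega)
  have l₂ : P₂ ≤ P₁ := e₂ ▸ le_sup_right
  have l₂' : a₂ ⊔ b₂ ≤ P₁ := e₂ ▸ le_sup_left
  obtain ⟨-, P₃, -, -, -, d₃, -⟩ := h.step hw ha₃ m₃ fun c =>
    nt a₃ ha₃ (e₁ ▸ sup_le (k₁ a₃ (m₃.trans l₂) ha₃) (e₂ ▸ sup_le (k₂ a₃ m₃ ha₃) c))
  have n12 : a₁ ≠ a₂ := fun c => n₁ (c ▸ le_sup_right.trans (k₁ a₂ m₂ ha₂))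
  have n23 : a₂ ≠ a₃ := fun c => n₂ (c ▸ le_sup_right.trans (k₂ a₃ m₃ ha₃))
  have nb₁ : a₁ ≠ b₁ := fun c => n₁ (c ▸ h.le a₁ ha₁)
  have dl₁ := finrank_sup_pts ha₁ hb₁ nb₁
  have d12 := finrank_sup_pts ha₁ ha₂ n12
  have d23 := finrank_sup_pts ha₂ ha₃ n23
  have l23 : a₂ ⊔ a₃ ≤ P₁ := sup_le m₂ (m₃.trans l₂)
  have dS₁ := f₁ _ l₂'
  rw [finrank_sup_pts ha₂ hb₂ fun c => n₂ (c ▸ h.le a₂ ha₂)] at dS₁
  have dS₂ := f₁ _ l23
  rw [d23] at dS₂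
  have M12 : a₁ ⊔ a₂ ∈ M := (h.line ha₁ ha₂ n12).2 ((h.sym ha₁ ha₂).2 (le_sup_left.trans (k₁ a₂ m₂ ha₂)))
  have M23 : a₂ ⊔ a₃ ∈ M := (h.line ha₂ ha₃ n23).2 ((h.sym ha₂ ha₃).2 (le_sup_left.trans (k₂ a₃ m₃ ha₃)))
  have nM : a₁ ⊔ b₁ ∉ M := fun k => n₁ ((h.line ha₁ hb₁ nb₁).1 k)
  let P2 : Submodule F V → Prop := fun S => ∃ y : Submodule F V, finrank F y = 1 ∧ y ≤ S ∧ S ≤ W y
  let P3 : Submodule F V × Submodule F V → Prop := fun x => ∀ y : Submodule F V, finrank F y = 1 → y ≤ x.1 → x.2 ≤ W y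
  have i2 : ∀ (g : Γ) S, P2 S → P2 (g • S) := fun g S ⟨y, hy, e1, e2⟩ =>
    ⟨g • y, (finrank_smul g y).trans hy, (smul_le g).2 e1, h.smul g hy ▸ (smul_le g).2 e2⟩
  have i3 : ∀ (g : Γ) x, P3 x → P3 (g • x) := fun g x H y hy e => by
    obtain ⟨y, rfl⟩ := MulAction.surjective g y
    rw [finrank_smul] at hy
    exact h.smul g hy ▸ (smul_le g).2 (H y hy ((smul_le g).1 e))
  have p3 : P3 (a₂ ⊔ a₃, a₁ ⊔ b₁ ⊔ (a₂ ⊔ a₃)) := fun y hy e => sup_le (k₁ y (e.trans l23) hy) ((h.mem' hy d23 e).1 M23)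
  have p2 : P2 (a₁ ⊔ b₁ ⊔ (a₂ ⊔ a₃)) := ⟨a₂, ha₂, le_sup_left.trans le_sup_right, p3 a₂ ha₂ le_sup_left⟩
  have n2 : ¬P2 (a₁ ⊔ b₁ ⊔ (a₂ ⊔ b₂)) := fun ⟨y, hy, e1, e2⟩ => nt y hy (by
    rw [← e₁, ← e₂, ← sup_assoc]
    exact sup_le e2 (le_of_pts fun u hu e => (h.sym hy hu).2 (e1.trans (sup_le (k₁ u (e.trans l₂) hu) (k₂ u e hu)))))
  refine tx_many (Nat.lt_succ_of_le (h1 (by omega))) (fun x => if x.1 ∈ M then if P2 x.2 then if P3 x then 0 else 1 else 2 else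
    if P2 x.2 then 3 else 4) (fun g x _ => by simp only [Prod.smul_fst, Prod.smul_snd, h.iv.iff, tx_iff i2, tx_iff i3]) fun i hi => ?_
  interval_cases i
  · exact ⟨(a₂ ⊔ a₃, _), ⟨le_sup_right, d23, dS₂⟩, by rw [if_pos M23, if_pos p2, if_pos p3]⟩
  · exact ⟨(a₁ ⊔ a₂, _), ⟨sup_le_sup le_sup_left le_sup_left, d12, dS₂⟩, by
      rw [if_pos M12, if_pos p2, if_neg fun k => n₁ ((le_sup_right.trans le_sup_left).trans (k a₁ ha₁ le_sup_left))]⟩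
  · exact ⟨(a₁ ⊔ a₂, _), ⟨sup_le_sup le_sup_left le_sup_left, d12, dS₁⟩, by rw [if_pos M12, if_neg n2]⟩
  · exact ⟨(a₁ ⊔ b₁, _), ⟨le_sup_left, dl₁, dS₂⟩, by rw [if_neg nM, if_pos p2]⟩
  · exact ⟨(a₁ ⊔ b₁, _), ⟨le_sup_left, dl₁, dS₁⟩, by rw [if_neg nM, if_neg n2]⟩

theorem case_t (hV : 5 ≤ finrank F V) (h1 : o1 F V Γ 1 ≤ 1) (h2 : 2 ≤ o1 F V Γ 2)
    (h3 : o1 F V Γ 3 ≤ 2) (h4 : o2 F V Γ 1 3 = 3) (h5 : o3 F V Γ 1 2 3 ≤ 4)
    (h6 : 6 ≤ finrank F V → o2 F V Γ 2 4 ≤ 4) : False := by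
  obtain ⟨M, W, w, h, w1, w2⟩ := tau0 hV h1 h2 (by omega)
  rcases w1.eq_or_lt with rfl | w1
  · exact h.tau2 hV h6
  rcases w2.eq_or_lt with w2 | w2
  · exact h.tau3 w2 hV h6
  · exact h.tau1 w1 w2 h3 h4.le

end Cfsg.Lib.RK3
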