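import Cfsg.Agent.Lib.RK3.Rd
import Cfsg.Agent.Lib.RK3.Sig
import Cfsg.Agent.Lib.RK3.Mu
import Cfsg.Agent.Lib.RK3.Tb
import Cfsg.Agent.Lib.RK3.Kb

/-! S2194: primitive rank 3 actions of `SL_n(q)`, `n ≥ 5`. -/

set_option autoImplicit false

namespace Cfsg.Lib.RK3

open MulAction Module

variable {n : ℕ} {F : Type*} [Field F] [Fintype F] {X : Type*} [Fintype X] [MulAction (SLn n F) X]

theorem red_main (hn : 5 ≤ n) (hp : IsPreprimitive (SLn n F) X) (x : X)
    (h : Nat.card (orbitRel.Quotient (stabilizer (SLn n F) x) X) = 3) :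
    Red F (Fin n → F) (stabilizer (SLn n F) x) := by
  classical
  have ne : stabilizer (SLn n F) x ≠ ⊤ := fun e => by
    have : IsPretransitive (stabilizer (SLn n F) x) X := ⟨fun a b => by
      obtain ⟨g, hg⟩ := exists_smul_eq (SLn n F) a b
      exact ⟨⟨g, e ▸ Subgroup.mem_top g⟩, hg⟩⟩
    have : Nonempty X := ⟨x⟩
    obtain ⟨_⟩ := (pretransitive_iff_unique_quotient_of_nonempty (stabilizer (SLn n F) x) X).1 ‹_›
    simp at h
  obtain ⟨p, hc⟩ := CharP.exists F
  obtain ⟨f, hpp, hf⟩ := FiniteField.card F p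
  have hq : p ∣ Fintype.card F := hf ▸ dvd_pow_self p f.ne_zero
  by_cases hX : p ∣ Fintype.card X
  swap
  · refine (red_of_index (by omega) _ hpp hq ?_).resolve_right ne
    rwa [index_stabilizer_of_transitive, Nat.card_eq_fintype_card]
  have hV : finrank F (Fin n → F) = n := by simp
  have l2 : o2 F (Fin n → F) (stabilizer (SLn n F) x) 1 2 ≤ 1 →
      ¬L2 F (Fin n → F) (stabilizer (SLn n F) x) := fun a b => ne (top_of_t2 hn _ (t2_of a b))
  rcases orb_cases hn x h hpp hq hX with k | k | k | k | k | k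
  · exact case_s (by omega) k.1.ge (by omega)
  · exact (case_t (by omega) k.1.le k.2.1.ge k.2.2.1.le k.2.2.2.1 k.2.2.2.2.1.le
      fun e => (k.2.2.2.2.2 (by omega)).le).elim
  · exact (case_u k.1.le k.2.1 k.2.2.1.le k.2.2.2.1 k.2.2.2.2.1 k.2.2.2.2.2.le).elim
  · refine (l2 k.1.le (case_k (by omega) k.2.ge ?_)).elim
    exact (Nat.even_or_odd _).symm.imp_right (exists_inv (by omega) x h)
  · exact (l2 k.1.le (case_m k.1.le k.2.1.le k.2.2.1 k.2.2.2.1 k.2.2.2.2.le)).elim
  · have := case_n k.1.le k.2.1.le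
    omega

theorem card_main (hn : 5 ≤ n) (hp : IsPreprimitive (SLn n F) X) (x : X)
    (h : Nat.card (orbitRel.Quotient (stabilizer (SLn n F) x) X) = 3) :
    Fintype.card X * ((Fintype.card F ^ 2 - 1) * (Fintype.card F - 1)) =
      (Fintype.card F ^ n - 1) * (Fintype.card F ^ (n - 1) - 1) := by
  have h1 := ncard_G1_two (F := F) (V := Fin n → F)
  rw [← card_of_red hn hp x h (red_main hn hp x h), Nat.card_eq_fintype_card, finrank_fin_fun] at h1
  have hq : 1 ≤ Fintype.card F := Fintype.card_pos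
  rw [← th_mul hq, ← th_mul hq, ← th_mul hq, th_two, mul_mul_mul_comm (th _ n), ← h1]
  ring

end Cfsg.Lib.RK3
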