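import Cfsg.Agent.Lib.RK3.Cf
import Cfsg.Agent.Lib.CK.Main

/-! S2194: reducible point stabilisers, Sylow and parity arguments. -/

set_option autoImplicit false
set_option linter.unusedSectionVars false

namespace Cfsg.Lib.RK3

open MulAction Module Cfsg.Lib.Char Cfsg.Lib.PermChar
open scoped Pointwise

variable {n : ℕ} {F : Type*} [Field F] [Fintype F]

/-- `CK.ck1` for the image of `M` under `Matrix.SpecialLinearGroup.toLin'` (injective). -/
theorem top_of_t2 (hn : 5 ≤ n) (M : Subgroup (SLn n F)) (h : T2 F (Fin n → F) M) : M = ⊤ := by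
  refine eq_top_iff.2 fun g _ => ?_
  obtain ⟨m, hm, e⟩ := CK.ck1 (by simpa using hn) (M.map Matrix.SpecialLinearGroup.toLin') (fun v w v' w' a b => by
    obtain ⟨k, a, b, e1, e2⟩ := h v w v' w' a b
    exact ⟨_, Subgroup.mem_map_of_mem _ k.2, a, b, e1, e2⟩) (Matrix.SpecialLinearGroup.toLin' g)
    (by rw [Matrix.SpecialLinearGroup.toLin'_to_linearMap, LinearMap.det_toLin', g.2])
  exact Matrix.SpecialLinearGroup.toLin'_injective e ▸ hm

/-- The transvections with centre `c`. -/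
def tvG (c : Fin n → F) : Subgroup (SLn n F) where
  carrier := {g | g • c = c ∧ ∀ v, ∃ a : F, g • v = v + a • c}
  one_mem' := ⟨one_smul _ _, fun v => ⟨0, by simp⟩⟩
  mul_mem' := fun {g k} hg hk => ⟨by rw [mul_smul, hk.1, hg.1], fun v => by
    obtain ⟨a, e⟩ := hg.2 v
    obtain ⟨b, e'⟩ := hk.2 v
    exact ⟨a + b, by rw [mul_smul, e', smul_add, smul_comm g b, hg.1, e, add_smul, add_assoc]⟩⟩
  inv_mem' := fun {g} hg => ⟨inv_smul_eq_iff.2 hg.1.symm, fun v => by
    obtain ⟨a, e⟩ := hg.2 v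
    exact ⟨-a, inv_smul_eq_iff.2 (by rw [smul_add, smul_comm g, hg.1, e]; simp)⟩⟩

omit [Fintype F] in
theorem sl_ext {g : SLn n F} (h : ∀ v : Fin n → F, g • v = v) : g = 1 :=
  Subtype.ext (Matrix.ext_iff_smul.2 fun v => (h v).trans (one_smul _ v).symm)

omit [Fintype F] in
theorem tvG_conj {c : Fin n → F} {g : SLn n F} (k : SLn n F) (h : g ∈ tvG (k • c)) : k⁻¹ * g * k ∈ tvG c :=
  ⟨by rw [mul_smul, mul_smul, h.1, inv_smul_smul], fun v => by
    obtain ⟨a, e⟩ := h.2 (k • v)
    exact ⟨a, by rw [mul_smul, mul_smul, e, smul_add, inv_smul_smul, smul_comm, inv_smul_smul]⟩⟩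

omit [Fintype F] in
theorem tvG_smul (c : Fin n → F) (a : F) : tvG (a • c) ≤ tvG c := fun g h => by
  refine ⟨?_, fun v => ?_⟩
  · by_cases e : a = 0
    · obtain ⟨b, e'⟩ := h.2 c
      simpa [e] using e'
    · exact smul_right_injective _ e ((smul_comm g a c).symm.trans h.1)
  · obtain ⟨b, e⟩ := h.2 v
    exact ⟨b * a, by rw [e, mul_smul]⟩

theorem tvG_pg {p : ℕ} (hp : p.Prime) (hq : p ∣ Fintype.card F) (c : Fin n → F) : IsPGroup p (tvG c) := fun g => by
  have := Fact.mk hp
  have p0 : (p : F) = 0 := (ringChar.spec F p).2 (((Nat.prime_dvd_prime_iff_eq hp (CharP.char_is_prime F _)).1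
    ((prime_dvd_char_iff_dvd_card p).2 hq)) ▸ dvd_rfl)
  refine ⟨1, Subtype.ext (sl_ext fun v => ?_)⟩
  obtain ⟨a, e⟩ := g.2.2 v
  have : ∀ k : ℕ, (g : SLn n F) ^ k • v = v + ((k : F) * a) • c := fun k => by
    induction k with
    | zero => simp
    | succ k ih => rw [pow_succ', mul_smul, ih, smul_add, smul_comm (g : SLn n F), g.2.1, e]; push_cast; module
  rw [pow_one, Subgroup.coe_pow, this, p0]
  simp

omit [Fintype F] in
theorem exists_tv {c d : Fin n → F} (h : d ∉ Submodule.span F {c}) : ∃ g ∈ tvG c, g • d = c + d := by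
  obtain ⟨f, f1, f2⟩ := Submodule.exists_dual_map_eq_bot_of_notMem h inferInstance
  have f3 : ((f d)⁻¹ • f) c = 0 := by
    have : f c ∈ (⊥ : Submodule F F) := f2 ▸ Submodule.mem_map_of_mem (Submodule.mem_span_singleton_self c)
    simp [(Submodule.mem_bot F).1 this]
  let g : SLn n F := ⟨LinearMap.toMatrix' (LinearMap.transvection ((f d)⁻¹ • f) c), by
    rw [LinearMap.det_toMatrix', LinearMap.transvection.det, f3, add_zero]⟩
  have e : ∀ v, g • v = v + ((f d)⁻¹ • f) v • c := fun v =>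
    (LinearMap.toMatrix'_mulVec _ v).trans (LinearMap.transvection.apply _ _ _)
  exact ⟨g, ⟨by rw [e, f3]; simp, fun v => ⟨_, e v⟩⟩, by rw [e]; simp [f1, add_comm]⟩

/-- The transvections `v ↦ v + φ v • c`, `φ c = 0`, with fixed centre `c ≠ 0` form a `p`-subgroup, so a
conjugate lies in a Sylow `p`-subgroup of `M` (which is Sylow in `SL`): the set `D` of the `c` such that
all transvections with centre `c` lie in `M` contains some `c₀ ≠ 0`; it is `M`-invariant and closed
under scalars.  If `c, d ∈ D` are independent, a transvection with centre `c` and `φ d = 1` maps `d` to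
`d + c`.  So `D` is a subspace; if `D = ⊤` use `CK.mem_of_transvections` or
`Linear.eq_top_of_transvection_mem`. -/
theorem red_of_index (hn : 2 ≤ n) (M : Subgroup (SLn n F)) {p : ℕ} (hp : p.Prime)
    (hq : p ∣ Fintype.card F) (h : ¬p ∣ M.index) : Red F (Fin n → F) M ∨ M = ⊤ := by
  have := Fact.mk hp
  have inv : ∀ m ∈ M, ∀ c, tvG c ≤ M → tvG (m • c) ≤ M := fun m hm c hc g hg => by
    have := M.mul_mem (M.mul_mem hm (hc (tvG_conj m hg))) (M.inv_mem hm)
    simpa [mul_assoc] using this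
  let D : Submodule F (Fin n → F) :=
    { carrier := {c | tvG c ≤ M}
      zero_mem' := fun g hg => (sl_ext fun v => by simpa using (hg.2 v).choose_spec) ▸ M.one_mem
      smul_mem' := fun a c hc => (tvG_smul c a).trans hc
      add_mem' := fun {c d} hc hd => by
        by_cases e : d ∈ Submodule.span F {c}
        · obtain ⟨a, rfl⟩ := Submodule.mem_span_singleton.1 e
          rw [show c + a • c = (1 + a) • c by module]
          exact (tvG_smul c _).trans hc
        · obtain ⟨g, hg, e'⟩ := exists_tv e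
          exact e' ▸ inv g (hc hg) d hd }
  let i : Fin n := ⟨0, by omega⟩
  obtain ⟨q, hq'⟩ := (tvG_pg hp hq (Pi.single i 1 : Fin n → F)).nonempty_fixed_point_of_prime_not_dvd_card
    (SLn n F ⧸ M) h
  obtain ⟨k, rfl⟩ := QuotientGroup.mk_surjective q
  have d0 : k⁻¹ • (Pi.single i 1 : Fin n → F) ∈ D := fun g hg => by
    have := QuotientGroup.eq.1 (hq' ⟨_, tvG_conj k⁻¹ hg⟩).symm
    simpa [Subgroup.smul_def, mul_assoc] using this
  by_cases t : D = ⊤
  · refine .inr (Linear.eq_top_of_transvection_mem M fun i j ne a =>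
      (show (Pi.single i 1 : Fin n → F) ∈ D from t ▸ Submodule.mem_top)
        ⟨Matrix.SpecialLinearGroup.transvection_smul_single_fst ne a, fun v => ⟨a * v j, ?_⟩⟩)
    simp [Matrix.SpecialLinearGroup.smul_def, Matrix.SpecialLinearGroup.transvection_coe, Matrix.add_mulVec,
      Matrix.single_mulVec_eq]
  refine .inl ⟨D, fun e => ?_, t, fun g => ?_⟩
  · rw [e, Submodule.mem_bot, smul_eq_zero_iff_eq] at d0
    simpa using congrFun d0 i
  · ext v
    rw [mem_smul']
    refine ⟨fun e => ?_, inv _ (g⁻¹).2 v⟩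
    have := inv _ g.2 _ e
    rwa [← Subgroup.smul_def, smul_inv_smul] at this

variable {X : Type*} [Fintype X] [MulAction (SLn n F) X]

/-- Otherwise `|X|` is odd (`odd_card_of_three`) and `|SL| = |X| |M|` is odd, but a transvection has
order 2. -/
theorem exists_inv (hn : 2 ≤ n) [IsPretransitive (SLn n F) X] (x : X)
    (h : Nat.card (orbitRel.Quotient (stabilizer (SLn n F) x) X) = 3) (hq : Even (Nat.card F)) :
    ∃ t : stabilizer (SLn n F) x, t * t = 1 ∧ ∃ v : Fin n → F, t • v ≠ v := by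
  by_contra! e
  have := Fact.mk Nat.prime_two
  have o : Odd (Nat.card (stabilizer (SLn n F) x)) := by
    rw [← Nat.not_even_iff_odd, even_iff_two_dvd]
    intro d
    obtain ⟨t, ht⟩ := exists_prime_orderOf_dvd_card' 2 d
    have := e t (by rw [← pow_two, ← ht, pow_orderOf_eq_one])
    rw [show t = 1 from Subtype.ext (sl_ext this), orderOf_one] at ht
    omega
  have o' := o.mul (odd_card_of_three o h)
  rw [← index_stabilizer_of_transitive (SLn n F) x, Subgroup.card_mul_index] at o'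
  let i : Fin n := ⟨0, by omega⟩
  let j : Fin n := ⟨1, by omega⟩
  have ne : i ≠ j := by simp [i, j]
  have t : Matrix.SpecialLinearGroup.transvection ne (1 : F) ∈ tvG (Pi.single i 1 : Fin n → F) :=
    ⟨Matrix.SpecialLinearGroup.transvection_smul_single_fst ne 1, fun v => ⟨v j, by
      simp [Matrix.SpecialLinearGroup.smul_def, Matrix.SpecialLinearGroup.transvection_coe, Matrix.add_mulVec,
        Matrix.single_mulVec_eq]⟩⟩
  obtain ⟨k, hk⟩ := (IsPGroup.iff_card.1 (tvG_pg Nat.prime_two (by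
    rwa [← Nat.card_eq_fintype_card, ← even_iff_two_dvd]) (Pi.single i 1 : Fin n → F)))
  have d := o'.of_dvd_nat (Subgroup.card_subgroup_dvd_card (tvG (Pi.single i 1 : Fin n → F)))
  have k0 : k = 0 := by_contra fun k0 => d.not_two_dvd_nat (hk ▸ dvd_pow_self 2 k0)
  rw [k0, pow_zero, Subgroup.card_eq_one] at hk
  rw [hk, Subgroup.mem_bot] at t
  have := Matrix.SpecialLinearGroup.transvection_smul_single_snd ne (1 : F)
  rw [t, one_smul, one_smul, left_eq_add] at this
  simpa using congrFun this i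

theorem g3_iff {k : ℕ} {U : Submodule F (Fin n → F) × Submodule F (Fin n → F) × Submodule F (Fin n → F)} :
    U ∈ G3 F (Fin n → F) 0 0 k ↔ U.1 = ⊥ ∧ U.2.1 = ⊥ ∧ finrank F U.2.2 = k :=
  ⟨fun h => ⟨Submodule.finrank_eq_zero.1 h.2.2.1, Submodule.finrank_eq_zero.1 h.2.2.2.1, h.2.2.2.2⟩,
    fun ⟨a, b, c⟩ => ⟨a ▸ bot_le, b ▸ bot_le, Submodule.finrank_eq_zero.2 a, Submodule.finrank_eq_zero.2 b, c⟩⟩

/-- `SL` is transitive on `k`-subspaces: `exists_gl` for `Adm n 0 0 k` and a diagonal correction; or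
`inner_fx_one`, `rho_eq`, `inner_pc_one`. -/
theorem sl_trans (hn : 4 ≤ n) {U W : Submodule F (Fin n → F)} (h : finrank F U = finrank F W) :
    ∃ g : SLn n F, g • U = W := by
  have := Fintype.ofFinite (SLn n F)
  have adm : Adm n 0 0 (finrank F W) := ⟨hn, le_rfl, Nat.zero_le _, by simpa using W.finrank_le⟩
  have := Fintype.ofFinite (iv3 (F := F) (V := Fin n → F) (Γ := SLn n F) 0 0 (finrank F W)).sub
  have e := inner_pc_one (G := SLn n F) (Ω := (iv3 (F := F) (V := Fin n → F) (Γ := SLn n F) 0 0 (finrank F W)).sub)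
  rw [show pc (SLn n F) _ = _ from rho_eq adm, inner_fx_one (by omega), ← nOrb_eq_card, eq_comm, Nat.cast_eq_one] at e
  obtain ⟨g, hg⟩ := cj_of_one e.le (x := (⊥, ⊥, U)) (y := (⊥, ⊥, W)) (g3_iff.2 ⟨rfl, rfl, h⟩) (g3_iff.2 ⟨rfl, rfl, rfl⟩)
  exact ⟨g, congrArg (·.2.2) hg⟩

/-- `M = stabilizer x` is a coatom (`IsPreprimitive.isCoatom_stabilizer_of_isPreprimitive`; `X` is
nontrivial by `h`) inside the stabiliser of `W`, which is proper (`sl_trans`, there is another subspace of
the same dimension `k`).  So `M` is the stabiliser of the flag `(⊥, ⊥, W)`, `X ≃ G3 0 0 k` equivariantly,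
`pc X = rho 0 0 k`, `3 = ⟨rho, rho⟩ = gr 0 0 k 0 0 k (k + k - n) = k + 1 - (k + k - n)` (`inner_pc_self`,
`rho_eq`, `inner_fx`, `nMat_cmp`, `gr_one`): `k = 2` or `k + 2 = n`. -/
theorem card_of_red (hn : 5 ≤ n) (hp : IsPreprimitive (SLn n F) X) (x : X)
    (h : Nat.card (orbitRel.Quotient (stabilizer (SLn n F) x) X) = 3)
    (r : Red F (Fin n → F) (stabilizer (SLn n F) x)) :
    Fintype.card X = (G1 F (Fin n → F) 2).ncard := by
  obtain ⟨W, w0, w1, hW⟩ := r
  have := Fintype.ofFinite (SLn n F)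
  obtain ⟨k, hk⟩ : ∃ k, finrank F W = k := ⟨_, rfl⟩
  have k0 : 0 < k := hk ▸ Nat.pos_of_ne_zero (mt Submodule.finrank_eq_zero.1 w0)
  have k1 : k < n := by simpa [hk] using Submodule.finrank_lt w1
  have adm : Adm n 0 0 k := ⟨by omega, le_rfl, Nat.zero_le _, k1.le⟩
  have : Nontrivial X := by
    by_contra e
    rw [not_nontrivial_iff_subsingleton] at e
    have := Finite.card_le_one_iff_subsingleton.2 (inferInstance : Subsingleton (orbitRel.Quotient (stabilizer (SLn n F) x) X))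
    omega
  have st : stabilizer (SLn n F) x = stabilizer (SLn n F) W := by
    refine ((IsPreprimitive.isCoatom_stabilizer_of_isPreprimitive (SLn n F) x).le_iff.1
      fun g hg => hW ⟨g, hg⟩).resolve_left (fun e => ?_) |>.symm
    obtain ⟨y, hy, ny⟩ := exists_pt_not_le (mt top_le_iff.1 w1)
    obtain ⟨B, b1, -, b2⟩ := exists_between (le_top (a := y)) (k := k) (by rw [(mem_pts.1 hy).2]; omega) (by simpa using k1.le)
    obtain ⟨g, hg⟩ := sl_trans (by omega) (hk.trans b2.symm)
    exact ny (b1.trans (hg.symm.trans (show g ∈ stabilizer (SLn n F) W from e ▸ Subgroup.mem_top g)).le)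
  have key : ∀ g g' : SLn n F, g • x = g' • x ↔ g • W = g' • W := fun g g' => by
    rw [← inv_smul_eq_iff, ← inv_smul_eq_iff (a := g • W), ← mul_smul, ← mul_smul, ← mem_stabilizer_iff, st,
      mem_stabilizer_iff]
  choose σ hσ using fun y => exists_smul_eq (SLn n F) x y
  let Ω := (iv3 (F := F) (V := Fin n → F) (Γ := SLn n F) 0 0 k).sub
  let f : X → Ω := fun y => ⟨(⊥, ⊥, σ y • W), g3_iff.2 ⟨rfl, rfl, (finrank_smul _ _).trans hk⟩⟩
  have hf : ∀ (g : SLn n F) y, f (g • y) = g • f y := fun g y => Subtype.ext (Prod.ext (smul_bot g).symm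
    (Prod.ext (smul_bot g).symm (((key _ _).1 (by rw [hσ, mul_smul, hσ])).trans (mul_smul g (σ y) W))))
  have bf : Function.Bijective f := ⟨fun y z e => (hσ y).symm.trans
    (((key _ _).2 (congrArg (·.1.2.2) e)).trans (hσ z)), fun ⟨⟨U1, U2, U⟩, hU⟩ => by
      obtain ⟨rfl, rfl, u⟩ := g3_iff.1 hU
      obtain ⟨g, hg⟩ := sl_trans (by omega) (hk.trans u.symm)
      exact ⟨g • x, Subtype.ext (Prod.ext rfl (Prod.ext rfl (((key _ _).1 (hσ _)).trans hg)))⟩⟩
  have pe : pc (SLn n F) X = fx n F (cmp n 0 0 k) := by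
    rw [← rho_eq adm]
    funext g
    exact congrArg Nat.cast (Nat.card_congr ((Equiv.ofBijective f bf).subtypeEquiv fun y => by
      change g • y = y ↔ g • f y = f y
      rw [← hf, bf.1.eq_iff]))
  have e := inner_pc_self (G := SLn n F) x
  rw [h, pe, inner_fx (by omega) adm.sum adm.sum, nMat_cmp adm adm, Nat.cast_inj] at e
  simp only [Nat.sub_zero, gr_one] at e
  have c : Fintype.card X = (G1 F (Fin n → F) k).ncard := by
    rw [← Nat.card_eq_fintype_card, Nat.card_eq_of_bijective f bf, ← Nat.card_coe_set_eq]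
    exact Nat.card_eq_of_bijective (fun U => ⟨U.1.2.2, (g3_iff.1 U.2).2.2⟩) ⟨fun U U' e => Subtype.ext (Prod.ext
      ((g3_iff.1 U.2).1.trans (g3_iff.1 U'.2).1.symm) (Prod.ext ((g3_iff.1 U.2).2.1.trans (g3_iff.1 U'.2).2.1.symm)
        (congrArg Subtype.val e))), fun U => ⟨⟨(⊥, ⊥, U.1), g3_iff.2 ⟨rfl, rfl, U.2⟩⟩, rfl⟩⟩
  rw [c]
  rcases (by omega : k = 2 ∨ k + 2 = n) with rfl | e'
  · rfl
  · exact ncard_G1_dual (by simpa using e')

end Cfsg.Lib.RK3
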