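import Cfsg.Agent.Lib.RK3.Arc
import Cfsg.Agent.Lib.RK3.Orb

/-! S2194, the case `(n-2,2)`: an invariant set `M` of lines such that the `M`-lines through a
point `y` are the lines through `y` in a subspace `W y`. -/

set_option autoImplicit false

namespace Cfsg.Lib.RK3

open Module Submodule
open scoped Pointwise

variable {F V : Type*} [Field F] [AddCommGroup V] [Module F V] [Finite F] [Finite V]
  {Γ : Type*} [Group Γ] [DistribMulAction Γ V] [SMulCommClass Γ F V]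

variable (Γ) in
/-- The configuration. -/
structure Ws (M : Set (Submodule F V)) (W : Submodule F V → Submodule F V) (w : ℕ) : Prop where
  iv : Iv Γ M
  le : ∀ y : Submodule F V, finrank F y = 1 → y ≤ W y
  mem : ∀ y : Submodule F V, finrank F y = 1 → ∀ l ∈ up y ⊤, l ∈ M ↔ l ≤ W y
  dim : ∀ y : Submodule F V, finrank F y = 1 → finrank F (W y) = w

variable {M : Set (Submodule F V)} {W : Submodule F V → Submodule F V} {w : ℕ}

theorem tx_many {T : Type*} [MulAction Γ T] [Finite T] {Y : Set T} {k : ℕ} (h : nOrb Γ Y < k) (I : T → ℕ)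
    (hI : ∀ (g : Γ), ∀ x ∈ Y, I (g • x) = I x) (hv : ∀ i < k, ∃ x ∈ Y, I x = i) : False := by
  have := (Set.ncard_le_ncard (s := (Finset.range k : Set ℕ)) (fun i hi => hv i (by simpa using hi))
    ((Set.toFinite Y).image I)).trans (ncard_image_le (Γ := Γ) I (by rintro x hx _ - ⟨g, rfl⟩; exact (hI g x hx).symm))
  rw [Set.ncard_coe_finset, Finset.card_range] at this
  omega

theorem tx_iff {T : Type*} [MulAction Γ T] {P : T → Prop} (h : ∀ (g : Γ) x, P x → P (g • x)) (g : Γ) (x : T) : P (g • x) ↔ P x :=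
  ⟨fun k => by simpa using h g⁻¹ _ k, h g x⟩

omit [Finite F] in
theorem tx_eq {A B : Submodule F V} (h : A ≤ B) (d : finrank F B ≤ finrank F A) : A = B := eq_of_le_of_finrank_le h d

omit [Finite F] in
theorem tx_sup {A B E : Submodule F V} (hA : A ≤ E) (hB : B ≤ E) (d : finrank F E ≤ finrank F A + 1) (n : ¬B ≤ A) :
    A ⊔ B = E :=
  tx_eq (sup_le hA hB) (d.trans (finrank_lt_finrank_of_lt (left_lt_sup.2 n)))

theorem tx_ext (A : Submodule F V) (v : V) (h : finrank F A + 1 ≤ finrank F V) :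
    ∃ E, A ≤ E ∧ v ∈ E ∧ finrank F E = finrank F A + 1 := by
  obtain ⟨E, h1, -, h2⟩ := exists_between (le_top : A ⊔ span F {v} ≤ ⊤) (k := finrank F A + 1)
    ((finrank_add_le_finrank_add_finrank _ _).trans (by
      by_cases c : v = 0
      · rw [c, span_zero_singleton, finrank_bot]; omega
      · rw [finrank_span_singleton c])) (by rwa [finrank_top])
  exact ⟨E, le_sup_left.trans h1, h1 (mem_sup_right (mem_span_singleton_self v)), h2⟩

theorem tx_pt {A : Submodule F V} (h : 1 ≤ finrank F A) : ∃ y ≤ A, finrank F y = 1 := by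
  obtain ⟨y, -, y1, y2⟩ := exists_between (bot_le : ⊥ ≤ A) (k := 1) (by simp) h
  exact ⟨y, y1, y2⟩

theorem tx_out {A U : Submodule F V} (h : finrank F A < finrank F U) : ∃ y ≤ U, finrank F y = 1 ∧ ¬y ≤ A := by
  obtain ⟨y, hy, n⟩ := exists_pt_not_le (A := A) (U := U) fun c => h.not_ge (finrank_mono c)
  exact ⟨y, (mem_pts.1 hy).1, (mem_pts.1 hy).2, n⟩

omit [Finite F] in
theorem Ws.mem' (h : Ws Γ M W w) {y l : Submodule F V} (hy : finrank F y = 1) (hl : finrank F l = 2) (e : y ≤ l) :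
    l ∈ M ↔ l ≤ W y := h.mem y hy l (mem_up.2 ⟨e, le_top, by rw [hl, hy]⟩)

theorem Ws.line (h : Ws Γ M W w) {y z : Submodule F V} (hy : finrank F y = 1) (hz : finrank F z = 1) (n : y ≠ z) :
    y ⊔ z ∈ M ↔ z ≤ W y := by
  rw [h.mem' hy (finrank_sup_pts hy hz n) le_sup_left, sup_le_iff, and_iff_right (h.le y hy)]

/-- For `y ≠ z` both sides say `y ⊔ z ∈ M`. -/
theorem Ws.sym (h : Ws Γ M W w) {y z : Submodule F V} (hy : finrank F y = 1) (hz : finrank F z = 1) :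
    z ≤ W y ↔ y ≤ W z := by
  by_cases n : y = z
  · rw [n]
  · rw [← h.line hy hz n, ← h.line hz hy (Ne.symm n), sup_comm]

/-- `le_of_pts`. -/
theorem Ws.smul (h : Ws Γ M W w) (g : Γ) {y : Submodule F V} (hy : finrank F y = 1) :
    W (g • y) = g • W y := by
  have hy' := (finrank_smul g y).trans hy
  refine (tx_eq (le_of_pts fun z hz e => ?_) (by rw [finrank_smul, h.dim _ hy, h.dim _ hy'])).symm
  obtain ⟨z, rfl⟩ := MulAction.surjective g z
  by_cases n : y = z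
  · exact n ▸ h.le _ hy'
  · rw [← h.line hy' hz fun c => n (MulAction.injective g c), ← smul_sup, h.iv.iff, h.line hy ((finrank_smul g z).symm.trans hz) n]
    exact (smul_le g).1 e

theorem tau0' (h1 : o1 F V Γ 1 ≤ 1) (iv : Iv Γ M) {y₀ W₀ l l' : Submodule F V} (hy : finrank F y₀ = 1) (le : y₀ ≤ W₀)
    (H : ∀ B ∈ up y₀ ⊤, B ∈ M ↔ B ≤ W₀) (hl : finrank F l = 2) (hl' : finrank F l' = 2) (m : l ∈ M) (m' : l' ∉ M) :
    ∃ (M : Set (Submodule F V)) (W : Submodule F V → Submodule F V) (w : ℕ),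
      Ws Γ M W w ∧ 2 ≤ w ∧ w + 1 ≤ finrank F V := by
  have : ∀ y : Submodule F V, ∃ g : Γ, finrank F y = 1 → g • y₀ = y := fun y => by
    by_cases c : finrank F y = 1
    · exact (cj_of_one h1 hy c).imp fun _ e _ => e
    · exact ⟨1, fun k => absurd k c⟩
  choose γ hγ using this
  have h : Ws Γ M (fun y => γ y • W₀) (finrank F W₀) := by
    refine ⟨iv, fun y hy' => (hγ y hy').ge.trans ((smul_le _).2 le), fun y hy' B hB => ?_, fun y _ => finrank_smul _ _⟩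
    obtain ⟨B, rfl⟩ := MulAction.surjective (γ y) B
    rw [mem_up, finrank_smul, hy'] at hB
    rw [iv.iff, smul_le]
    exact H B (mem_up.2 ⟨(smul_le _).1 ((hγ y hy').le.trans hB.1), le_top, by rw [hB.2.2, hy]⟩)
  obtain ⟨y, y1, y2⟩ := tx_pt (A := l) (by omega)
  obtain ⟨z, z1, z2⟩ := tx_pt (A := l') (by omega)
  refine ⟨M, _, _, h, hl ▸ h.dim y y2 ▸ finrank_mono ((h.mem' y2 hl y1).1 m), ?_⟩
  rw [← h.dim z z2]
  exact finrank_lt fun c => m' ((h.mem' z2 hl' z1).2 (c ▸ le_top))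

/-- `M₀` = the orbit of a line, not all lines.  By `fib2` for `(y, l, C) ↦ (y, C)` all flags `(y, C)`
in `G2 1 3` such that `up y C` meets both `M₀` and `M₀ᶜ` are conjugate, so have the same `cu M₀ y C`
(`cu_smul`; `card_up`: `q + 1` members).  `arc3_rel` at a point `y₀` gives `W₀` and `M = M₀` or `M₀ᶜ`;
transport to all points by `h1` and `choose`.  Some line is in `M` and some is not. -/
theorem tau0 (hV : 5 ≤ finrank F V) (h1 : o1 F V Γ 1 ≤ 1) (h2 : 2 ≤ o1 F V Γ 2)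
    (h3 : o3 F V Γ 1 2 3 ≤ o2 F V Γ 1 3 + 1) :
    ∃ (M : Set (Submodule F V)) (W : Submodule F V → Submodule F V) (w : ℕ),
      Ws Γ M W w ∧ 2 ≤ w ∧ w + 1 ≤ finrank F V := by
  obtain ⟨l, hl, l', hl', n⟩ := exists_not_cj h2
  have iv := iv_cj (Γ := Γ) l
  have ivc : Iv Γ {y | Cj Γ l y}ᶜ := fun g y hy c => hy ((iv.iff g).1 c)
  have lM : l ∈ {y | Cj Γ l y} := .refl _
  have lM' : l' ∉ {y | Cj Γ l y} := n
  generalize {y | Cj Γ l y} = M at iv ivc lM lM'
  let X : Submodule F V → Submodule F V → Prop := fun y C => finrank F y = 1 ∧ finrank F C = 3 ∧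
    (∃ B ∈ up y C, B ∈ M) ∧ ∃ B ∈ up y C, B ∉ M
  have key : ∀ y C z D, X y C → X z D → cu M z D = cu M y C := by
    rintro y C z D ⟨y1, c1, ⟨a, ha, aM⟩, b, hb, bM⟩ ⟨z1, d1, ⟨a', ha', aM'⟩, b', hb', bM'⟩
    have m : ∀ {y C a : Submodule F V}, finrank F y = 1 → finrank F C = 3 → a ∈ up y C → (y, a, C) ∈ G3 F V 1 2 3 :=
      fun y1 c1 ha => ⟨(mem_up.1 ha).1, (mem_up.1 ha).2.1, y1, (mem_up.1 ha).2.2.trans (by rw [y1]), c1⟩
    have := fib2 (fun x : Submodule F V × Submodule F V × Submodule F V => (x.1, x.2.2)) (fun _ _ => rfl)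
      (Set.Subset.antisymm (by rintro _ ⟨x, hx, rfl⟩; exact ⟨hx.1.trans hx.2.1, hx.2.2.1, hx.2.2.2.2⟩) fun U hU => by
        obtain ⟨l, l0, l1, l2⟩ := exists_between hU.1 (k := 2) (by rw [hU.2.1]; omega) (by rw [hU.2.2]; omega)
        exact ⟨(U.1, l, U.2), ⟨l0, l1, hU.2.1, l2, hU.2.2⟩, rfl⟩) h3 (m y1 c1 ha) (m y1 c1 hb) (m z1 d1 ha') (m z1 d1 hb')
      (.refl _) (fun ⟨g, e⟩ => bM ((show g • a = b from congrArg (·.2.1) e) ▸ iv g a aM)) (.refl _)
      fun ⟨g, e⟩ => bM' ((show g • a' = b' from congrArg (·.2.1) e) ▸ iv g a' aM')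
    obtain ⟨g, e1, e2⟩ : ∃ g : Γ, g • y = z ∧ g • C = D := by
      rcases this with ⟨⟨g, e⟩, -⟩ | ⟨⟨g, e⟩, -⟩ <;> exact ⟨g, congrArg (·.1) e, congrArg (·.2.2) e⟩
    rw [← e1, ← e2]
    exact cu_smul g fun B _ => iv.iff g
  obtain ⟨a, ha⟩ : ∃ a, ∀ y C, X y C → cu M y C = a := by
    by_cases c : ∃ y C, X y C
    · obtain ⟨y, C, c⟩ := c
      exact ⟨_, fun z D => key y C z D c⟩
    · exact ⟨0, fun y C k => absurd ⟨y, C, k⟩ c⟩
  obtain ⟨y, -, hy⟩ := tx_pt (A := l) (by rw [hl]; omega)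
  obtain ⟨W₀, le, H | H⟩ := arc3_rel (D := M) (a := a) y (by omega) fun C yC hC => by
    by_cases c0 : ∃ B ∈ up y C, B ∈ M
    · by_cases c1 : ∃ B ∈ up y C, B ∉ M
      · exact .inr (.inl (ha y C ⟨hy, by omega, c0, c1⟩))
      · push Not at c1
        rw [cu_eq_card.2 c1, card_up yC, hC, Nat.add_sub_cancel_left, th_two]
        exact .inr (.inr rfl)
    · push Not at c0
      exact .inl (cu_eq_zero.2 c0)
  · exact tau0' h1 iv hy le H hl hl' lM lM'
  · exact tau0' h1 ivc hy le H hl' hl lM' (not_not.2 lM)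

/-- A flag `(y, E)` in `G2 1 3` has type `finrank (W y ⊓ E) ∈ {1, 2, 3}`; all types occur.  Call a plane
`A` if it has a point of type 1, `B` if it has a point of type 3; no plane is both (`sym`), so by `h1`
the `A`-planes and the `B`-planes are the two orbits.  By `h2` (`exists_cj_of_lt`) the type 2 does not
occur in both kinds of planes.
*Not in `A`-planes*: take an `M`-line `m`; every plane `E ≥ m` is `B`, and has a point of type 3 on
`m` (if `x` is of type 3, `x ∉ m`, then a point `u` of `m` has `m ⊔ x ≤ W u`).  So `V` is the union of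
the `W u`, `u ∈ pts m`, against `not_cover`.
*Not in `B`-planes*: all points of a `B`-plane have type 3, so `z ≤ W y → W z = W y`; for `z ≰ W y`,
`W y ⊓ W z = ⊥`, `2 w ≤ n`.  All `A`-planes (one orbit) have a point of type 2, i.e. contain an `M`-line.
Take a line `l ∉ M`; a plane `E ≥ l` is `A`, contains an `M`-line `m`, which meets `l` in a point `u`:
`E = l ⊔ m ≤ l ⊔ W u`, of dimension `≤ w + 1 ≤ n - 2`; again `not_cover`. -/
theorem Ws.tau1 (h : Ws Γ M W w) (hw : 3 ≤ w) (hw' : w + 2 ≤ finrank F V) (h1 : o1 F V Γ 3 ≤ 2)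
    (h2 : o2 F V Γ 1 3 ≤ 3) : False := by
  classical
  let T1 : Submodule F V × Submodule F V → Prop := fun x => finrank F x.1 = 1 ∧ x.1 ≤ x.2 ∧ W x.1 ⊓ x.2 ≤ x.1
  let T3 : Submodule F V × Submodule F V → Prop := fun x => finrank F x.1 = 1 ∧ x.1 ≤ x.2 ∧ x.2 ≤ W x.1
  have i1 : ∀ (g : Γ) x, T1 x → T1 (g • x) := fun g x ⟨a, b, c⟩ => ⟨(finrank_smul g _).trans a, (smul_le g).2 b, by
    rw [Prod.smul_fst, Prod.smul_snd, h.smul g a, ← smul_inf]; exact (smul_le g).2 c⟩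
  have i3 : ∀ (g : Γ) x, T3 x → T3 (g • x) := fun g x ⟨a, b, c⟩ => ⟨(finrank_smul g _).trans a, (smul_le g).2 b, by
    rw [Prod.smul_fst, Prod.smul_snd, h.smul g a]; exact (smul_le g).2 c⟩
  let A : Submodule F V → Prop := fun E => ∃ y, T1 (y, E)
  let B : Submodule F V → Prop := fun E => ∃ y, T3 (y, E)
  have iA : ∀ (g : Γ) E, A E → A (g • E) := fun g E ⟨y, hy⟩ => ⟨g • y, i1 g (y, E) hy⟩
  have iB : ∀ (g : Γ) E, B E → B (g • E) := fun g E ⟨y, hy⟩ => ⟨g • y, i3 g (y, E) hy⟩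
  have nAB : ∀ E : Submodule F V, finrank F E = 3 → A E → ¬B E := fun E hE ⟨y, a, b, c⟩ ⟨x, a', b', c'⟩ => by
    dsimp only at a b c a' b' c'
    obtain rfl : x = y := tx_eq ((le_inf ((h.sym a a').2 (b.trans c')) b').trans c) (by rw [a, a'])
    have := finrank_mono ((le_inf c' le_rfl).trans c)
    omega
  obtain ⟨y, -, hy⟩ := tx_pt (A := (⊤ : Submodule F V)) (by rw [finrank_top]; omega)
  have dy := h.dim y hy
  obtain ⟨a, -, ha, na⟩ := tx_out (A := W y) (U := ⊤) (by rw [finrank_top]; omega)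
  have da := finrank_sup_pt ha na
  obtain ⟨b, -, hb, nb⟩ := tx_out (A := W y ⊔ a) (U := ⊤) (by rw [finrank_top]; omega)
  have ya : y ≠ a := fun c => na (c ▸ h.le y hy)
  have dl := finrank_sup_pts hy ha ya
  have dA : finrank F ↥(y ⊔ a ⊔ b) = 3 := by
    rw [finrank_sup_pt hb fun c => nb (c.trans (sup_le_sup_right (h.le y hy) _)), dl]
  have tA : T1 (y, y ⊔ a ⊔ b) := by
    refine ⟨hy, le_sup_left.trans le_sup_left, (tx_eq (le_inf (h.le y hy) (le_sup_left.trans le_sup_left)) ?_).ge⟩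
    have := finrank_sup_add_finrank_inf_eq (W y) (y ⊔ a ⊔ b)
    rw [← sup_assoc, ← sup_assoc, sup_eq_left.2 (h.le y hy), finrank_sup_pt hb nb] at this
    omega
  obtain ⟨EB, b1, b2, dB⟩ := exists_between (h.le y hy) (k := 3) (by omega) (by omega)
  have tB : T3 (y, EB) := ⟨hy, b1, b2⟩
  have two : ∀ E : Submodule F V, finrank F E = 3 → Cj Γ (y ⊔ a ⊔ b) E ∨ Cj Γ EB E := fun E hE =>
    cj_of_two h1 dA dB hE fun ⟨g, e⟩ => nAB _ dB (e ▸ iA g _ ⟨y, tA⟩) ⟨y, tB⟩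
  have AB : ∀ E : Submodule F V, finrank F E = 3 → ¬A E → B E := fun E hE n => by
    rcases two E hE with ⟨g, e⟩ | ⟨g, e⟩
    exacts [absurd (e ▸ iA g _ ⟨y, tA⟩) n, e ▸ iB g _ ⟨y, tB⟩]
  obtain ⟨m, m1, m2, dm⟩ := exists_between (h.le y hy) (k := 2) (by omega) (by omega)
  have mM := (h.mem' hy dm m1).2 m2
  have n1 : ∀ {u m E : Submodule F V}, finrank F m = 2 → m ≤ W u → m ≤ E → ¬T1 (u, E) := fun dm e1 e2 c => by
    have := finrank_mono ((le_inf e1 e2).trans c.2.2)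
    have := c.1
    dsimp only at *
    omega
  by_cases cA : ∃ x ∈ G2 F V 1 3, ¬T1 x ∧ ¬T3 x ∧ A x.2
  swap
  · obtain ⟨v, hv⟩ := not_cover (pts m) (by rw [card_pts, dm, th_two]) W fun u hu => by rwa [h.dim u (mem_pts.1 hu).2]
    obtain ⟨E, mE, vE, dE⟩ := tx_ext m v (by omega)
    obtain ⟨x, x1, x2, x3⟩ : B E := by
      by_contra c
      exact cA ⟨(y, E), ⟨m1.trans mE, hy, by rw [dE, dm]⟩, n1 dm m2 mE, fun k => c ⟨y, k⟩, by_contra fun k => c (AB E (by omega) k)⟩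
    by_cases c : x ≤ m
    · exact hv x (mem_pts.2 ⟨c, x1⟩) (x3 vE)
    · rw [← tx_sup mE x2 dE.le c] at vE
      exact hv y (mem_pts.2 ⟨m1, hy⟩) (sup_le m2 ((h.sym hy x1).2 ((m1.trans mE).trans x3)) vE)
  by_cases cB : ∃ x ∈ G2 F V 1 3, ¬T1 x ∧ ¬T3 x ∧ ¬A x.2
  · obtain ⟨x, hx, x1, x2, x3⟩ := cA
    obtain ⟨x', hx', x1', x2', x3'⟩ := cB
    refine tx_many (Nat.lt_succ_of_le h2) (fun x => if T1 x then 0 else if T3 x then 1 else if A x.2 then 2 else 3)
      (fun g x _ => by simp only [tx_iff i1, tx_iff i3, Prod.smul_snd, tx_iff iA]) fun i hi => ?_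
    interval_cases i
    · exact ⟨_, ⟨tA.2.1, hy, dA⟩, if_pos tA⟩
    · exact ⟨_, ⟨b1, hy, dB⟩, by rw [if_neg fun c => nAB _ dB ⟨y, c⟩ ⟨y, tB⟩, if_pos tB]⟩
    · exact ⟨x, hx, by rw [if_neg x1, if_neg x2, if_pos x3]⟩
    · exact ⟨x', hx', by rw [if_neg x1', if_neg x2', if_neg x3']⟩
  have all3 : ∀ E u : Submodule F V, finrank F E = 3 → B E → finrank F u = 1 → u ≤ E → E ≤ W u := fun E u hE hB hu e =>
    by_contra fun c => cB ⟨(u, E), ⟨e, hu, hE⟩, fun k => nAB E hE ⟨u, k⟩ hB, fun k => c k.2.2, fun k => nAB E hE k hB⟩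
  have mono : ∀ y z : Submodule F V, finrank F y = 1 → finrank F z = 1 → z ≤ W y → W y ≤ W z := fun y z hy hz e =>
    le_of_pts fun x hx e' => by
      obtain ⟨E, e1, e2, hE⟩ := exists_between (sup_le (sup_le (h.le y hy) e) e') (k := 3)
        (by have := finrank_add_le_finrank_add_finrank (y ⊔ z) x; have := finrank_add_le_finrank_add_finrank y z; omega)
        (by rwa [h.dim y hy])
      rw [sup_le_iff, sup_le_iff] at e1
      exact e1.2.trans (all3 E z hE ⟨y, hy, e1.1.1, e2⟩ hz e1.1.2)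
  have w2 : w + w ≤ finrank F V := by
    by_contra c
    obtain ⟨x, x1, x2, x3⟩ := exists_pt_inf (le_top : W y ≤ ⊤) (le_top : W a ≤ ⊤) (by rw [finrank_top, dy, h.dim a ha]; omega)
    exact na (((h.sym x3 ha).2 x2).trans (mono x y x3 hy ((h.sym x3 hy).2 x1)))
  have dE : finrank F ↥(m ⊔ a) = 3 := by rw [finrank_sup_pt ha fun c => na (c.trans m2), dm]
  have nB : ∀ E : Submodule F V, finrank F E = 3 → y ⊔ a ≤ E → ¬B E := fun E hE e c =>
    na ((le_sup_right.trans e).trans (all3 E y hE c hy (le_sup_left.trans e)))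
  have cjA : ∀ E : Submodule F V, finrank F E = 3 → y ⊔ a ≤ E → Cj Γ (y ⊔ a ⊔ b) E := fun E hE e =>
    (two E hE).resolve_right fun ⟨g, e'⟩ => nB E hE e (e' ▸ iB g _ ⟨y, tB⟩)
  obtain ⟨v, hv⟩ := not_cover (pts (y ⊔ a)) (by rw [card_pts, dl, th_two]) (fun u => y ⊔ a ⊔ W u) fun u hu => by
    have := finrank_sup_add_finrank_inf_eq (y ⊔ a) (W u)
    have := finrank_mono (le_inf (mem_pts.1 hu).1 (h.le u (mem_pts.1 hu).2))
    have := (mem_pts.1 hu).2
    have := h.dim u this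
    omega
  obtain ⟨E, lE, vE, dE'⟩ := tx_ext (y ⊔ a) v (by omega)
  obtain ⟨g, e⟩ := (cjA _ dE (sup_le_sup_right m1 a)).symm.trans (cjA E (by omega) lE)
  have mE : g • m ≤ E := e ▸ (smul_le g).2 le_sup_left
  have dm' := (finrank_smul g m).trans dm
  obtain ⟨u, u1, u2, u3⟩ := exists_pt_inf lE mE (by omega)
  rw [← tx_sup lE mE dE'.le fun c => na ((h.line hy ha ya).1 (tx_eq c (by omega) ▸ h.iv g m mM))] at vE
  exact hv u (mem_pts.2 ⟨u1, u3⟩) (sup_le_sup_left ((h.mem' u3 dm' u2).1 (h.iv g m mM)) _ vE)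

end Cfsg.Lib.RK3
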